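import Cfsg.Agent.H9.Ch1
import Cfsg.Agent.H18.Pair

/-! Characters vanishing on all but two conjugacy classes (Gagola). -/

set_option autoImplicit false

namespace H9
open Subgroup hiding one
open CF H15 H17 H21 Cfsg
open scoped commutatorElement ComplexConjugate

variable {G : Type*} [Group G] [Finite G] {K N : Subgroup G} {χ θ : G → ℂ}

/-- the set-up of a Gagola character `χ` with support `N` -/
structure Gag (χ : G → ℂ) (N : Subgroup G) : Prop where
  irr : χ ∈ Irr ⊤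
  normal : N.Normal
  ne : N ≠ ⊥
  supp : ∀ g, χ g ≠ 0 ↔ g ∈ N
  cnj : ∀ x ∈ N, ∀ y ∈ N, x ≠ 1 → y ≠ 1 → IsConj x y
  ker : ∀ ψ ∈ Irr ⊤, ψ ≠ χ → N ≤ cfker ψ
  faith : ∀ g, χ g = χ 1 → g = 1

theorem exists_gag (hG : 2 < Nat.card G) (h : IsIrrCharacter G χ)
    (h2 : Nat.card {C : ConjClasses G // ∃ g ∈ C.carrier, χ g ≠ 0} = 2) : ∃ N, Gag χ N := by
  classical
  have hχ := mem_Irr_top.2 h
  obtain ⟨⟨C, x, hxC, hx⟩, h3, h4⟩ := (Nat.card_eq_two_iff' (⟨ConjClasses.mk 1, 1,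
    ConjClasses.mem_carrier_mk, h.one_ne_zero⟩ :
      {C : ConjClasses G // ∃ g ∈ C.carrier, χ g ≠ 0})).1 h2
  obtain rfl := ConjClasses.mem_carrier_iff_mk_eq.1 hxC
  have hx1 : x ≠ 1 := by rintro rfl; exact h3 rfl
  have h5 : ∀ g, χ g ≠ 0 → g ≠ 1 → IsConj x g := fun g hg h1 =>
    ConjClasses.mk_eq_mk_iff_isConj.1 (congrArg Subtype.val (h4 ⟨ConjClasses.mk g, g,
      ConjClasses.mem_carrier_mk, hg⟩ fun e => h1 (isConj_one_left.1
        (ConjClasses.mk_eq_mk_iff_isConj.1 (congrArg Subtype.val e))))).symm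
  set c := (centralizer ({x} : Set G)).index with hc
  have h6 : ∀ ψ ∈ Irr (⊤ : Subgroup G), (Nat.card G : ℂ) * dot ⊤ χ ψ =
      χ 1 * conj (ψ 1) + c * (χ x * conj (ψ x)) := fun ψ hψ => by
    rw [dot_supp (H := ⊤) (A := {1} ∪ {g | IsConj x g}) (fun _ _ => trivial) (fun g hg => by_contra fun e =>
      hg ((em (g = 1)).imp_right (h5 g e))), card_top, mul_inv_cancel_left₀ card_ne_zero_complex,
      sum_fs_union (B := {g | IsConj x g}) (Set.disjoint_singleton_left.2 fun e => hx1 (isConj_one_left.1 e)),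
      fs_singleton, Finset.sum_singleton, sum_fs_congr (g := fun _ => χ x * conj (ψ x))
        fun g hg => by
          rw [h.isClassFunction.of_isConj hg, (mem_Irr_top.1 hψ).isClassFunction.of_isConj hg],
      sum_fs_const, ← Nat.card_coe_set_eq, hc, ← card_isConj]
    rfl
  have h7 : χ ≠ one ⊤ := by
    rintro rfl
    have := h6 _ hχ
    rw [dot_one_one, one_top] at this
    have h8 : Nat.card G = 1 + c := by
      simp only [Pi.one_apply, map_one, mul_one] at this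
      exact_mod_cast this
    have h9 : c ∣ 1 := (Nat.dvd_add_left dvd_rfl).1 (h8 ▸ index_dvd_card _)
    have := Nat.le_of_dvd one_pos h9
    omega
  have h8 := h6 _ (one_mem_Irr ⊤)
  rw [dot_irr_ne hχ (one_mem_Irr ⊤) h7, one_top] at h8
  simp only [Pi.one_apply, map_one, mul_one, mul_zero] at h8
  have h9 : ∀ ψ ∈ Irr (⊤ : Subgroup G), ψ ≠ χ → ∀ g, IsConj x g → g ∈ cfker ψ :=
    fun ψ hψ hne g hg => by
      have := h6 ψ hψ
      rw [dot_irr_ne hχ hψ hne.symm, mul_zero] at this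
      rw [irr_mem_cfker hψ, ← (mem_Irr_top.1 hψ).isClassFunction.of_isConj hg]
      refine (starRingEnd ℂ).injective (mul_left_cancel₀ h.one_ne_zero ?_)
      linear_combination this - conj (ψ x) * h8
  set N := ⨅ ψ : {ψ // ψ ∈ Irr (⊤ : Subgroup G) ∧ ψ ≠ χ}, cfker ψ.1 with hN
  have hN1 : ∀ g, χ g ≠ 0 ↔ g ∈ N := fun g => by
    by_cases h1 : g = 1
    · exact ⟨fun _ => h1 ▸ one_mem _, fun _ => h1 ▸ h.one_ne_zero⟩
    refine ⟨fun e => mem_iInf.2 fun ψ => h9 _ ψ.2.1 ψ.2.2 g (h5 g e h1), fun e h0 => ?_⟩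
    have h10 := sum_irr_one_mul ⊤ h1
    rw [← Finset.add_sum_erase _ _ hχ, h0, mul_zero, zero_add, Finset.sum_congr rfl
      (g := fun ψ => ((charDegree ψ ^ 2 : ℕ) : ℂ)) fun ψ hψ => by
        have := Finset.mem_erase.1 hψ
        rw [(irr_mem_cfker this.2).1 (mem_iInf.1 e ⟨ψ, this.2, this.1⟩), Nat.cast_pow,
          deg_cast this.2, sq], ← Nat.cast_sum, Nat.cast_eq_zero, Finset.sum_eq_zero_iff] at h10
    exact (pow_pos (deg_pos (one_mem_Irr ⊤)) 2).ne'
      (h10 _ (Finset.mem_erase.2 ⟨h7.symm, one_mem_Irr ⊤⟩))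
  refine ⟨N, hχ, ⟨fun a ha g => (hN1 _).1 (by rw [h.isClassFunction]; exact (hN1 _).2 ha)⟩,
    fun e => hx1 (mem_bot.1 (e ▸ (hN1 x).1 hx)), hN1, fun a ha b hb h1 h2 =>
      (h5 a ((hN1 a).2 ha) h1).symm.trans (h5 b ((hN1 b).2 hb) h2),
    fun ψ hψ hne => iInf_le_of_le ⟨ψ, hψ, hne⟩ le_rfl, fun g hg => by_contra fun h1 => ?_⟩
  rw [h.isClassFunction.of_isConj (h5 g (hg ▸ h.one_ne_zero) h1), hg] at h8
  have h10 : ((1 + c : ℕ) : ℂ) * χ 1 = 0 := by push_cast; linear_combination -h8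
  exact h.one_ne_zero ((mul_eq_zero.1 h10).resolve_left (Nat.cast_ne_zero.2 (by omega)))

theorem Gag.le (h : Gag χ N) [K.Normal] (hK : K ≠ ⊥) : N ≤ K := fun _ hg =>
  mem_of_forall_IrrQ le_top (top_le_norm K) fun ψ hψ => cfker_apply
    (h.ker ψ (mem_IrrQ.1 hψ).1 (fun e => hK (eq_bot_iff.2 fun k hk =>
      h.faith k (cfker_apply (e ▸ (mem_IrrQ.1 hψ).2 hk)))) hg)

theorem Gag.eq_of_faith (h : Gag χ N) {ψ : G → ℂ} (hψ : ψ ∈ Irr ⊤)
    (hf : ∀ g, ψ g = ψ 1 → g = 1) : ψ = χ := by_contra fun e =>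
  h.ne (eq_bot_iff.2 fun g hg => hf g (cfker_apply (h.ker ψ hψ e hg)))

theorem Gag.elem (h : Gag χ N) : ∃ p : ℕ, p.Prime ∧ IsElementaryAbelian p N := by
  haveI := h.normal
  obtain ⟨p, hp, hd⟩ := Nat.exists_prime_and_dvd (fun e => h.ne (eq_bot_of_card_eq N e))
  haveI := Fact.mk hp
  obtain ⟨x, hx⟩ := exists_prime_orderOf_dvd_card' p hd
  have hx1 : (x : G) ≠ 1 := fun e => hp.one_lt.ne (by
    rw [← hx, ← orderOf_coe, e, orderOf_one])
  have h1 : ∀ a ∈ N, a ^ p = 1 := fun a ha => by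
    by_cases h1 : a = 1
    · rw [h1, one_pow]
    obtain ⟨g, rfl⟩ := isConj_iff.1 (h.cnj _ x.2 a ha hx1 h1)
    rw [conj_pow, ← hx, ← orderOf_coe, pow_orderOf_eq_one, mul_one, mul_inv_cancel]
  have h2 : IsPGroup p N := fun a => ⟨1, Subtype.ext (by simpa using h1 a a.2)⟩
  haveI := (nontrivial_iff_ne_bot N).2 h.ne
  have h3 := h.le (K := (center N).map N.subtype) (by
    rw [Ne, map_eq_bot_iff_of_injective _ N.subtype_injective, ← Ne, ← nontrivial_iff_ne_bot]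
    exact h2.center_nontrivial)
  refine ⟨p, hp, ⟨⟨fun a b => ?_⟩⟩, h1⟩
  obtain ⟨z, hz, e⟩ := h3 b.2
  exact Subtype.ext e ▸ mem_center_iff.1 hz a

theorem Gag.index_cent (h : Gag χ N) {x : G} (hx : x ∈ N) (h1 : x ≠ 1) :
    (centralizer ({x} : Set G)).index + 1 = Nat.card N := by
  have e : (N : Set G) = insert 1 {g | IsConj x g} := Set.ext fun g =>
    ⟨fun hg => (em (g = 1)).imp_right (h.cnj x hx g hg h1), by
      rintro (rfl | hg)
      · exact one_mem _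
      · obtain ⟨c, rfl⟩ := isConj_iff.1 hg
        exact h.normal.conj_mem x hx c⟩
  rw [← card_isConj, ← SetLike.coe_sort_coe, e, Nat.card_coe_set_eq, Set.ncard_insert_of_notMem
    (s := {g | IsConj x g}) fun e => h1 (isConj_one_left.1 e)]
  rfl

theorem Gag.index_stab (h : Gag χ N) (hθ : θ ∈ Irr N) (h1 : θ ≠ one N) :
    (stab θ).index + 1 = Nat.card N := by
  classical
  haveI := h.normal
  have hn := top_le_norm N
  have h2 : ∀ φ ∈ Irr N, φ ≠ one N → dot N χ φ ≠ 0 := fun φ hφ hne => by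
    obtain ⟨ψ, hψ, hd⟩ := exists_over (le_top : N ≤ ⊤) hφ
    by_cases e : ψ = χ
    · exact e ▸ hd
    exact absurd (irr_eq_one_of_le_cfker hφ (le_cfker_of_under le_top le_rfl (irr_char hψ) hφ hd
      (h.ker ψ hψ e))) hne
  have h3 : orb ⊤ θ = (Irr N).erase (one N) := Finset.ext fun φ => by
    rw [Finset.mem_erase]
    refine ⟨fun e => ⟨?_, orb_subset_Irr hn hθ e⟩, fun e =>
      clifford_mem_orb le_top hn h.irr hθ e.2 (h2 θ hθ h1) (h2 φ e.2 e.1)⟩
    obtain ⟨g, hg, rfl⟩ := mem_orb.1 e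
    exact fun e' => h1 ((cfj_eq_one_iff (hn hg)).1 e')
  obtain ⟨p, -, hp⟩ := h.elem
  rw [← relIndex_top_right, ← card_orb, h3, Finset.card_erase_add_one (one_mem_Irr N),
    card_Irr_of_comm hp.1]

theorem Gag.eq (h : Gag χ N) (hK : ∀ g, g ∈ K ↔ χ g ≠ 0) : N = K :=
  Subgroup.ext fun g => (h.supp g).symm.trans (hK g).symm

theorem Gag.irrQ (h : Gag χ N) [DecidableEq (G → ℂ)] : IrrQ ⊤ N = (Irr ⊤).erase χ :=
  Finset.ext fun ψ => by
    rw [mem_IrrQ, Finset.mem_erase]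
    exact ⟨fun e => ⟨fun e' => h.ne (eq_bot_iff.2 fun g hg =>
      h.faith g (cfker_apply (e' ▸ e.2 hg))), e.1⟩, fun e => ⟨e.2, h.ker ψ e.2 e.1⟩⟩

theorem Gag.sylow (h : Gag χ N) {p : ℕ} [hp : Fact p.Prime] (hN : IsPGroup p N) {H : Subgroup G}
    (hH : H.index + 1 = Nat.card N) : ∃ P : Sylow p G, H = P := by
  classical
  haveI := h.normal
  obtain ⟨x, hx, hx1⟩ := (bot_or_exists_ne_one N).resolve_left h.ne
  obtain ⟨a, ha⟩ := IsPGroup.iff_card.1 hN
  have ha0 : a ≠ 0 := fun e => h.ne (eq_bot_of_card_eq N (by rw [ha, e, pow_zero]))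
  have hpH : ¬ p ∣ H.index := fun e => hp.out.one_lt.ne' (Nat.dvd_one.1
    ((Nat.dvd_add_right e).1 (hH ▸ ha ▸ dvd_pow_self p ha0)))
  suffices hs : IsPGroup p H from ⟨hs.toSylow hpH, rfl⟩
  set d := charDegree χ with hd
  set m := H.index with hm
  have h1 : d ^ 2 + N.index = Nat.card G := by
    have h2 := sum_IrrQ_sq le_top (top_le_norm N)
    have h3 := sum_irr_sq (⊤ : Subgroup G)
    rw [← Finset.add_sum_erase _ _ h.irr, ← h.irrQ, h2, ← deg_cast h.irr, card_top,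
      relIndex_top_right] at h3
    exact_mod_cast h3
  have h2 : d ^ 2 = m * N.index := by
    rw [← N.card_mul_index, ← hH] at h1
    linarith
  -- `m` divides the degree
  have h3 : m ∣ d := by
    have h4 := dot_one_eq_zero_of_not_le le_top (top_le_norm N) h.irr
      fun e => hx1 (h.faith x (cfker_apply (e hx)))
    have h5 : ((N : Set G) \ {1}).ncard = m := by
      rw [Set.ncard_diff_singleton_of_mem N.one_mem, ← Nat.card_coe_set_eq, SetLike.coe_sort_coe,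
        ← hH, Nat.add_sub_cancel]
    rw [dot_one_right, mul_eq_zero, inv_eq_zero, or_iff_right (card_ne N),
      sum_fs_diff (Set.singleton_subset_iff.2 N.one_mem), fs_singleton, Finset.sum_singleton,
      sum_fs_congr (g := fun _ => χ x) (fun g hg => ((mem_Irr_top.1 h.irr).isClassFunction.of_isConj
        (h.cnj x hx g hg.1 hx1 hg.2)).symm), sum_fs_const, h5, ← deg_cast h.irr] at h4
    have hm0 : (m : ℂ) ≠ 0 := Nat.cast_ne_zero.2 index_ne_zero_of_finite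
    obtain ⟨n, hn⟩ := (mem_vchar_top.1 (irr_vchar h.irr)).exists_int_of_rat (g := x)
      (q := -(d : ℚ) / m) (by push_cast; field_simp; linear_combination h4)
    rw [hn] at h4
    have h6 : (d : ℤ) + m * n = 0 := by exact_mod_cast h4
    exact Int.natCast_dvd_natCast.1 ⟨-n, by linarith⟩
  obtain ⟨e, he⟩ := h3
  have hm0 : 0 < m := Nat.pos_of_ne_zero index_ne_zero_of_finite
  have h4 : N.index = m * e ^ 2 := Nat.eq_of_mul_eq_mul_left hm0 (by rw [← h2, he]; ring)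
  have h5 : Nat.card H = p ^ a * e ^ 2 := Nat.eq_of_mul_eq_mul_right hm0 (by
    rw [H.card_mul_index, ← N.card_mul_index, ha, h4]; ring)
  have he0 : e ≠ 0 := by
    rintro rfl
    exact (deg_pos h.irr).ne' he
  refine IsPGroup.iff_card.2 ⟨_, Nat.eq_prime_pow_of_unique_prime_dvd Nat.card_pos.ne'
    fun {q} hq hd => by_contra fun hne => ?_⟩
  haveI := Fact.mk hq
  have hqp : q.Coprime p := (Nat.coprime_primes hq hp.out).2 hne
  have h6 : q ∣ e := hq.dvd_of_dvd_pow ((hqp.pow_right a).dvd_of_dvd_mul_left (h5 ▸ hd))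
  obtain ⟨Q⟩ : Nonempty (Sylow q G) := inferInstance
  obtain ⟨k, hk⟩ := H18.dvd_of_vanish (le_top : (Q : Subgroup G) ≤ ⊤) (irr_vchar h.irr)
    fun y hy h1 => by_contra fun h0 => h1 ((disjoint_def.1 (IsPGroup.disjoint_of_ne q p hne _ _
      Q.isPGroup' hN)) hy ((h.supp y).1 h0))
  rw [← deg_cast h.irr] at hk
  have h7 : Nat.card Q ∣ m * e := he ▸ Int.natCast_dvd_natCast.1 ⟨k, by exact_mod_cast hk⟩
  have h8 : q * (m * e) ∣ Nat.card G := by
    obtain ⟨f, rfl⟩ := h6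
    exact ⟨p ^ a * f, by rw [← N.card_mul_index, ha, h4]; ring⟩
  refine Q.not_dvd_index ((Nat.mul_dvd_mul_iff_left (Nat.card_pos (α := Q))).1 ?_)
  rw [(Q : Subgroup G).card_mul_index, mul_comm]
  exact (Nat.mul_dvd_mul_left q h7).trans h8

theorem Gag.card_cent (h : Gag χ N) [N.Normal] {x : G} (hx : x ∉ N) :
    Nat.card (centralizer ({x} : Set G)) =
      Nat.card (centralizer ({(x : G ⧸ N)} : Set (G ⧸ N))) := by
  classical
  have h1 := column_orthogonality_self x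
  rw [← Finset.sum_filter_of_ne (p := fun ψ : IrrCharacter G => N ≤ charKer (ψ : G → ℂ))
    (fun ψ _ hψ => h.ker _ (mem_Irr_top.2 ψ.2) fun e => hψ (by
      rw [e, not_not.1 (mt (h.supp x).1 hx), zero_mul])),
    sum_irr_ker_eq N (fun ψ => ψ x * conj (ψ x)), column_orthogonality_self] at h1
  exact_mod_cast h1.symm

theorem card_le_cent_mul {P M : Subgroup G} {z : G} (h : ∀ g ∈ P, ⁅g, z⁆ ∈ M) :
    Nat.card P ≤ Nat.card ↥(P ⊓ centralizer {z}) * Nat.card M := by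
  classical
  rw [← Nat.card_prod]
  have : ∀ g : P, ∃ r : P, ⁅(r : G), z⁆ = ⁅(g : G), z⁆ := fun g => ⟨g, rfl⟩
  let r : G → P := fun m => if hm : ∃ r : P, ⁅(r : G), z⁆ = m then hm.choose else 1
  have hr : ∀ g : P, ⁅(r ⁅(g : G), z⁆ : G), z⁆ = ⁅(g : G), z⁆ := fun g => by
    simp only [r, dif_pos (this g)]
    exact (this g).choose_spec
  refine Nat.card_le_card_of_injective (fun g : P => (⟨(r ⁅(g : G), z⁆ : G)⁻¹ * g,
    P.mul_mem (inv_mem (r _).2) g.2, mem_centralizer_singleton_iff.2 ?_⟩, ⟨_, h g g.2⟩)) ?_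
  · have := hr g
    generalize (r ⁅(g : G), z⁆ : G) = s at this
    simp only [commutatorElement_def, mul_left_inj] at this
    calc s⁻¹ * g * z = s⁻¹ * (g * z * (g : G)⁻¹) * g := by group
      _ = z * (s⁻¹ * g) := by rw [← this]; group
  · intro a b e
    have h1 : ⁅(a : G), z⁆ = ⁅(b : G), z⁆ := congrArg (fun x => (x.2 : G)) e
    have h2 : (r ⁅(a : G), z⁆ : G)⁻¹ * a = (r ⁅(b : G), z⁆ : G)⁻¹ * b :=
      congrArg (fun x => (x.1 : G)) e
    rw [h1] at h2
    exact Subtype.ext (mul_left_cancel h2)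

theorem Gag.mem_of_comm (h : Gag χ N) {p : ℕ} [hp : Fact p.Prime] (hN : IsPGroup p N)
    (P : Sylow p G) {M : Subgroup G} (hM : Nat.card M < Nat.card N) {z : G}
    (hz : ∀ g ∈ (P : Subgroup G), ⁅g, z⁆ ∈ M) : z ∈ N := by
  haveI := h.normal
  by_contra hc
  have h1 := card_le_cent_mul hz
  have h2 : Nat.card ↥((P : Subgroup G) ⊓ centralizer {z}) * Nat.card N ∣ Nat.card G := by
    refine (Nat.mul_dvd_mul_right (card_dvd_of_le inf_le_right) _).trans ?_
    rw [h.card_cent hc, ← N.index_mul_card]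
    exact Nat.mul_dvd_mul_right (card_subgroup_dvd_card _) _
  obtain ⟨a, ha⟩ := IsPGroup.iff_card.1 hN
  obtain ⟨b, hb⟩ := IsPGroup.iff_card.1 (P.isPGroup'.to_inf_left (K := centralizer {z}))
  have h3 : p ^ (b + a) ∣ Nat.card P := by
    rw [P.card_eq_multiplicity]
    exact pow_dvd_pow p ((hp.out.pow_dvd_iff_le_factorization Nat.card_pos.ne').1
      (by rwa [ha, hb, ← pow_add] at h2))
  have h4 := (Nat.le_of_dvd Nat.card_pos h3).trans h1
  rw [pow_add, ← ha, ← hb] at h4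
  exact hM.not_ge (Nat.le_of_mul_le_mul_left h4 Nat.card_pos)

end H9
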