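import Cfsg.Agent.H3.S8h

set_option autoImplicit false
open Subgroup Equiv H3S

namespace H9.Ct1

instance deP : DecidableEq P := fun x y =>
  decidable_of_iff ((∀ i, x.1 i = y.1 i) ∧ ∀ i, x.2 i = y.2 i)
    (by rw [Prod.ext_iff, Equiv.ext_iff, Equiv.ext_iff])

def DL : List P := [1, z0, z0⁻¹, z1, z1⁻¹, z0 * z1, z0⁻¹ * z1, z0 * z1⁻¹, z0⁻¹ * z1⁻¹]

theorem DL_all : (DL.all fun x => DL.all fun y =>
    decide (x * y ∈ DL ∧ x * y = y * x ∧ x⁻¹ ∈ DL ∧ x ^ 3 = 1)) = true := by decide +kernel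

theorem DL_f {x y : P} (hx : x ∈ DL) (hy : y ∈ DL) :
    x * y ∈ DL ∧ x * y = y * x ∧ x⁻¹ ∈ DL ∧ x ^ 3 = 1 :=
  of_decide_eq_true (List.all_eq_true.1 (List.all_eq_true.1 DL_all x hx) y hy)

theorem DL_nd : DL.Nodup := by decide +kernel

def D0 : Subgroup P where
  carrier := {x | x ∈ DL}
  one_mem' := List.mem_cons_self
  mul_mem' := fun hx hy => (DL_f hx hy).1
  inv_mem' := fun hx => (DL_f hx hx).2.2.1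

theorem card_D0 : Nat.card D0 = 9 := by
  have := Nat.subtype_card (p := fun x : P => x ∈ D0) DL.toFinset fun x => List.mem_toFinset
  rw [List.toFinset_card_of_nodup DL_nd] at this
  exact this

theorem F1 : ∀ (a : Perm (Fin 3)) (b : Perm (Fin 5)), (a, b) * z0 = z0 * (a, b) →
    (a, b) * z1 = z1 * (a, b) → (a, b) ∈ DL ∨ (a, b) * t0 ∈ DL := by decide +kernel

theorem F2 : ∀ (a : Perm (Fin 3)) (b : Perm (Fin 5)), (a, b) * t0 = t0 * (a, b) →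
    ((a, b) * z0 * (a, b)⁻¹ = z0 ∨ (a, b) * z0 * (a, b)⁻¹ = z0⁻¹) ∧
    ((a, b) * z1 * (a, b)⁻¹ = z1 ∨ (a, b) * z1 * (a, b)⁻¹ = z1⁻¹) := by decide +kernel

theorem F5 : ∀ (a : Perm (Fin 3)) (b : Perm (Fin 5)), (a, b) * z0 = z0 * (a, b) →
    (a, b) * (a, b) = (1 : P) → (a, b) * r0 = r0 * (a, b) := by decide +kernel

def w5 : P := (1, swap 0 1 * swap 1 2 * swap 2 3 * swap 3 4)

theorem F6 : w5 ^ 5 = 1 ∧ w5 ≠ 1 ∧ w5 * z0 = z0 * w5 := by decide +kernel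

theorem F7 : r0 * z0 * r0⁻¹ = z0⁻¹ ∧ r0 * z1 * r0⁻¹ = z1 ∧ r1 * z0 * r1⁻¹ = z0 ∧
    r1 * z1 * r1⁻¹ = z1⁻¹ ∧ r0 * t0 = t0 * r0 ∧ r1 * t0 = t0 * r1 ∧ r0 * r0 = 1 ∧ t0 * t0 = 1 ∧
    t0 ≠ 1 ∧ z0 * t0 = t0 * z0 ∧ z1 * t0 = t0 * z1 ∧ z0 ≠ z0⁻¹ ∧ z0 ≠ z1 ∧ z0 * z1 = z1 * z0 ∧
    z0⁻¹ ≠ z1 ∧ z1 ≠ z1⁻¹ ∧ z0 ≠ z1⁻¹ := by
  decide +kernel

end H9.Ct1
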