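import Cfsg.Agent.H9.Sh3

/-! Exceptional elements in the situation of Theorem B of Hall and Higman. -/

set_option autoImplicit false

namespace H9
open Module H2 Subgroup H15 Cfsg
open scoped commutatorElement

section Cm
variable {G : Type*} [Group G]

/-- elements acting trivially on the section `L / R` -/
def cm (L R : Subgroup G) : Subgroup G where
  carrier := {g | g ∈ 𝒩(L) ∧ g ∈ 𝒩(R) ∧ ∀ k ∈ L, ⁅k, g⁆ ∈ R}
  one_mem' := ⟨one_mem _, one_mem _, fun k _ => by simp⟩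
  mul_mem' := by
    rintro a b ⟨a1, a2, a3⟩ ⟨b1, b2, b3⟩
    refine ⟨mul_mem a1 b1, mul_mem a2 b2, fun k hk => ?_⟩
    have e : ⁅k, a * b⁆ = ⁅k, a⁆ * (a * ⁅k, b⁆ * a⁻¹) := by
      simp only [commutatorElement_def]; group
    rw [e]
    exact mul_mem (a3 k hk) (H1.conj_mem_of_mem_normalizer a2 (b3 k hk))
  inv_mem' := by
    rintro a ⟨a1, a2, a3⟩
    refine ⟨inv_mem a1, inv_mem a2, fun k hk => ?_⟩
    have e : ⁅k, a⁻¹⁆ = a⁻¹ * ⁅k, a⁆⁻¹ * a := by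
      simp only [commutatorElement_def]; group
    rw [e]
    exact H1.conj_mem_of_mem_normalizer' a2 (inv_mem (a3 k hk))

theorem le_cm_iff {L R A : Subgroup G} : A ≤ cm L R ↔ A ≤ 𝒩(L) ∧ A ≤ 𝒩(R) ∧ ⁅L, A⁆ ≤ R :=
  ⟨fun h => ⟨fun _ ha => (h ha).1, fun _ ha => (h ha).2.1,
    commutator_le.2 fun k hk _ ha => (h ha).2.2 k hk⟩, fun h _ ha =>
    ⟨h.1 ha, h.2.1 ha, fun _ hk => h.2.2 (commutator_mem_commutator hk ha)⟩⟩

theorem mem_cm_iff {L R : Subgroup G} {x : G} (h1 : x ∈ 𝒩(L)) (h2 : x ∈ 𝒩(R)) :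
    x ∈ cm L R ↔ ⁅L, zpowers x⁆ ≤ R := by
  rw [← zpowers_le, le_cm_iff, zpowers_le, zpowers_le]
  exact ⟨fun h => h.2.2, fun h => ⟨h1, h2, h⟩⟩

theorem comm_zpowers_le {L R : Subgroup G} {x : G} (h1 : x ∈ 𝒩(L)) (h2 : x ∈ 𝒩(R))
    (h : ∀ k ∈ L, ⁅k, x⁆ ∈ R) : ⁅L, zpowers x⁆ ≤ R := (mem_cm_iff h1 h2).1 ⟨h1, h2, h⟩

theorem le_norm_cm {L R A : Subgroup G} (h1 : A ≤ 𝒩(L)) (h2 : A ≤ 𝒩(R)) : A ≤ 𝒩(cm L R) := by
  refine le_norm_of_cj_le fun a ha => ?_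
  rintro _ ⟨g, ⟨g1, g2, g3⟩, rfl⟩
  refine ⟨mul_mem (mul_mem (h1 ha) g1) (inv_mem (h1 ha)),
    mul_mem (mul_mem (h2 ha) g2) (inv_mem (h2 ha)), fun k hk => ?_⟩
  have e : ⁅k, a * g * a⁻¹⁆ = a * ⁅a⁻¹ * k * a, g⁆ * a⁻¹ := by
    simp only [commutatorElement_def]; group
  exact e ▸ H1.conj_mem_of_mem_normalizer (h2 ha)
    (g3 _ (H1.conj_mem_of_mem_normalizer' (h1 ha) hk))

end Cm

variable {F W G : Type*} [Field F] [AddCommGroup W] [Module F W] [Group G] {ρ : G →* End F W}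

theorem heis_setup' [Finite G] {Q B : Subgroup G} {U : Submodule F W} (hQU : Q ≤ stabOn ρ U)
    (hBU : B ≤ stabOn ρ U) (hBQ : B ≤ 𝒩(Q)) (hcop : (Nat.card B).Coprime (Nat.card Q))
    (hs : Group.IsSolvable B ∨ Group.IsSolvable Q)
    (hsc : ∀ z ∈ ⁅Q, Q⁆, ∃ c : F, ∀ w ∈ U, ρ z w = c • w) {l : G → F} {X : Submodule F W}
    (hX0 : X ≠ ⊥) (hX : X ≤ U ⊓ wt ρ (relC Q (kerOn ρ U)) l)
    (hP : ⁅Q, B⁆ ⊔ relC Q (kerOn ρ U) ≤ stabOn ρ X) :
    Heis (resRep (ρ.comp (⁅Q, B⁆ ⊔ relC Q (kerOn ρ U)).subtype) X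
      (fun k _ hu => stabOn_apply (hP k.2) hu))
      ((relC Q (kerOn ρ U)).subgroupOf (⁅Q, B⁆ ⊔ relC Q (kerOn ρ U))) := by
  set R := relC Q (kerOn ρ U) with hR
  have hQY : Q ≤ 𝒩(kerOn ρ U) := hQU.trans (stabOn_le_norm_kerOn U)
  have hRQ : R ≤ Q := relC_le _ _
  have hPQ : ⁅Q, B⁆ ⊔ R ≤ Q := sup_le (comm_le_left hBQ) hRQ
  exact
    { comm := by
        rw [← map_le_map_iff_of_injective (⁅Q, B⁆ ⊔ R).subtype_injective, map_subtype_commutator,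
          map_subgroupOf le_sup_right]
        exact (commutator_mono hPQ hPQ).trans (der_le_rad hQU hsc)
      scal := fun z hz => ⟨l z, by ext u; exact (hX u.2).2 z hz⟩
      nondeg := fun k hk => by
        have h1 : ∀ a ∈ ⁅Q, B⁆, ⁅(k : G), a⁆ ∈ kerOn ρ U := fun a ha =>
          mem_kerOn_of_scalar hX0 (hX.trans inf_le_left) (hsc _ (commutator_mem_commutator
            (hPQ k.2) (hPQ (mem_sup_left ha)))) ((comm_mem_kerOn_iff (hP k.2)
              (hP (mem_sup_left ha))).2 fun w hw =>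
            congrArg Subtype.val (LinearMap.congr_fun (hk ⟨a, mem_sup_left ha⟩) ⟨w, hw⟩))
        have h2 : ∀ c ∈ Q ⊓ 𝒞(B), ⁅(k : G), c⁆ ∈ kerOn ρ U := fun c hc => by
          have : ⁅⁅Q, B⁆ ⊔ R, zpowers c⁆ ≤ kerOn ρ U := comm_sup_left_le
            (commutator_le.2 fun a ha b hb => comm_cent_le_kerOn hQU hBU
              hBQ hsc (zpowers_le.2 hc hb) a ha)
            (commutator_le.2 fun a ha b hb => ((mem_relC hQY).1 ha).2 b (zpowers_le.2 hc hb).1)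
            ((le_sup_left.trans hPQ).trans hQY) (hRQ.trans hQY)
          exact this (commutator_mem_commutator k.2 (mem_zpowers c))
        refine (mem_relC hQY).2 ⟨hPQ k.2, fun a ha => ?_⟩
        obtain ⟨u, hu, c, hc, rfl⟩ := H1.exists_commutator_mul_centralizer hBQ hcop hs ha
        have : ⁅(k : G), u * c⁆ = ⁅(k : G), u⁆ * (u * ⁅(k : G), c⁆ * u⁻¹) := by
          simp only [commutatorElement_def]; group
        show ⁅(k : G), u * c⁆ ∈ _
        rw [this]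
        exact mul_mem (h1 u hu) (H1.conj_mem_of_mem_normalizer
          (hQY (hPQ (mem_sup_left hu))) (h2 c hc)) }

theorem sub_one_pow_mul {X : Submodule F W} {c φ ψ : End F W} (hc : ∀ w ∈ X, c w ∈ X)
    (h1 : ∀ w ∈ X, c (φ w) = φ (c w) + ψ (c w)) (h2 : ∀ w ∈ X, c (ψ w) = ψ (c w)) (i : ℕ) :
    ∀ w ∈ X, ((c - 1) ^ i) (ψ w) = ψ (((c - 1) ^ i) w) ∧ ((c - 1) ^ (i + 1)) (φ w) =
      φ (((c - 1) ^ (i + 1)) w) + ((i + 1 : ℕ) : F) • ψ (((c - 1) ^ i) (c w)) := by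
  induction i with
  | zero =>
    intro w hw
    refine ⟨rfl, ?_⟩
    simp only [zero_add, pow_one, LinearMap.sub_apply, End.one_apply, map_sub, h1 w hw, pow_zero,
      Nat.cast_one, one_smul]
    abel
  | succ i ih =>
    intro w hw
    have e : ∀ v ∈ X, (c - 1) (ψ v) = ψ ((c - 1) v) := fun v hv => by
      simp only [LinearMap.sub_apply, End.one_apply, map_sub, h2 v hv]
    have hm := sub_one_pow_mem hc
    refine ⟨by rw [pow_succ', End.mul_apply, End.mul_apply, (ih w hw).1, e _ (hm i w hw)], ?_⟩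
    have e2 : c (((c - 1) ^ (i + 1)) w) = ((c - 1) ^ (i + 1)) (c w) :=
      LinearMap.congr_fun (((Commute.refl c).sub_right (Commute.one_right c)).pow_right _).eq w
    have e3 : (c - 1) (φ (((c - 1) ^ (i + 1)) w)) =
        φ (((c - 1) ^ (i + 1 + 1)) w) + ψ (((c - 1) ^ (i + 1)) (c w)) := by
      rw [pow_succ' _ (i + 1), End.mul_apply, ← e2]
      generalize hv : ((c - 1) ^ (i + 1)) w = v
      simp only [LinearMap.sub_apply, End.one_apply, map_sub, h1 v (hv ▸ hm _ w hw)]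
      abel
    rw [pow_succ' _ (i + 1), End.mul_apply, (ih w hw).2, map_add, map_smul, e3,
      e _ (hm i _ (hc w hw)), ← End.mul_apply (c - 1) ((c - 1) ^ i), ← pow_succ', ← pow_succ',
      Nat.cast_succ (i + 1), add_smul, one_smul]
    abel

variable [IsAlgClosed F] [FiniteDimensional F W] [Finite G] {p : ℕ} [hp : Fact p.Prime] [CharP F p]

theorem hh_core0 {x : G} {n : ℕ} (hx : x ^ p ^ (n + 1) = 1) {Q : Subgroup G}
    (hQ : (Nat.card Q).Coprime p) (hxQ : x ∈ 𝒩(Q)) {U : Submodule F W}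
    (hQU : Q ≤ stabOn ρ U) (hxU : x ∈ stabOn ρ U)
    (hsc : ∀ z ∈ ⁅Q, Q⁆, ∃ c : F, ∀ w ∈ U, ρ z w = c • w) {l : G → F} {X : Submodule F W}
    (hX0 : X ≠ ⊥) (hX : X ≤ U ⊓ wt ρ (relC Q (kerOn ρ U)) l)
    (hPX : ⁅Q, zpowers (x ^ p ^ n)⁆ ⊔ relC Q (kerOn ρ U) ≤ stabOn ρ X) (hxX : x ∈ stabOn ρ X)
    {r : ℕ} (hr : ∀ w ∈ X, ((ρ x - 1) ^ r) w = 0) (hlt : r < p ^ (n + 1))
    (hc : ¬ ⁅Q, zpowers (x ^ p ^ n)⁆ ≤ relC Q (kerOn ρ U)) :
    (relC Q (kerOn ρ U)).relIndex (⁅Q, zpowers (x ^ p ^ n)⁆ ⊔ relC Q (kerOn ρ U)) =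
        (p ^ (n + 1) - 1) ^ 2 ∧ p ^ (n + 1) - 1 ≤ r := by
  classical
  set y := x ^ p ^ n with hy
  set B := zpowers y with hB
  set R := relC Q (kerOn ρ U) with hR
  have hN := stabOn_le_norm_kerOn (ρ := ρ) U
  have hQY : Q ≤ 𝒩(kerOn ρ U) := hQU.trans hN
  have hRQ : R ≤ Q := relC_le _ _
  have hXQ : zpowers x ≤ 𝒩(Q) := zpowers_le.2 hxQ
  have hXU : zpowers x ≤ stabOn ρ U := zpowers_le.2 hxU
  have hXR : zpowers x ≤ 𝒩(R) := le_norm_relC hQY hXQ (hXU.trans hN)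
  have hBX : B ≤ zpowers x := zpowers_le.2 (pow_mem (mem_zpowers x) _)
  have hQF : (Nat.card Q : F) ≠ 0 := natCast_ne_zero_of_coprime' F hQ
  have hcop : (Nat.card B).Coprime (Nat.card Q) :=
    H1.IsPGroup.coprime_card ((isPGroup_zpowers_of_pow hx).to_le hBX) hQ
  have hBs : Group.IsSolvable B := inferInstance
  set P := ⁅Q, B⁆ ⊔ R with hP
  have hPQ : P ≤ Q := sup_le (comm_le_left (hBX.trans hXQ)) hRQ
  have hX'U : zpowers x ≤ stabOn ρ X := zpowers_le.2 hxX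
  have hXB : zpowers x ≤ 𝒩(B) := le_norm_of_le_cent (cent_comm (hBX.trans
    (le_cent_self inferInstance)))
  have hX'P : zpowers x ≤ 𝒩(P) := le_norm_sup (le_norm_comm hXQ hXB) hXR
  have hy1 : y ≠ 1 := fun h => hc (by
    rw [hB, h, zpowers_one_eq_bot, commutator_bot_right]; exact bot_le)
  have hord : orderOf x = p ^ (n + 1) := orderOf_eq_prime_pow hy1 hx
  have hcard : Nat.card (zpowers x) = p ^ (n + 1) := by rw [Nat.card_zpowers, hord]
  have : Nontrivial X := Submodule.nontrivial_iff_ne_bot.2 hX0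
  let τ := resRep (ρ.comp (zpowers x).subtype) X (fun k u hu => stabOn_apply (hX'U k.2) hu)
  have heis := heis_setup' hQU (hBX.trans hXU) (hBX.trans hXQ) hcop (Or.inl hBs) hsc hX0 hX hPX
  have hr' : (τ ⟨x, mem_zpowers x⟩ - 1) ^ r = 0 := by
    have e : ∀ (k : ℕ) (u : X), (((τ ⟨x, mem_zpowers x⟩ - 1) ^ k) u : W) =
        ((ρ x - 1) ^ k) u := by
      intro k
      induction k with
      | zero => intro u; rfl
      | succ k ih => intro u; rw [pow_succ, pow_succ, End.mul_apply, End.mul_apply, ih]; rfl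
    ext u
    rw [e]
    exact hr u u.2
  obtain ⟨a, b⟩ := heis_deg heis τ (cjAut P (zpowers x) hX'P)
    (fun r k => by ext u; exact LinearMap.congr_fun (cjAut_compat ρ hX'P r k) u)
    (natCast_ne_zero_of_dvd hQF (card_dvd_of_le hPQ))
    (fun h => hc (le_sup_left.trans (subgroupOf_eq_top.1 h))) (g := ⟨x, mem_zpowers x⟩)
    (fun a => by
      obtain ⟨k, hk⟩ := mem_powers_iff_mem_zpowers.2 a.2
      exact ⟨k, Subtype.ext hk⟩)
    (fun m hm hm1 c hc1 hfix => hm1 (by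
      have h1 : y ∈ zpowers (c : G) := pow_mem_zpowers_of_ne_one hp.out hord c.2
        fun h => hc1 (Subtype.ext h)
      have h2 : ∀ b ∈ zpowers (c : G), ∀ (k k' : P), (k' : G) = b * k * b⁻¹ → m k' = m k := by
        have h3 : ∀ (j : ℕ) (k : P), m (cjAut P (zpowers x) hX'P (c ^ j) k) = m k := fun j => by
          induction j with
          | zero => intro k; rw [pow_zero, map_one, MulAut.one_apply]
          | succ j ih =>
            intro k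
            rw [pow_succ, map_mul, MulAut.mul_apply, ih]
            exact DFunLike.congr_fun hfix k
        intro b hb k k' e
        obtain ⟨j, rfl⟩ := mem_powers_iff_mem_zpowers.2 hb
        rw [← h3 j k]
        congr 1
        exact Subtype.ext e
      rw [← MonoidHom.ker_eq_top_iff, eq_top_iff,
        ← map_le_map_iff_of_injective P.subtype_injective, map_top_subtype]
      refine sup_le ?_ fun z hz => ⟨⟨z, mem_sup_right hz⟩, hm _ hz, rfl⟩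
      refine (H1.commutator_commutator_eq (hBX.trans hXQ) hcop (Or.inl hBs)).ge.trans
        (commutator_le.2 fun k hk b hb => ?_)
      have hbP : b ∈ 𝒩(P) := hX'P (hBX hb)
      have h3 : b * k * b⁻¹ ∈ P := H1.conj_mem_of_mem_normalizer hbP (mem_sup_left hk)
      refine ⟨⟨k, mem_sup_left hk⟩ * (⟨_, h3⟩ : P)⁻¹, ?_, ?_⟩
      · rw [SetLike.mem_coe, MonoidHom.mem_ker, map_mul, map_inv,
          h2 b (zpowers_le.2 h1 hb) ⟨k, mem_sup_left hk⟩ ⟨_, h3⟩ rfl, mul_inv_cancel]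
      · simp [commutatorElement_def, mul_assoc])) hr' (hcard ▸ hlt)
  rw [hcard] at a b
  exact ⟨a.symm, b⟩

/-- An exceptional element centralizes everything its subgroup of order `p` centralizes. -/
theorem hh_extra {x : G} {n : ℕ} (hx : x ^ p ^ (n + 1) = 1) {Q : Subgroup G}
    (hQ : (Nat.card Q).Coprime p) (hxQ : x ∈ 𝒩(Q)) {U : Submodule F W}
    (hQU : Q ≤ stabOn ρ U) (hxU : x ∈ stabOn ρ U)
    (hsc : ∀ z ∈ ⁅Q, Q⁆, ∃ c : F, ∀ w ∈ U, ρ z w = c • w) {l : G → F}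
    (hl : U ⊓ wt ρ (relC Q (kerOn ρ U)) l ≠ ⊥) (hxl : x ∈ wstab (relC Q (kerOn ρ U)) l)
    (hr : ∀ w ∈ U ⊓ wt ρ (relC Q (kerOn ρ U)) l, ((ρ x - 1) ^ (p ^ (n + 1) - 1)) w = 0)
    (hc : ¬ ⁅Q, zpowers (x ^ p ^ n)⁆ ≤ relC Q (kerOn ρ U)) :
    ⁅Q, zpowers x⁆ ≤ ⁅Q, zpowers (x ^ p ^ n)⁆ ⊔ relC Q (kerOn ρ U) := by
  set y := x ^ p ^ n with hy
  set B := zpowers y with hB
  set R := relC Q (kerOn ρ U) with hR
  set X := U ⊓ wt ρ R l with hX
  set P := ⁅Q, B⁆ ⊔ R with hP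
  have hN := stabOn_le_norm_kerOn (ρ := ρ) U
  have hQY : Q ≤ 𝒩(kerOn ρ U) := hQU.trans hN
  have hXQ : zpowers x ≤ 𝒩(Q) := zpowers_le.2 hxQ
  have hXU : zpowers x ≤ stabOn ρ U := zpowers_le.2 hxU
  have hBX : B ≤ zpowers x := zpowers_le.2 (pow_mem (mem_zpowers x) _)
  have hcop : (Nat.card B).Coprime (Nat.card Q) :=
    H1.IsPGroup.coprime_card ((isPGroup_zpowers_of_pow hx).to_le hBX) hQ
  have hPQ : P ≤ Q := sup_le (comm_le_left (hBX.trans hXQ)) (relC_le _ _)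
  have hQX : Q ≤ stabOn ρ X := le_stabOn_rad hQU l
  have hxX : x ∈ stabOn ρ X := stabOn_inf _ _ ⟨hxU, wstab_le_stabOn R l hxl⟩
  have hXB : zpowers x ≤ 𝒩(B) := le_norm_of_le_cent (cent_comm (hBX.trans
    (le_cent_self inferInstance)))
  have hXP : zpowers x ≤ 𝒩(P) :=
    le_norm_sup (le_norm_comm hXQ hXB) (le_norm_relC hQY hXQ (hXU.trans hN))
  have hpos : 1 < p ^ (n + 1) := Nat.one_lt_pow (by omega) hp.out.one_lt
  -- elements of `C_Q(B)` commute with `x` on `X`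
  have key : ∀ k ∈ Q ⊓ 𝒞(B), ⁅k, x⁆ ∈ kerOn ρ X := by
    intro k hk
    by_contra hn
    let γ : End F (End F W) := LinearMap.mulLeft F (ρ x) * LinearMap.mulRight F (ρ x⁻¹)
    have hγ : ∀ f : End F W, γ f = ρ x * (f * ρ x⁻¹) := fun f => rfl
    have hγp : ∀ (j : ℕ) (f : End F W), (γ ^ j) f = ρ (x ^ j) * (f * ρ (x ^ j)⁻¹) := fun j => by
      induction j with
      | zero => intro f; simp
      | succ j ih =>
        intro f
        rw [pow_succ', End.mul_apply, ih, hγ, pow_succ', mul_inv_rev, map_mul, map_mul]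
        simp only [mul_assoc]
    have h0 : (γ - 1) ^ p ^ (n + 1) = 0 := by
      rw [sub_one_pow_char, sub_eq_zero]
      ext1 f
      rw [hγp, hx]; simp
    obtain ⟨D, hD0, hD1, hD2⟩ : ∃ D : ℕ → End F W, D 0 = ρ k ∧
        (∀ j w, D (j + 1) w = ρ x (D j (ρ x⁻¹ w)) - D j w) ∧ D (p ^ (n + 1)) = 0 :=
      ⟨fun j => ((γ - 1) ^ j : End F (End F W)) (ρ k), rfl, fun j w => by
        simp only [pow_succ', End.mul_apply]; rfl, by simp only [h0]; rfl⟩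
    have hA : ∀ j, (∀ w ∈ X, D j w ∈ X) ∧ ∀ g ∈ P, ∀ w ∈ X, D j (ρ g w) = ρ g (D j w) := fun j => by
      induction j with
      | zero =>
        rw [hD0]
        refine ⟨fun w hw => stabOn_apply (hQX hk.1) hw, fun g hg => ?_⟩
        have : ⁅P, zpowers k⁆ ≤ kerOn ρ U := comm_sup_left_le
          (commutator_le.2 fun a ha b hb => comm_cent_le_kerOn hQU (hBX.trans hXU)
            (hBX.trans hXQ) hsc (zpowers_le.2 hk hb) a ha)
          (commutator_le.2 fun a ha b hb => ((mem_relC hQY).1 ha).2 b (zpowers_le.2 hk hb).1)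
          ((le_sup_left.trans hPQ).trans hQY) ((relC_le _ _).trans hQY)
        exact fun w hw => ((comm_mem_kerOn_iff (hQU (hPQ hg)) (hQU hk.1)).1
          (this (commutator_mem_commutator hg (mem_zpowers k))) w hw.1).symm
      | succ j ih =>
        refine ⟨fun w hw => hD1 j w ▸ sub_mem (stabOn_apply hxX (ih.1 _ (hxX w hw).2))
          (ih.1 w hw), fun g hg w hw => ?_⟩
        have hg' : x⁻¹ * g * x ∈ P := H1.conj_mem_of_mem_normalizer' (hXP (mem_zpowers x)) hg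
        have e1 : ρ x⁻¹ (ρ g w) = ρ (x⁻¹ * g * x) (ρ x⁻¹ w) := by
          rw [← End.mul_apply, ← End.mul_apply, ← map_mul, ← map_mul, mul_inv_cancel_right]
        rw [hD1, hD1, map_sub, ih.2 g hg w hw, e1, ih.2 _ hg' _ (hxX w hw).2,
          ← End.mul_apply (ρ x), ← End.mul_apply (ρ g) (ρ x), ← map_mul, ← map_mul]
        congr 3; group
    have hex : ∃ j, ∀ w ∈ X, D (j + 1) w = 0 :=
      ⟨p ^ (n + 1) - 1, fun w _ => by rw [Nat.sub_add_cancel hpos.le, hD2]; rfl⟩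
    obtain ⟨j, hj, hj'⟩ : ∃ j, (∀ w ∈ X, D (j + 1 + 1) w = 0) ∧ ¬ ∀ w ∈ X, D (j + 1) w = 0 := by
      classical
      have h1 : Nat.find hex ≠ 0 := fun h => hn (by
        have := Nat.find_spec hex
        rw [h] at this
        refine (comm_mem_kerOn_iff (hQX hk.1) hxX).2 fun w hw => ?_
        have h2 := this _ (stabOn_apply hxX hw)
        rw [hD1, hD0, rep_inv_apply, sub_eq_zero] at h2
        exact h2.symm)
      obtain ⟨j, hj⟩ := Nat.exists_eq_succ_of_ne_zero h1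
      have h2 := Nat.find_spec hex
      rw [hj] at h2
      exact ⟨j, h2, Nat.find_min hex (by omega)⟩
    have hAψ := hA (j + 1)
    have hAφ := hA j
    have e1 := hD1 j
    have e2 := hD1 (j + 1)
    generalize D (j + 1) = ψ at hj' hAψ e1 e2
    generalize D j = φ at e1 hAφ
    have h2 : ∀ w ∈ X, ρ x (ψ w) = ψ (ρ x w) := fun w hw => by
      have := hj _ (stabOn_apply hxX hw)
      rwa [e2, rep_inv_apply, sub_eq_zero] at this
    obtain ⟨i, hi⟩ : ∃ i, p ^ (n + 1) = i + 1 + 1 := ⟨p ^ (n + 1) - 2, by omega⟩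
    have h3 := sub_one_pow_mul (X := X) (c := ρ x) (φ := φ) (ψ := ψ)
      (fun w hw => stabOn_apply hxX hw) (fun w _ => by rw [e1, rep_inv_apply]; abel) h2 i
    have hi0 : ((i + 1 : ℕ) : F) ≠ 0 := fun h => by
      have h4 : ((i + 1 + 1 : ℕ) : F) = 0 := by
        rw [← hi, Nat.cast_pow, CharP.cast_eq_zero F p, zero_pow (by omega)]
      rw [Nat.cast_succ, h, zero_add] at h4
      exact one_ne_zero h4
    rw [hi, Nat.add_sub_cancel] at hr
    have h4 := (hh_core0 hx hQ hxQ hQU hxU hsc (l := l) (X := X.map ψ)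
      (fun h => hj' fun w hw => by
        have : ψ w ∈ X.map ψ := ⟨w, hw, rfl⟩
        rwa [h, Submodule.mem_bot] at this)
      (by rintro _ ⟨w, hw, rfl⟩; exact hAψ.1 w hw)
      (le_stabOn (by
        rintro g hg _ ⟨w, hw, rfl⟩
        exact ⟨_, stabOn_apply (hQX (hPQ hg)) hw, hAψ.2 g hg w hw⟩))
      (le_stabOn (A := zpowers x) (by
        intro g hg
        obtain ⟨m, rfl⟩ := mem_powers_iff_mem_zpowers.2 hg
        rintro _ ⟨w, hw, rfl⟩
        induction m with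
        | zero => exact ⟨w, hw, by simp⟩
        | succ m ih =>
          obtain ⟨v, hv, e⟩ := ih (pow_mem (mem_zpowers x) m)
          refine ⟨_, stabOn_apply hxX hv, ?_⟩
          rw [← h2 v hv, e]
          simp only [pow_succ', map_mul, End.mul_apply]) (mem_zpowers x)) (r := i)
      (by
        rintro _ ⟨w, hw, rfl⟩
        have h5 := (h3 _ (hxX w hw).2).2
        rw [hr _ (hAφ.1 _ (hxX w hw).2), hr _ (hxX w hw).2, map_zero, zero_add, rep_apply_inv] at h5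
        rw [(h3 w hw).1]
        exact (smul_eq_zero.1 h5.symm).resolve_left hi0) (by omega) hc).2
    omega
  refine comm_zpowers_le hxQ (hXP (mem_zpowers x)) fun k hk => ?_
  obtain ⟨u, hu, c, hc, rfl⟩ :=
    H1.exists_commutator_mul_centralizer (hBX.trans hXQ) hcop (Or.inl inferInstance) hk
  have h1 : ⁅c, x⁆ ∈ Q := comm_le_left hXQ (commutator_mem_commutator hc.1 (mem_zpowers x))
  have h2 : ⁅c, x⁆ ∈ R := (mem_relC hQY).2 ⟨h1, fun a ha =>
    mem_kerOn_of_scalar hl inf_le_left (hsc _ (commutator_mem_commutator h1 ha))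
      (comm_le_left (hQX.trans (stabOn_le_norm_kerOn X))
        (commutator_mem_commutator (key c hc) ha))⟩
  have e : ⁅u * c, x⁆ = u * ⁅c, x⁆ * u⁻¹ * ⁅u, x⁆ := by
    simp only [commutatorElement_def]; group
  rw [e]
  exact mul_mem (mul_mem (mul_mem (mem_sup_left hu) (mem_sup_right h2)) (inv_mem (mem_sup_left hu)))
    (comm_le_left hXP (commutator_mem_commutator (mem_sup_left hu) (mem_zpowers x)))

theorem hh_core2 {x : G} {n : ℕ} (hx : x ^ p ^ (n + 1) = 1) {Q : Subgroup G}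
    (hQ : (Nat.card Q).Coprime p) (hxQ : x ∈ 𝒩(Q)) {U : Submodule F W} (hU0 : U ≠ ⊥)
    (hQU : Q ≤ stabOn ρ U) (hxU : x ∈ stabOn ρ U)
    (hsc : ∀ z ∈ ⁅Q, Q⁆, ∃ c : F, ∀ w ∈ U, ρ z w = c • w)
    (hr : ∀ w ∈ U, ((ρ x - 1) ^ (p ^ (n + 1) - 1)) w = 0)
    (hc : ¬ ⁅Q, zpowers (x ^ p ^ n)⁆ ≤ relC Q (kerOn ρ U)) :
    ∃ t ≤ n, (relC Q (kerOn ρ U)).relIndex (⁅Q, zpowers (x ^ p ^ n)⁆ ⊔ relC Q (kerOn ρ U)) =
        (p ^ (n + 1 - t) - 1) ^ 2 ∧
      ⁅Q, zpowers (x ^ p ^ t)⁆ ≤ ⁅Q, zpowers (x ^ p ^ n)⁆ ⊔ relC Q (kerOn ρ U) := by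
  obtain ⟨l, hl⟩ := exists_rad_wt hU0 hQU (natCast_ne_zero_of_coprime' F hQ)
  have hN := stabOn_le_norm_kerOn (ρ := ρ) U
  have hxR : x ∈ 𝒩(relC Q (kerOn ρ U)) := le_norm_relC (hQU.trans hN) (zpowers_le.2 hxQ)
    (zpowers_le.2 (hN hxU)) (mem_zpowers x)
  have hpos : ∀ k, 0 < p ^ k := fun k => pow_pos hp.out.pos k
  obtain ⟨t, ht, ht'⟩ := exists_period hp.out hx (wstab (relC Q (kerOn ρ U)) l)
  have ht1 : t ≤ n := by
    by_contra hc
    obtain rfl : t = n + 1 := by omega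
    obtain ⟨v, hv, hv0⟩ := Submodule.exists_mem_ne_zero_of_ne_bot hl
    have := hh_step hxR ht' hv.2 (hr v hv.1)
    rw [Nat.div_eq_of_lt (Nat.sub_lt (hpos _) one_pos), pow_zero] at this
    exact hv0 this
  obtain ⟨k, rfl⟩ := Nat.exists_eq_add_of_le ht1
  have hx' : (x ^ p ^ t) ^ p ^ (k + 1) = 1 := by rw [← pow_mul, ← pow_add, ← add_assoc, hx]
  have hxl : x ^ p ^ t ∈ wstab (relC Q (kerOn ρ U)) l := (ht' _).2 dvd_rfl
  have hr' : ∀ w ∈ U ⊓ wt ρ (relC Q (kerOn ρ U)) l,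
      ((ρ (x ^ p ^ t) - 1) ^ (p ^ (k + 1) - 1)) w = 0 := fun w hw => by
    have h1 := hh_step hxR ht' hw.2 (hr w hw.1)
    have h2 : (p ^ (t + k + 1) - 1) / p ^ t ≤ p ^ (k + 1) - 1 := by
      refine Nat.le_sub_one_of_lt ?_
      rw [Nat.div_lt_iff_lt_mul (hpos t), ← pow_add, show k + 1 + t = t + k + 1 by ring]
      exact Nat.sub_lt (hpos _) one_pos
    obtain ⟨j, hj⟩ := Nat.exists_eq_add_of_le' h2
    rw [hj, pow_add, End.mul_apply, h1, map_zero]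
  have e : (x ^ p ^ t) ^ p ^ k = x ^ p ^ (t + k) := by rw [← pow_mul, ← pow_add]
  have h1 := hh_extra hx' hQ (pow_mem hxQ _) hQU (pow_mem hxU _) hsc hl hxl hr' (e ▸ hc)
  have h2 := (hh_core0 hx' hQ (pow_mem hxQ _) hQU (pow_mem hxU _) hsc hl le_rfl
    ((sup_le (comm_le_left (zpowers_le.2 (pow_mem (pow_mem hxQ _) _))) (relC_le _ _)).trans
      (le_stabOn_rad hQU l)) (stabOn_inf _ _ ⟨pow_mem hxU _, wstab_le_stabOn _ l hxl⟩) hr'
      (Nat.sub_lt (hpos _) one_pos) (e ▸ hc)).1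
  rw [e] at h1 h2
  exact ⟨t, ht1, by rw [h2]; congr 3; omega, h1⟩

/-- An exceptional element centralizes abelian `p'`-subgroups it normalizes with its bottom
power. -/
theorem exc_mem_cent (hρ : ρ.ker = ⊥) {x : G} {n : ℕ} (hx : x ^ p ^ (n + 1) = 1)
    (hr : (ρ x - 1) ^ (p ^ (n + 1) - 1) = 0) {Z : Subgroup G} (hZ : (Nat.card Z).Coprime p)
    (hxZ : x ∈ 𝒩(Z)) (hc : Z ≤ 𝒞(Z)) : x ^ p ^ n ∈ 𝒞(Z) := by
  by_cases h0 : (⊤ : Submodule F W) = ⊥
  · have : ∀ g : G, g = 1 := fun g => by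
      have : g ∈ ρ.ker := LinearMap.ext fun w => by
        rw [(Submodule.eq_bot_iff _).1 h0 w trivial, map_zero, map_zero]
      rwa [hρ, mem_bot] at this
    rw [this (x ^ p ^ n)]; exact one_mem _
  have hZZ := le_cent_iff_comm.1 hc
  rcases hh_core (ρ := ρ) hx hZ hxZ h0 (by rw [stabOn_top]; exact le_top) (by rw [stabOn_top]; trivial)
    (fun z hz => ⟨1, fun w _ => by rw [hZZ, mem_bot] at hz; simp [hz]⟩) (fun w _ => by rw [hr]; rfl)
    (Nat.sub_lt (pow_pos hp.out.pos _) one_pos) with h | h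
  · rw [kerOn_top, hρ] at h
    exact cent_comm (le_cent_of_comm_le_bot h) (mem_zpowers _)
  · refine absurd (fun k hk => ?_) h.1
    have hk' := comm_le_left (zpowers_le.2 (pow_mem hxZ _)) hk
    refine subset_closure ⟨hk', fun a ha => ?_⟩
    have := commutator_mem_commutator hk' ha
    rw [hZZ, mem_bot] at this
    exact this ▸ one_mem _

/-- The action of an exceptional element on `L / rad`. -/
theorem exc_wt {x : G} {n : ℕ} (hx : x ^ p ^ (n + 1) = 1)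
    (hr : (ρ x - 1) ^ (p ^ (n + 1) - 1) = 0) {L : Subgroup G} (hL : (Nat.card L).Coprime p)
    (hxL : x ∈ 𝒩(L)) (hc : L ≤ 𝒞(⁅L, L⁆)) (hy : x ^ p ^ n ∈ 𝒞(⁅L, L⁆)) {l : G → F}
    (hl : wt ρ ⁅L, L⁆ l ≠ ⊥) :
    ⁅L, zpowers (x ^ p ^ n)⁆ ≤ kerOn ρ (wt ρ ⁅L, L⁆ l) ∨
    (¬ ⁅L, zpowers (x ^ p ^ n)⁆ ≤ rad ρ L ⁅L, L⁆ l ∧ ∃ t ≤ n, x ^ p ^ t ∈ 𝒩(rad ρ L ⁅L, L⁆ l) ∧
      (rad ρ L ⁅L, L⁆ l).relIndex (⁅L, zpowers (x ^ p ^ n)⁆ ⊔ rad ρ L ⁅L, L⁆ l) =
        (p ^ (n + 1 - t) - 1) ^ 2 ∧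
      ⁅L, zpowers (x ^ p ^ t)⁆ ≤ ⁅L, zpowers (x ^ p ^ n)⁆ ⊔ rad ρ L ⁅L, L⁆ l) := by
  have hxZ : x ∈ 𝒩(⁅L, L⁆) := le_norm_comm (zpowers_le.2 hxL) (zpowers_le.2 hxL) (mem_zpowers x)
  have hpos : ∀ k, 0 < p ^ k := fun k => pow_pos hp.out.pos k
  rcases hh_wt hx hL hxL hxZ le_rfl hc hy hl hr (Nat.sub_lt (hpos _) one_pos) with h | ⟨h, -⟩
  · exact Or.inl h
  refine Or.inr ⟨h, ?_⟩
  obtain ⟨s, -, hs'⟩ := exists_period hp.out hx (wstab ⁅L, L⁆ l)
  have hs : s ≤ n :=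
    (Nat.pow_dvd_pow_iff_le_right hp.out.one_lt).1 ((hs' _).1 (cent_le_wstab _ l hy))
  obtain ⟨k, rfl⟩ := Nat.exists_eq_add_of_le hs
  have hst : x ^ p ^ s ∈ wstab ⁅L, L⁆ l := (hs' _).2 dvd_rfl
  have e : (x ^ p ^ s) ^ p ^ k = x ^ p ^ (s + k) := by rw [← pow_mul, ← pow_add]
  obtain ⟨t, ht, h1, h2⟩ := hh_core2 (ρ := ρ) (x := x ^ p ^ s) (n := k)
    (by rw [← pow_mul, ← pow_add, ← add_assoc, hx]) hL (pow_mem hxL _) hl
    (hc.trans (cent_le_stabOn _ l)) (wstab_le_stabOn _ l hst) (wt_scalar le_rfl l)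
    (fun w hw => by
      have h1 := hh_step hxZ hs' hw (by rw [hr]; rfl)
      have h2 : (p ^ (s + k + 1) - 1) / p ^ s ≤ p ^ (k + 1) - 1 := by
        refine Nat.le_sub_one_of_lt ?_
        rw [Nat.div_lt_iff_lt_mul (hpos s), ← pow_add, show k + 1 + s = s + k + 1 by ring]
        exact Nat.sub_lt (hpos _) one_pos
      obtain ⟨j, hj⟩ := Nat.exists_eq_add_of_le' h2
      rw [hj, pow_add, End.mul_apply, h1, map_zero]) (e ▸ h)
  rw [e] at h1 h2
  rw [← pow_mul, ← pow_add] at h2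
  refine ⟨s + t, by omega, ?_, by rw [h1]; congr 3; omega, h2⟩
  rw [pow_add, pow_mul]
  exact pow_mem (le_norm_rad hc (zpowers_le.2 (pow_mem hxL _)) (zpowers_le.2 hst)
    (mem_zpowers _)) _

end H9
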