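import Cfsg.Agent.H29.Gr

set_option autoImplicit false
set_option linter.style.haveILetI false

/-! Rank three actions with primitive subconstituents; certificates in computable models. -/

namespace H9Hj

open H29 MulAction Subgroup

variable {G : Type*} [Group G]

theorem mem_stab {H : Subgroup G} {a : G} {h : H} :
    h ∈ stabilizer H (a : G ⧸ H) ↔ a⁻¹ * h * a ∈ H := by
  rw [mem_stabilizer_iff]
  change ((h * a : G) : G ⧸ H) = a ↔ _
  rw [eq_comm, QuotientGroup.eq, mul_assoc]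

theorem stab_eq (H : Subgroup G) (x : G) :
    (H ⊓ H.map (MulAut.conj x).toMonoidHom).subgroupOf H = stabilizer H (x : G ⧸ H) := by
  ext h
  rw [mem_stab, mem_subgroupOf, Subgroup.mem_inf, Subgroup.mem_map]
  constructor
  · rintro ⟨-, k, hk, e⟩
    have : (h : G) = x * k * x⁻¹ := e.symm
    rw [this]; simpa [mul_assoc] using hk
  · intro hh
    exact ⟨h.2, _, hh, by simp [mul_assoc]⟩

theorem ext_prim [Finite G] (H : Subgroup G) (a b : G) {n1 n2 : ℕ} (hi : H.index = 1 + n1 + n2)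
    (h1 : IsCoatom (stabilizer H (a : G ⧸ H))) (h2 : IsCoatom (stabilizer H (b : G ⧸ H)))
    (i1 : (stabilizer H (a : G ⧸ H)).index = n1) (i2 : (stabilizer H (b : G ⧸ H)).index = n2)
    (hne : n1 ≠ n2) (d1 : ¬ 1 + n1 ∣ 1 + n1 + n2) (d2 : ¬ 1 + n2 ∣ 1 + n1 + n2) :
    IsCoatom H ∧ ∀ x, x ∉ H → IsCoatom ((H ⊓ H.map (MulAut.conj x).toMonoidHom).subgroupOf H) := by
  rw [index_stabilizer] at i1 i2
  have o1 : ∀ c : G, IsCoatom (stabilizer H (c : G ⧸ H)) → ((1 : G) : G ⧸ H) ∉ orbit H (c : G ⧸ H) := by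
    rintro c hc ⟨h, e⟩
    have e' : ((h * c : G) : G ⧸ H) = (1 : G) := e
    have hcH : c ∈ H := by
      have := QuotientGroup.eq.1 e'.symm
      rw [inv_one, one_mul] at this
      exact (H.mul_mem_cancel_left h.2).1 this
    exact hc.1 (eq_top_iff.2 fun k _ => mem_stab.2 (H.mul_mem (H.mul_mem (H.inv_mem hcH) k.2) hcH))
  have dj : Disjoint (orbit H (a : G ⧸ H)) (orbit H (b : G ⧸ H)) := by
    rw [Set.disjoint_left]
    intro c ha hb
    exact hne (by rw [← i1, ← i2, ← orbit_eq_iff.2 ha, ← orbit_eq_iff.2 hb])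
  have hU : insert ((1 : G) : G ⧸ H) (orbit H (a : G ⧸ H) ∪ orbit H (b : G ⧸ H)) = Set.univ := by
    refine Set.eq_of_subset_of_ncard_le (Set.subset_univ _) ?_
    rw [Set.ncard_insert_of_notMem (fun h => h.elim (o1 a h1) (o1 b h2)), Set.ncard_union_eq dj, i1, i2,
      Set.ncard_univ, ← index, hi]
    omega
  have hx : ∀ x, x ∉ H → (x : G ⧸ H) ∈ orbit H (a : G ⧸ H) ∨ (x : G ⧸ H) ∈ orbit H (b : G ⧸ H) := fun x hx => by
    have : (x : G ⧸ H) ∈ insert ((1 : G) : G ⧸ H) (orbit H (a : G ⧸ H) ∪ orbit H (b : G ⧸ H)) :=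
      hU ▸ Set.mem_univ _
    rcases this with e | e
    · exact absurd (by simpa using QuotientGroup.eq.1 e.symm) hx
    · exact e
  refine ⟨⟨fun e => ?_, fun L hL => ?_⟩, fun x hxH => ?_⟩
  · exact h1.1 (eq_top_iff.2 fun k _ => mem_stab.2 (e.ge (Subgroup.mem_top _)))
  · -- the cosets inside `L`
    have mem : ∀ c x : G, (x : G ⧸ H) ∈ orbit H (c : G ⧸ H) → (x ∈ L ↔ c ∈ L) := by
      rintro c x ⟨h, e⟩
      have e' : ((h * c : G) : G ⧸ H) = x := e
      have h3 := hL.le (QuotientGroup.eq.1 e')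
      have h4 := hL.le h.2
      constructor
      · intro h5
        exact (L.mul_mem_cancel_left h4).1 (L.inv_mem_iff.1 ((L.mul_mem_cancel_right h5).1 h3))
      · intro h5
        exact (L.mul_mem_cancel_left (L.inv_mem (L.mul_mem h4 h5))).1 h3
    have cnt : ((fun x : G => (x : G ⧸ H)) '' L).ncard ∣ 1 + n1 + n2 := by
      rw [← hi]
      refine dvd_trans (dvd_of_eq ?_) (relIndex_dvd_index_of_le hL.le)
      let f : L ⧸ H.subgroupOf L → G ⧸ H := Quotient.map' Subtype.val fun u v huv => by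
        rw [QuotientGroup.leftRel_apply] at huv ⊢; exact huv
      have hf : Function.Injective f := by
        rintro ⟨u⟩ ⟨v⟩ e
        exact QuotientGroup.eq.2 (QuotientGroup.eq.1 e : ((u : G)⁻¹ * v) ∈ H)
      have : (fun x : G => (x : G ⧸ H)) '' L = Set.range f := by
        ext c
        constructor
        · rintro ⟨x, hx, rfl⟩; exact ⟨((⟨x, hx⟩ : L) : L ⧸ H.subgroupOf L), rfl⟩
        · rintro ⟨⟨u⟩, rfl⟩; exact ⟨u, u.2, rfl⟩
      rw [this, Set.ncard_range_of_injective hf]; rfl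
    have key : ∀ c d : G, IsCoatom (stabilizer H (c : G ⧸ H)) → (∀ x, x ∉ H → (x : G ⧸ H) ∈ orbit H (c : G ⧸ H) ∨
        (x : G ⧸ H) ∈ orbit H (d : G ⧸ H)) → c ∈ L → d ∉ L →
        ((fun x : G => (x : G ⧸ H)) '' L).ncard = 1 + (orbit H (c : G ⧸ H)).ncard := by
      intro c d hc hcd h3 h4
      rw [add_comm, ← Set.ncard_insert_of_notMem (o1 c hc)]
      congr 1
      ext y
      constructor
      · rintro ⟨x, hx, rfl⟩
        by_cases h5 : x ∈ H
        · exact Or.inl (QuotientGroup.eq.2 (by simpa using h5))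
        · exact Or.inr ((hcd x h5).resolve_right fun h6 => h4 ((mem d x h6).1 hx))
      · rintro (rfl | h5)
        · exact ⟨1, L.one_mem, rfl⟩
        · obtain ⟨x, rfl⟩ := QuotientGroup.mk_surjective y
          exact ⟨x, (mem c x h5).2 h3, rfl⟩
    by_cases ha : a ∈ L <;> by_cases hb : b ∈ L
    · refine eq_top_iff.2 fun x _ => ?_
      by_cases h5 : x ∈ H
      · exact hL.le h5
      · exact (hx x h5).elim (fun h => (mem a x h).2 ha) fun h => (mem b x h).2 hb
    · rw [key a b h1 hx ha hb, i1] at cnt; exact absurd cnt d1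
    · rw [key b a h2 (fun x h => (hx x h).symm) hb ha, i2] at cnt; exact absurd cnt d2
    · obtain ⟨x, h5, h6⟩ := SetLike.exists_of_lt hL
      exact ((hx x h6).elim (fun h => ha ((mem a x h).1 h5)) fun h => hb ((mem b x h).1 h5)).elim
  · rw [stab_eq]
    have tr : ∀ c : G, IsCoatom (stabilizer H (c : G ⧸ H)) → (x : G ⧸ H) ∈ orbit H (c : G ⧸ H) →
        IsCoatom (stabilizer H (x : G ⧸ H)) := by
      rintro c hc ⟨h, e⟩
      rw [← show h • (c : G ⧸ H) = x from e, stabilizer_smul_eq_stabilizer_map_conj]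
      exact ((MulAut.conj h).mapSubgroup.isCoatom_iff _).2 hc
    exact (hx x hxH).elim (tr a h1) (tr b h2)

theorem stab_of_hom {Q : Type*} [Group Q] {φ : Q →* G} (hφ : Function.Injective φ) {K : Subgroup Q}
    (hK : IsCoatom K) {a : G} (h1 : ∀ k ∈ K, a⁻¹ * φ k * a ∈ φ.range) (h2 : ∃ q, a⁻¹ * φ q * a ∉ φ.range) :
    IsCoatom (stabilizer φ.range (a : G ⧸ φ.range)) ∧ (stabilizer φ.range (a : G ⧸ φ.range)).index = K.index := by
  let e := MonoidHom.ofInjective hφ
  have hS : (stabilizer φ.range (a : G ⧸ φ.range)).comap e.toMonoidHom = K := by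
    refine ((hK.le_iff.1 fun k hk => ?_).resolve_left fun h => ?_)
    · exact mem_stab.2 (h1 k hk)
    · obtain ⟨q, hq⟩ := h2
      exact hq (mem_stab.1 (show e q ∈ stabilizer φ.range (a : G ⧸ φ.range) from h.ge (mem_top q)))
  rw [← hS] at hK ⊢
  exact ⟨(e.comapSubgroup.isCoatom_iff _).1 hK, (index_comap_of_surjective _ e.surjective).symm⟩

theorem coatom_of_dc {M : Model G} {l gs : List ℕ} (hK : M.cl l ≠ ⊤)
    (hdc : ∀ g, ∃ h ∈ M.cl l, ∃ x, (x = 1 ∨ ∃ c ∈ gs, M.R c x) ∧ (h * x)⁻¹ * g ∈ M.cl l)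
    (hg : ∀ c ∈ gs, c = M.one ∨ M.cl (c :: l) = ⊤) : IsCoatom (M.cl l) := by
  refine ⟨hK, fun L hL => ?_⟩
  obtain ⟨g, h1, h2⟩ := SetLike.exists_of_lt hL
  obtain ⟨h, hh, x, hx, h3⟩ := hdc g
  have h4 : x ≠ 1 := fun e => h2 (by
    rw [e, mul_one] at h3
    exact ((M.cl l).mul_mem_cancel_left ((M.cl l).inv_mem hh)).1 h3)
  obtain ⟨c, hc, hr⟩ := hx.resolve_left h4
  have h5 : x ∈ L := by
    simpa using L.mul_mem (L.inv_mem (hL.le hh)) (L.mul_mem h1 (L.inv_mem (hL.le h3)))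
  rcases hg c hc with rfl | e
  · exact absurd (M.unique hr M.R_one) h4
  · refine eq_top_iff.2 (e.ge.trans (Model.cl_le' fun d hd y hy => ?_))
    rcases List.mem_cons.1 hd with rfl | hd
    · exact M.unique hr hy ▸ h5
    · exact hL.le (Model.mem_cl hd hy)

theorem top_of_slp {M : Model G} {l t ws : List ℕ} {n ab : ℕ} (hl : ∀ c ∈ l, M.In ⊤ c) (ht : M.cl t = ⊤)
    (h : slpR M.mul M.one (wdsOK M.mul M.one t ws) n ab l = true) : M.cl l = ⊤ :=
  eq_top_iff.2 (ht.ge.trans (Model.cl_le (in_of_slpW n (in_cl_self hl) h)))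

/-- The generators in `l` are first components of elements of a chain of pairs, and the conjugates of the second
components by `X` are second components again. -/
noncomputable def cjP (eqb1 : ℕ → ℕ → Bool) (mul2 : ℕ → ℕ → ℕ) (eqb2 : ℕ → ℕ → Bool) (E : ℕ → ℕ) (s mk X : ℕ)
    (l ms ms' : List ℕ) : Bool :=
  all1 (fun i => force (lgetD 0 l i) fun c => force (force (lgetD 0 ms i) E) fun p =>
    force (force (lgetD 0 ms' i) E) fun p' => force (Nat.land p mk) fun u => force (Nat.shiftRight p s) fun v =>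
    force (Nat.shiftRight p' s) fun v' => force (mul2 v X) fun x => force (mul2 X v') fun y =>
      band (eqb1 c u) (eqb2 x y)) 0 l.length

variable {Q : Type*} [Group Q] {M : Model Q} {N : Model G}

theorem cjP_spec {φ : Q →* G} {E : ℕ → ℕ} {s mk X : ℕ} {a : G} (ha : N.R X a)
    (hE : ∀ m, ∃ x, M.R (Nat.land (E m) mk) x ∧ N.R (Nat.shiftRight (E m) s) (φ x)) {l ms ms' : List ℕ}
    (h : cjP M.eqb N.mul N.eqb E s mk X l ms ms' = true) : ∀ k ∈ M.cl l, a⁻¹ * φ k * a ∈ φ.range := by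
  have : M.cl l ≤ (φ.range.comap (MulAut.conj a⁻¹).toMonoidHom).comap φ := Model.cl_le' fun c hc g hg => by
    obtain ⟨i, hi, rfl⟩ := exists_lgetD 0 hc
    have h1 := all1_lt h i hi
    simp only [force_eq, band_iff] at h1
    obtain ⟨x, rx, sx⟩ := hE (lgetD 0 ms i)
    obtain ⟨y, -, sy⟩ := hE (lgetD 0 ms' i)
    show a⁻¹ * φ g * a⁻¹⁻¹ ∈ φ.range
    rw [inv_inv, mul_assoc, M.eq_of hg rx h1.1, N.eq_of (N.R_mul sx ha) (N.R_mul ha sy) h1.2, inv_mul_cancel_left]
    exact ⟨y, rfl⟩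
  exact fun k hk => by simpa using this hk

noncomputable def ncP (mul2 : ℕ → ℕ → ℕ) (eqb2 : ℕ → ℕ → Bool) (one2 : ℕ) (E : ℕ → ℕ) (s X Xi m m' n : ℕ) : Bool :=
  force (E m) fun p => force (E m') fun p' => force (Nat.shiftRight p s) fun v =>
    force (Nat.shiftRight p' s) fun v' => force (mul2 Xi v) fun x => force (mul2 x X) fun y =>
      force (mul2 y v') fun z => force (pw mul2 one2 z n) fun w => (eqb2 w one2).not

theorem ncP_spec {φ : Q →* G} {E : ℕ → ℕ} {s mk X Xi m m' n : ℕ} {a : G} (ha : N.R X a) (hi : N.R Xi a⁻¹)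
    (hE : ∀ m, ∃ x, M.R (Nat.land (E m) mk) x ∧ N.R (Nat.shiftRight (E m) s) (φ x)) (hn : Nat.card Q = n)
    (hn' : n < 2 ^ 64) (h : ncP N.mul N.eqb N.one E s X Xi m m' n = true) : ∃ q, a⁻¹ * φ q * a ∉ φ.range := by
  obtain ⟨x, -, sx⟩ := hE m
  obtain ⟨y, -, sy⟩ := hE m'
  refine ⟨x, fun ⟨w, hw⟩ => ?_⟩
  simp only [ncP, force_eq, Bool.not_eq_eq_eq_not, Bool.not_true] at h
  refine N.ne_of (N.R_pw (N.R_mul (N.R_mul (N.R_mul hi sx) ha) sy) n hn') N.R_one h ?_
  rw [← hw, ← map_mul, ← map_pow, ← hn, pow_card_eq_one', map_one]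

/-- A homomorphism from a chain for its graph, with the values on all elements of the chain. -/
theorem hom_of_chain {s mk one : ℕ} {hs : ∀ a g, M.R a g → a < 2 ^ s} {hmk : Nat.beq mk (2 ^ s - 1) = true}
    {hone : Nat.beq one (M.one + N.one <<< s) = true} {D : Subgroup (Q × G)} {ls : List Lv}
    (hch : Chain (M.prod N s mk one hs hmk hone) D ls) (hD : D.map (MonoidHom.fst Q G) = ⊤)
    (hc : ord ls ≤ Nat.card Q) : ∃ φ : Q →* G, ∀ m, ∃ x,
      M.R (Nat.land (eltL (mulPr M.mul N.mul s mk) one ls m) mk) x ∧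
      N.R (Nat.shiftRight (eltL (mulPr M.mul N.mul s mk) one ls m) s) (φ x) := by
  haveI := hch.finite
  obtain ⟨φ, -, h2⟩ := exists_hom_of_card hD (hch.card_le.trans (hc.trans card_top.ge))
  refine ⟨φ.comp topEquiv.symm.toMonoidHom, fun m => ?_⟩
  obtain ⟨d, hd, r1, r2⟩ := hch.in_elt m
  exact ⟨d.1, r1, N.R_congr r2 (h2 d hd trivial).symm⟩

end H9Hj
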