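import Cfsg.Agent.S2352
import Cfsg.Agent.S2353
import Cfsg.Agent.S0281
import Cfsg.Agent.S0248

/-!
Laws in alternating and classical groups.
-/

set_option autoImplicit false

namespace H9.Jn

open Matrix Cfsg

/-- `w` takes only central values -/
def PL (w : FreeGroup ℕ) (H : Type*) [Group H] : Prop :=
  ∀ f : ℕ → H, FreeGroup.lift f w ∈ Subgroup.center H

theorem lift_comp {H K : Type*} [Group H] [Group K] (φ : H →* K) (f : ℕ → H) (w : FreeGroup ℕ) :
    FreeGroup.lift (fun i => φ (f i)) w = φ (FreeGroup.lift f w) := by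
  have : FreeGroup.lift (fun i => φ (f i)) = φ.comp (FreeGroup.lift f) := by
    ext i; simp
  rw [this]; rfl

theorem PL.of_inj {w : FreeGroup ℕ} {H K : Type*} [Group H] [Group K] (h : PL w K) (φ : H →* K)
    (hφ : Function.Injective φ) : PL w H := by
  intro f
  rw [Subgroup.mem_center_iff]
  intro g
  apply hφ
  have := h fun i => φ (f i)
  rw [lift_comp, Subgroup.mem_center_iff] at this
  rw [map_mul, map_mul, this]

theorem PL.of_law {w : FreeGroup ℕ} {G K : Type*} [Group G] [Group K]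
    (e : G ≃* K ⧸ Subgroup.center K) (h : ∀ f : ℕ → G, FreeGroup.lift f w = 1) : PL w K := by
  intro f
  have h1 := h fun i => (e.symm.toMonoidHom.comp (QuotientGroup.mk' _)) (f i)
  rw [lift_comp] at h1
  simpa using h1

theorem card_le_of_equiv {G K : Type*} [Group G] [Group K] [Finite K]
    (e : G ≃* K ⧸ Subgroup.center K) : Nat.card G ≤ Nat.card K := by
  rw [Nat.card_congr e.toEquiv]
  exact Nat.card_le_card_of_surjective _ (QuotientGroup.mk'_surjective _)

theorem exists_alt (w : FreeGroup ℕ) (hw : w ≠ 1) :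
    ∃ N : ℕ, ∀ n : ℕ, PL w (alternatingGroup (Fin n)) → n ≤ N := by
  obtain ⟨N, hN⟩ := Cfsg.Agent.S2352.result w hw
  refine ⟨N + 4, fun n h => ?_⟩
  by_contra hn
  obtain ⟨f, hf⟩ := hN n (by omega)
  have := h f
  rw [alternatingGroup.center_eq_bot (by simp; omega)] at this
  exact hf this

theorem exists_sl2 (w : FreeGroup ℕ) (hw : w ≠ 1) :
    ∃ N : ℕ, ∀ (F : Type) [Field F] [Fintype F], PL w (SpecialLinearGroup (Fin 2) F) →
      Fintype.card F ≤ N := by
  obtain ⟨N, hN⟩ := Cfsg.Agent.S2353.result w hw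
  refine ⟨N, fun F _ _ h => ?_⟩
  by_contra hn
  obtain ⟨f, hf⟩ := hN F (by omega)
  choose g hg using fun i => QuotientGroup.mk'_surjective
    (Subgroup.center (SpecialLinearGroup (Fin 2) F)) (f i)
  apply hf
  have : f = fun i => QuotientGroup.mk' _ (g i) := funext fun i => (hg i).symm
  rw [this, lift_comp]
  exact (QuotientGroup.eq_one_iff _).2 (h g)

variable {F : Type*} [Field F]

/-- even permutation matrices -/
def pm (F : Type*) [Field F] (n : ℕ) : alternatingGroup (Fin n) →* SpecialLinearGroup (Fin n) F where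
  toFun σ := ⟨permMatrixHom σ.1, by
    change (σ.1⁻¹.permMatrix F).det = 1
    simp [Equiv.Perm.mem_alternatingGroup.1 σ.2]⟩
  map_one' := Subtype.ext (map_one _)
  map_mul' _ _ := Subtype.ext (map_mul permMatrixHom _ _)

theorem pm_mulVec {n : ℕ} (σ : alternatingGroup (Fin n)) (v : Fin n → F) :
    slToMat n F (pm F n σ) *ᵥ v = v ∘ (σ.1⁻¹ : Equiv.Perm (Fin n)) := permMatrix_mulVec _

theorem pm_inj (n : ℕ) : Function.Injective (pm F n) := by
  rw [injective_iff_map_eq_one]
  intro σ h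
  have h1 : σ⁻¹ = 1 := by
    ext i
    have := congrFun (pm_mulVec (F := F) σ (Pi.single i 1)) i
    rw [h, map_one, one_mulVec, Pi.single_eq_same, Function.comp] at this
    by_contra hn
    rw [Pi.single_eq_of_ne] at this
    · exact one_ne_zero this
    · intro h2; exact hn (congrArg Fin.val h2)
  exact inv_eq_one.1 h1

theorem sm_det {n : ℕ} (A : SpecialLinearGroup (Fin n) F) : (slToMat n F A).det = 1 := A.2

theorem sm_inj {n : ℕ} : Function.Injective (slToMat n F) := fun _ _ h => Subtype.ext h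

/-- block embedding of matrices -/
def blkM (F : Type*) [Field F] (k : ℕ) :
    Matrix (Fin 2) (Fin 2) F →* Matrix (Fin (2 + k)) (Fin (2 + k)) F where
  toFun A := reindex finSumFinEquiv finSumFinEquiv (fromBlocks A 0 0 (1 : Matrix (Fin k) (Fin k) F))
  map_one' := by simp
  map_mul' A B := by simp [submatrix_mul_equiv, fromBlocks_multiply]

theorem blkM_det (k : ℕ) (A : Matrix (Fin 2) (Fin 2) F) : (blkM F k A).det = A.det := by
  simp [blkM]

/-- block embedding -/
def blk (F : Type*) [Field F] (k : ℕ) :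
    SpecialLinearGroup (Fin 2) F →* SpecialLinearGroup (Fin (2 + k)) F where
  toFun A := ⟨blkM F k (slToMat 2 F A), by rw [blkM_det, sm_det]⟩
  map_one' := Subtype.ext (map_one ((blkM F k).comp (slToMat 2 F)))
  map_mul' A B := Subtype.ext (map_mul ((blkM F k).comp (slToMat 2 F)) A B)

theorem blk_inj (k : ℕ) : Function.Injective (blk F k) := by
  intro A B h
  have h1 : blkM F k (slToMat 2 F A) = blkM F k (slToMat 2 F B) := congrArg Subtype.val h
  have h2 := (reindex finSumFinEquiv finSumFinEquiv).injective h1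
  exact sm_inj (fromBlocks_inj.1 h2).1

theorem blkM_mulVec (k : ℕ) (A : Matrix (Fin 2) (Fin 2) F) (v : Fin (2 + k) → F) :
    (blkM F k A *ᵥ v) ∘ finSumFinEquiv =
      Sum.elim (A *ᵥ (v ∘ finSumFinEquiv ∘ Sum.inl)) (v ∘ finSumFinEquiv ∘ Sum.inr) := by
  have : blkM F k A *ᵥ v = (fromBlocks A 0 0 (1 : Matrix (Fin k) (Fin k) F) *ᵥ
      (v ∘ finSumFinEquiv)) ∘ finSumFinEquiv.symm := by
    simp only [blkM, MonoidHom.coe_mk, OneHom.coe_mk, reindex_apply]
    rw [submatrix_mulVec_equiv]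
    rfl
  rw [this, fromBlocks_mulVec]
  ext i
  simp [Function.comp_assoc]

theorem bound_sl {w : FreeGroup ℕ} {N : ℕ}
    (h1 : ∀ n : ℕ, PL w (alternatingGroup (Fin n)) → n ≤ N)
    (h2 : ∀ (F : Type) [Field F] [Fintype F], PL w (SpecialLinearGroup (Fin 2) F) →
      Fintype.card F ≤ N) {F : Type} [Field F] [Fintype F] {n : ℕ} (hn : 2 ≤ n)
    (h : PL w (SpecialLinearGroup (Fin n) F)) : n ≤ N ∧ Fintype.card F ≤ N := by
  refine ⟨h1 n (h.of_inj _ (pm_inj n)), ?_⟩
  obtain ⟨k, rfl⟩ := Nat.exists_eq_add_of_le hn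
  exact h2 F (h.of_inj _ (blk_inj k))

theorem card_le_mat {K ι : Type*} [Fintype ι] [Fintype F] (φ : K → Matrix ι ι F)
    (hφ : Function.Injective φ) {N d : ℕ} (hF : Fintype.card F ≤ N) (hd : Fintype.card ι ≤ d) :
    Nat.card K ≤ N ^ (d * d) := by
  classical
  have h1 := Nat.card_le_card_of_injective φ hφ
  have h2 : Nat.card (Matrix ι ι F) = Fintype.card F ^ (Fintype.card ι * Fintype.card ι) := by
    rw [Nat.card_eq_fintype_card]
    change Fintype.card (ι → ι → F) = _
    rw [Fintype.card_fun, Fintype.card_fun, ← pow_mul]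
  have h3 : 0 < Fintype.card F := Fintype.card_pos
  calc Nat.card K ≤ _ := h1
    _ = _ := h2
    _ ≤ N ^ (Fintype.card ι * Fintype.card ι) := Nat.pow_le_pow_left hF _
    _ ≤ _ := Nat.pow_le_pow_right (by omega) (Nat.mul_le_mul hd hd)

/-- the Levi embedding -/
def lv (F : Type*) [Field F] (m : ℕ) :
    SpecialLinearGroup (Fin m) F →* Matrix (Fin m ⊕ Fin m) (Fin m ⊕ Fin m) F where
  toFun A := fromBlocks (slToMat m F A) 0 0 (slToMat m F A⁻¹)ᵀ
  map_one' := by rw [inv_one, map_one]; simp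
  map_mul' A B := by
    rw [_root_.mul_inv_rev, map_mul, map_mul, transpose_mul, fromBlocks_multiply]
    simp only [Matrix.mul_zero, Matrix.zero_mul, add_zero, zero_add]

theorem lv_apply {m : ℕ} (A : SpecialLinearGroup (Fin m) F) :
    lv F m A = fromBlocks (slToMat m F A) 0 0 (slToMat m F A⁻¹)ᵀ := rfl

theorem lv_inj (m : ℕ) : Function.Injective (lv F m) := by
  intro A B h
  exact sm_inj (fromBlocks_inj.1 h).1

theorem lv_sp {m : ℕ} (A : SpecialLinearGroup (Fin m) F) :
    lv F m A ∈ symplecticGroup (Fin m) F := by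
  rw [SymplecticGroup.mem_iff]
  have h1 : slToMat m F A * slToMat m F A⁻¹ = 1 := by rw [← map_mul, mul_inv_cancel, map_one]
  have h1' : slToMat m F A⁻¹ * slToMat m F A = 1 := by rw [← map_mul, inv_mul_cancel, map_one]
  have h2 : (slToMat m F A⁻¹)ᵀ * (slToMat m F A)ᵀ = 1 := by
    rw [← transpose_mul, h1, transpose_one]
  simp only [lv_apply, J, fromBlocks_transpose, fromBlocks_multiply,
    transpose_zero, transpose_transpose]
  simp only [Matrix.mul_zero, Matrix.zero_mul, add_zero, zero_add, Matrix.mul_neg, Matrix.mul_one,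
    Matrix.neg_mul, h1, h2, neg_zero]

theorem lv_quad {m : ℕ} (A : SpecialLinearGroup (Fin m) F) (v : Fin m ⊕ Fin m → F) :
    quadFormPlus m F (lv F m A *ᵥ v) = quadFormPlus m F v := by
  have h1 : slToMat m F A⁻¹ * slToMat m F A = 1 := by rw [← map_mul, inv_mul_cancel, map_one]
  simp only [lv_apply, fromBlocks_mulVec, quadFormPlus, zero_mulVec,
    add_zero, zero_add, Sum.elim_inl, Sum.elim_inr]
  change (slToMat m F A *ᵥ (v ∘ Sum.inl)) ⬝ᵥ ((slToMat m F A⁻¹)ᵀ *ᵥ (v ∘ Sum.inr)) =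
    (v ∘ Sum.inl) ⬝ᵥ (v ∘ Sum.inr)
  rw [dotProduct_mulVec, vecMul_transpose, mulVec_mulVec, h1, one_mulVec]

theorem exists_omega {ι : Type} [Fintype ι] [DecidableEq ι] (Q : (ι → F) → F) {m : ℕ}
    (hm : 3 ≤ m) (φ : SpecialLinearGroup (Fin m) F →* Matrix ι ι F) (hφ : Function.Injective φ)
    (hQ : ∀ A v, Q (φ A *ᵥ v) = Q v) :
    ∃ ψ : SpecialLinearGroup (Fin m) F →* Omega F Q, Function.Injective ψ := by
  let ψ1 : SpecialLinearGroup (Fin m) F →* isometryGroup F Q :=
    φ.toHomUnits.codRestrict _ (fun A u _ => hQ A u)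
  have h1 : ∀ A, ψ1 A ∈ Omega F Q := by
    intro A
    have hA : A ∈ commutator (SpecialLinearGroup (Fin m) F) := by
      rw [Cfsg.Agent.S0248.result m hm]; trivial
    have : (commutator (SpecialLinearGroup (Fin m) F)).map ψ1 ≤ Omega F Q := by
      rw [commutator_def, Subgroup.map_commutator]
      exact Subgroup.commutator_mono le_top le_top
    exact this ⟨A, hA, rfl⟩
  refine ⟨ψ1.codRestrict _ h1, fun A B h => hφ ?_⟩
  exact congrArg (fun x : Omega F Q => x.1.1.1) h

/-- adding a fixed block on the left -/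
def addL (κ : Type) [Fintype κ] [DecidableEq κ] (ι : Type) [Fintype ι] [DecidableEq ι] :
    Matrix ι ι F →* Matrix (κ ⊕ ι) (κ ⊕ ι) F where
  toFun A := fromBlocks 1 0 0 A
  map_one' := by simp
  map_mul' A B := by simp [fromBlocks_multiply]

/-- adding a fixed block on the right -/
def addR (κ : Type) [Fintype κ] [DecidableEq κ] (ι : Type) [Fintype ι] [DecidableEq ι] :
    Matrix ι ι F →* Matrix (ι ⊕ κ) (ι ⊕ κ) F where
  toFun A := fromBlocks A 0 0 1
  map_one' := by simp
  map_mul' A B := by simp [fromBlocks_multiply]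

theorem omega_plus {m : ℕ} (hm : 3 ≤ m) :
    ∃ ψ : SpecialLinearGroup (Fin m) F →* Omega F (quadFormPlus m F), Function.Injective ψ :=
  exists_omega _ hm (lv F m) (lv_inj m) lv_quad

theorem omega_odd {m : ℕ} (hm : 3 ≤ m) :
    ∃ ψ : SpecialLinearGroup (Fin m) F →* Omega F (quadFormOdd m F), Function.Injective ψ := by
  refine exists_omega _ hm ((addL Unit _).comp (lv F m)) ?_ ?_
  · intro A B h
    exact lv_inj m (fromBlocks_inj.1 h).2.2.2
  · intro A v
    have := lv_quad A (v ∘ Sum.inr)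
    simp only [quadFormPlus] at this
    simp only [MonoidHom.comp_apply, addL, MonoidHom.coe_mk, OneHom.coe_mk, fromBlocks_mulVec,
      quadFormOdd, zero_mulVec, add_zero, zero_add, Sum.elim_inl, Sum.elim_inr, one_mulVec, this]
    rfl

theorem omega_minus {m : ℕ} (hm : 3 ≤ m) (a b : F) :
    ∃ ψ : SpecialLinearGroup (Fin m) F →* Omega F (quadFormMinus m F a b),
      Function.Injective ψ := by
  refine exists_omega _ hm ((addR (Fin 2) _).comp (lv F m)) ?_ ?_
  · intro A B h
    exact lv_inj m (fromBlocks_inj.1 h).1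
  · intro A v
    have := lv_quad A (v ∘ Sum.inl)
    simp only [quadFormPlus] at this
    simp only [MonoidHom.comp_apply, addR, MonoidHom.coe_mk, OneHom.coe_mk, fromBlocks_mulVec,
      quadFormMinus, zero_mulVec, add_zero, zero_add, Sum.elim_inl, Sum.elim_inr, one_mulVec, this]
    rfl

theorem alt_su (n q : ℕ) :
    ∃ ψ : alternatingGroup (Fin n) →* SU n F q, Function.Injective ψ := by
  refine ⟨(pm F n).codRestrict _ ?_, fun a b h => pm_inj n (congrArg Subtype.val h)⟩
  intro σ u v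
  change hermForm n F q (slToMat n F (pm F n σ) *ᵥ u) (slToMat n F (pm F n σ) *ᵥ v) = _
  rw [pm_mulVec, pm_mulVec]
  exact Equiv.sum_comp (σ.1⁻¹ : Equiv.Perm (Fin n)) (fun i => u i * v i ^ q)

theorem su2_su (k q : ℕ) :
    ∃ ψ : SU 2 F q →* SU (2 + k) F q, Function.Injective ψ := by
  refine ⟨((blk F k).comp (SU 2 F q).subtype).codRestrict _ ?_,
    fun a b h => Subtype.ext (blk_inj k (congrArg Subtype.val h))⟩
  intro A u v
  change hermForm (2 + k) F q (blkM F k (slToMat 2 F A.1) *ᵥ u) (blkM F k (slToMat 2 F A.1) *ᵥ v) = _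
  have hA := A.2 (u ∘ finSumFinEquiv ∘ Sum.inl) (v ∘ finSumFinEquiv ∘ Sum.inl)
  have key : ∀ x y : Fin (2 + k) → F, hermForm (2 + k) F q x y =
      hermForm 2 F q (x ∘ finSumFinEquiv ∘ Sum.inl) (y ∘ finSumFinEquiv ∘ Sum.inl) +
        hermForm k F q (x ∘ finSumFinEquiv ∘ Sum.inr) (y ∘ finSumFinEquiv ∘ Sum.inr) := by
    intro x y
    unfold hermForm
    rw [← Equiv.sum_comp finSumFinEquiv, Fintype.sum_sum_type]
    rfl
  rw [key, key u v, ← hA, ← Function.comp_assoc, ← Function.comp_assoc, ← Function.comp_assoc,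
    ← Function.comp_assoc, blkM_mulVec, blkM_mulVec]
  rfl

theorem main (w : FreeGroup ℕ) (hw : w ≠ 1) :
    ∃ N : ℕ, ∀ (G : Type*) [Group G] [Finite G],
      (Cfsg.IsAlternating G ∨ Cfsg.IsPSL G ∨ Cfsg.IsPSp G ∨ Cfsg.IsPSU G ∨ Cfsg.IsPOmegaOdd G ∨
          Cfsg.IsPOmegaPlus G ∨ Cfsg.IsPOmegaMinus G) →
      (∀ f : ℕ → G, FreeGroup.lift f w = 1) → Nat.card G ≤ N := by
  classical
  obtain ⟨N1, hN1⟩ := exists_alt w hw
  obtain ⟨N2, hN2⟩ := exists_sl2 w hw
  set N := N1 + N2 + 2 with hN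
  have h1 : ∀ n : ℕ, PL w (alternatingGroup (Fin n)) → n ≤ N := fun n h => (hN1 n h).trans (by omega)
  have h2 : ∀ (F : Type) [Field F] [Fintype F], PL w (SpecialLinearGroup (Fin 2) F) →
      Fintype.card F ≤ N := fun F _ _ h => (hN2 F h).trans (by omega)
  have hNN : N ≤ N * N := Nat.le_mul_self N
  refine ⟨(N * N) ^ ((2 * N + 2) * (2 * N + 2)), ?_⟩
  intro G _ _ hG hlaw
  rcases hG with ⟨n, -, ⟨e⟩⟩ | ⟨F, _, _, n, hn, -, ⟨e⟩⟩ | ⟨F, _, _, m, hm, -, ⟨e⟩⟩ |
    ⟨F, _, _, n, q, hq, hn, -, ⟨e⟩⟩ | ⟨F, _, _, m, hm, -, ⟨e⟩⟩ | ⟨F, _, _, m, hm, ⟨e⟩⟩ |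
    ⟨F, _, _, m, a, b, hm, -, ⟨e⟩⟩
  · have hG : PL w G := fun f => by rw [hlaw f]; exact one_mem _
    have hn := h1 n (hG.of_inj e.symm.toMonoidHom e.symm.injective)
    refine card_le_mat (F := ZMod 2) (fun g => slToMat n _ (pm (ZMod 2) n (e g)))
      (sm_inj.comp ((pm_inj n).comp e.injective)) ?_ (by simp; omega)
    rw [ZMod.card]; omega
  · have hP := PL.of_law e hlaw
    obtain ⟨h3, h4⟩ := bound_sl h1 h2 hn hP
    refine (card_le_of_equiv e).trans ?_
    exact card_le_mat (slToMat n F) sm_inj (h4.trans hNN) (by simp; omega)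
  · have hP := PL.of_law e hlaw
    obtain ⟨h3, h4⟩ := bound_sl h1 h2 hm (hP.of_inj ((lv F m).codRestrict _ lv_sp)
      fun a b h => lv_inj m (congrArg Subtype.val h))
    refine (card_le_of_equiv e).trans ?_
    exact card_le_mat Subtype.val Subtype.val_injective (h4.trans hNN) (by simp; omega)
  · have hP := PL.of_law e hlaw
    obtain ⟨ψ, hψ⟩ := alt_su (F := F) n q
    have h3 := h1 n (hP.of_inj ψ hψ)
    obtain ⟨k, rfl⟩ := Nat.exists_eq_add_of_le (show 2 ≤ n by omega)
    obtain ⟨χ, hχ⟩ := su2_su (F := F) k q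
    obtain ⟨p, _, r, hp, hr⟩ := FiniteField.card' F
    haveI : Fact p.Prime := ⟨hp⟩
    have hqd : q ∣ p ^ (r : ℕ) := by rw [← hr, hq]; exact Dvd.intro_left (q ^ 1) (by ring)
    obtain ⟨j, -, hj⟩ := (Nat.dvd_prime_pow hp).1 hqd
    have hj0 : j ≠ 0 := by
      rintro rfl
      have := Fintype.one_lt_card (α := F)
      rw [hq, hj] at this
      simp at this
    letI : Fintype (GaloisField p j) := Fintype.ofFinite _
    have hK : Fintype.card (GaloisField p j) = q := by
      rw [← Nat.card_eq_fintype_card, GaloisField.card p j hj0, hj]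
    obtain ⟨e2⟩ := Cfsg.Agent.S0281.result hq hK
    have h4 := h2 _ ((hP.of_inj χ hχ).of_inj e2.symm.toMonoidHom e2.symm.injective)
    rw [hK] at h4
    refine (card_le_of_equiv e).trans ?_
    refine card_le_mat (fun g : SU (2 + k) F q => slToMat (2 + k) F g.1)
      (fun a b h => Subtype.ext (sm_inj h)) ?_
      (by simp; omega)
    rw [hq, sq]; exact Nat.mul_le_mul h4 h4
  · have hP := PL.of_law e hlaw
    obtain ⟨ψ, hψ⟩ := omega_odd (F := F) hm
    obtain ⟨h3, h4⟩ := bound_sl h1 h2 (by omega) (hP.of_inj ψ hψ)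
    refine (card_le_of_equiv e).trans ?_
    exact card_le_mat (fun g => g.1.1.1)
      (Units.val_injective.comp (Subtype.val_injective.comp Subtype.val_injective))
      (h4.trans hNN) (by simp; omega)
  · have hP := PL.of_law e hlaw
    obtain ⟨ψ, hψ⟩ := omega_plus (F := F) (show 3 ≤ m by omega)
    obtain ⟨h3, h4⟩ := bound_sl h1 h2 (by omega) (hP.of_inj ψ hψ)
    refine (card_le_of_equiv e).trans ?_
    exact card_le_mat (fun g => g.1.1.1)
      (Units.val_injective.comp (Subtype.val_injective.comp Subtype.val_injective))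
      (h4.trans hNN) (by simp; omega)
  · have hP := PL.of_law e hlaw
    obtain ⟨ψ, hψ⟩ := omega_minus (F := F) (show 3 ≤ m - 1 by omega) a b
    obtain ⟨h3, h4⟩ := bound_sl h1 h2 (by omega) (hP.of_inj ψ hψ)
    refine (card_le_of_equiv e).trans ?_
    exact card_le_mat (fun g => g.1.1.1)
      (Units.val_injective.comp (Subtype.val_injective.comp Subtype.val_injective))
      (h4.trans hNN) (by simp; omega)

end H9.Jn
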