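import Cfsg.Agent.H27.F22d
import Cfsg.Agent.H9.Fy1
import Cfsg.Agent.S0144

set_option autoImplicit false

/-! The normalizer of a `3`-central subgroup of order three in `Fi₂₃`: a solvable maximal subgroup. -/

namespace H9Mx
open Cfsg H27 H28 H16 H9 Subgroup
set_option Elab.async false
set_option maxRecDepth 100000
variable {G : Type*} [Group G] {D : Set G} {ε : Nat → G} {xs : List G}

def nA : List Ex := [.w [10, 4, 2], .w [3, 4, 9, 3], .w [2, 3, 4, 5, 4, 3], .w [0], .w [7], .w [8], .w [2, 3, 6, 5, 4, 9, 10, 2, 3, 4, 9, 5, 6, 2], .w [1, 7, 2, 9, 10, 9, 3, 2, 4, 3, 2, 5, 9, 10, 6, 7, 4, 9, 5, 4, 3, 2, 1, 6, 4, 3, 5, 4, 9, 10, 6, 4, 3, 2, 5, 4, 9, 3, 4, 5, 6, 7, 8, 2, 1, 2, 4, 3, 4, 9, 5, 10, 6, 4, 9, 5, 4, 3, 2, 4, 3, 6, 5, 4, 9, 4, 5, 3, 4, 9, 10, 2, 3, 4, 9, 5, 4, 3, 2, 1, 2, 3, 4, 5, 9, 4, 3, 2, 10, 9, 4, 3, 5, 4, 7, 0, 10], .w [8, 7, 0, 10, 0, 7, 4, 5, 3,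 4, 9, 10, 2, 3, 4, 9, 5, 4, 3, 2, 1, 2, 3, 4, 5, 9, 4, 3, 2, 10, 9, 4, 3, 5, 4, 9, 4, 5, 6, 3, 4, 2, 3, 4, 5, 9, 4, 6, 10, 5, 9, 4, 3, 4, 2, 1, 2, 8, 7, 6, 5, 4, 3, 9, 4, 5, 2, 3, 4, 6, 10, 9, 4, 5, 3, 4, 6, 1, 2, 3, 4, 5, 9, 4, 7, 6, 10, 9, 5, 2, 3, 4, 2, 3, 9, 10, 9, 2, 7, 1], .w [3, 4, 9, 4, 5, 4, 3, 2, 3, 4, 9, 4, 5, 4, 3, 2], .w [3, 4, 9, 3, 2, 3, 6, 5, 4, 9, 10, 2, 3, 4, 9, 5, 6, 2, 3, 9, 4, 3], .w [3, 9, 4, 3, 2, 4, 10, 3, 9, 4, 3, 2, 3, 4, 5, 9, 3, 10, 4, 2, 3, 4, 9, 3]]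
def nI : List Nat := [2, 1, 1, 1, 1, 1, 1, 1, 1, 1, 1, 1]
theorem nA_c : all2 (fun e a => eqE t23 c23 (e.cj u4) (u4.pow a)) nA nI = true := by decide +kernel
theorem low_c : Nat.ble 3265173504 (lowB t23 15 nA [([[5], [3], [4], [5], [6], [4], [0], [1], [2], [1], [0], [6], [4], [5], [7], [3], [5]], 0, 1),
    ([[1], [2], [0], [1], [0], [1], [6], [4], [0], [1], [2], [0], [6], [4], [0], [1], [8], [1], [0], [1], [1], [2]], 5474, 1),
    ([[0], [9], [0], [10], [4], [0], [9], [0], [11], [0], [10], [4], [0], [11], [0], [10], [4], [0], [9]], 20972, 1),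
    ([[3], [4]], 1, 1),
    ([[11], [11]], 3, 1)] []) = true := by
  decide +kernel
def cvW : List (List Nat) := [[5], [3], [4], [5], [6], [0], [4], [1], [2], [0], [1], [5], [0], [3], [1], [6], [4], [0], [5], [3], [2], [1], [0], [1], [6], [4], [0], [5], [3], [1], [0], [2], [1], [7], [3], [5], [1], [0], [7]]
theorem cov_c : Nat.beq (orbE t23.Ns (mapL (Ex.sub nA) cvW) 1 (orL [0, 20972, 5474])) (ones 31671) = true := by
  decide +kernel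
theorem c12 : Nat.beq ((Ex.sub (.w [1] :: nA) [0, 1]).fn t23.Ns false 20972) 5474 = true := by decide +kernel
theorem c21 : Nat.beq ((Ex.sub (.w [2] :: nA) [0, 7, 2, 5, 0, 7, 0, 9]).fn t23.Ns false 5474) 20972 = true := by decide +kernel
def eP : List Px := [(0, .w []), (7, .w []), (8, .w []), (2, .w [6, 5, 3, 4, 9, 7, 6, 5, 4, 3]), (1, .w [1, 2, 3, 4, 9, 10, 5, 4, 9, 6, 7, 5, 6, 3, 4, 5, 1, 2, 3, 4, 9, 10, 6, 4, 5, 2, 3, 4, 9, 8, 7, 6, 5, 4, 3, 2])]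
theorem eP_c : and' (okP t23 eP) (allL eP fun p => tb u4M (p.ix t23)) = true := by decide +kernel
theorem ce_e : endChk t23 ((6, .w []) :: eP) [] c23 [([5, 0, 3, 4, 1, 2, 3, 0, 4, 2, 1, 3], 5), ([], 0), ([], 2), ([], 3), ([5, 1, 3, 2, 3, 0, 4, 3], 5), ([5, 0, 3, 2, 3, 1, 3, 4, 3, 1], 5), ([5, 2, 3, 0, 4, 1, 2, 0, 3, 2], 5), ([5, 1, 0, 3, 4, 3, 0, 1, 3, 2], 5)] = true := by decide +kernel
theorem ce_l : H9.lvl t23 15 (ones 31671) eP [] [(([], 0), (0, .w [])), (([], 2), (8, .w [])), (([1, 4, 2, 3, 0], 4), (0, .w [7, 6, 4, 5, 2, 3, 4, 9, 10, 4, 5, 3, 4, 9, 2, 3, 4, 5, 6, 7, 8])), (([1, 2], 3), (2, .w [7, 6, 5, 3, 4, 9, 8, 7, 6, 5, 4, 3])), (([4, 2, 3, 1], 4), (2, .w [3, 4, 9, 10, 7, 6, 4, 5, 3, 4, 9, 8, 7, 6, 5, 4, 3]))] (6, .w []) 3 = true := by decide +kernel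
def dT : List (List Nat × Ex) := [([2], .w [5, 4, 3, 2, 4, 5]),
  ([5, 7], .w [8, 0, 7, 2, 1, 10, 2, 6, 7, 4, 9, 10, 3, 4, 5, 6, 7, 9, 4, 3, 2, 5, 9, 4, 10, 9, 5, 6, 7, 4, 3, 2, 1, 5, 6, 4, 5, 3, 2, 9, 4, 10, 9, 3, 4, 5, 6, 7, 8, 2, 1, 2, 3, 6, 5, 4, 5, 9, 10, 3, 6, 4, 9, 5, 9, 5, 4, 3, 2, 1, 2, 3, 4, 5, 9, 4, 3, 2, 3, 6, 5, 9, 5, 4, 3, 4, 5, 9, 4, 10, 6, 4, 9, 5, 4, 3, 4, 5, 9, 4, 5, 6, 9, 1, 3, 10]),
  ([0], .w [0, 8, 0]),
  ([3], .w [0, 8]),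
  ([8], .w [5, 2, 10, 3, 4, 5, 6, 3, 5, 2, 4, 9, 10, 3, 4, 9, 5, 4, 3, 2, 4, 9, 3, 4, 9, 10, 6, 4, 9, 5, 4, 3, 4, 5, 9, 4, 5, 6]),
  ([1], .w [2, 3, 10, 9, 5, 4, 3, 2, 9, 10, 4, 9, 3, 9, 5, 4, 3, 4, 5, 9, 4, 9]),
  ([0], .w [3, 5, 10, 9, 4, 3, 2, 10, 5, 9, 3, 4]),
  ([2], .w [5, 2, 10, 4, 9, 3, 4, 5]),
  ([1], .w [10, 9, 3, 5, 2, 4, 9, 10, 3, 4, 9, 5, 4, 3, 2, 10, 9, 4, 10, 4, 9, 5, 4, 3, 4, 5, 9, 4])]
def cmE (t g : Ex) : Ex := (t.cj (g.cj t)).mul (g.cj t).inv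
noncomputable def drC (B : List Nat) (A : List Ex) (L : List (List Nat × Ex)) : Ex → Bool :=
  List.rec (motive := fun _ => Ex → Bool) (fun t => neE t23 t .one 4534)
    (fun l _ ih t => and' (eqE t23 B (cmE t (Ex.sub A l.1)) l.2) (ih l.2)) L
theorem dr_c : drC c23 nA dT (Ex.sub nA [0]) = true := by decide +kernel

theorem nA_m [Finite G] (h : F23 D ε xs) : ∀ e ∈ nA, e.ev xs ∈ N[zpowers (u4.ev xs)] := fun e he => by
  obtain ⟨a, -, c⟩ : ∃ a, a ∈ nI ∧ eqE t23 c23 (e.cj u4) (u4.pow a) = true := by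
    have := all2_iff.1 nA_c
    generalize nA = l, nI = m at this he
    induction this with
    | nil => cases he
    | cons p _ ih =>
      rcases List.mem_cons.1 he with rfl | he
      · exact ⟨_, List.mem_cons_self, p⟩
      · obtain ⟨a, h1, h2⟩ := ih he
        exact ⟨a, List.mem_cons_of_mem _ h1, h2⟩
  exact norm_of_pow (h.eq_of (base23 h) c)

theorem card_n [Finite G] (h : F23 D ε xs) (l : H28.Lv D E22) : Nat.card N[zpowers (u4.ev xs)] = 2 ^ 11 * 3 ^ 13 :=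
  le_antisymm (u4_b h l) (h.low' (nA_m h) _ low_c)

/-- the centralizer of the transpositions commuting with `u` -/
theorem cent_E [Finite G] (h : F23 D ε xs) :
    centralizer (D ∩ (C[zpowers (u4.ev xs)] : Set G)) = zpowers (u4.ev xs) := by
  have c := eP_c
  simp only [and'_eq, Bool.and_eq_true, okP_iff, allL_iff, tb_eq] at c
  have a : centralizer (D ∩ (C[zpowers (u4.ev xs)] : Set G)) ≤ CA ((alph eP []).map (Ex.ev xs)) := fun g hg =>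
    mem_CA.2 fun y hy => by
      obtain ⟨e, he, rfl⟩ := List.mem_map.1 hy
      obtain ⟨p, hp, rfl⟩ : ∃ p ∈ eP, p.ex = e := List.mem_map.1 (show e ∈ eP.map Px.ex from he)
      exact (hg _ (h.ix_eq (c.1 p hp) ▸ (((u4_r h).2 _).1 (c.2 p hp)).2)).symm
  refine (eq_of_le_of_card_ge (fun z hz y hy => (hy.2 z hz).symm) ((card_le_of_le a).trans ?_)).symm
  rw [Nat.card_zpowers, u4_o h]
  exact h.lvl_le _ _ 0 (cand_all _ _ _ _) _ ce_l (h.end_le (base23 h) _ ce_e)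

theorem cover [Finite G] (h : F23 D ε xs) {y : G} (hy : y ∈ D) :
    ∃ i ∈ [0, 20972, 5474], ∃ g ∈ N[zpowers (u4.ev xs)], g * ε i * g⁻¹ = y := by
  obtain ⟨j, hj, rfl⟩ := h.surj hy
  refine (h.orb_sub (Es := mapL (Ex.sub nA) cvW) (fun e he => ?_) 1 (by decide) ?_).2
  · rw [mapL_eq] at he
    obtain ⟨w, -, rfl⟩ := List.mem_map.1 he
    exact Ex.sub_mem (nA_m h) w
  · rw [(beq_iff _ _).1 cov_c]; exact (testBit_ones _ _).2 hj

theorem cross [Finite G] (h : F23 D ε xs) {M : Subgroup G} (hM : N[zpowers (u4.ev xs)] ≤ M) {k i j : Nat} {w : List Nat}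
    (hk : k < t23.m) (hi : Nat.beq (Px.ix t23 (k, .w [])) i = true)
    (c : Nat.beq ((Ex.sub (.w [k] :: nA) w).fn t23.Ns false i) j = true) (m : ε i ∈ M) : ε j ∈ M := by
  rw [beq_iff] at hi c
  have e := h.ix_eq (p := (k, .w [])) hk
  have l := h.ix_lt (p := (k, .w [])) hk
  rw [hi] at e l
  have g : (Ex.sub (.w [k] :: nA) w).ev xs ∈ M := Ex.sub_mem (List.forall_mem_cons.2 ⟨by
    rw [e] at m
    simpa [Px.ex, Ex.ev_cj, Ex.ev, ev_nil] using m, fun a ha => hM (nA_m h a ha)⟩) w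
  rw [← c, ← h.act _ l]
  exact M.mul_mem (M.mul_mem g m) (M.inv_mem g)

theorem coatom [Finite G] [IsSimpleGroup G] (h : F23 D ε xs) : IsCoatom N[zpowers (u4.ev xs)] := by
  refine ⟨fun e => ?_, fun M hM => ?_⟩
  · have c := Nat.card_zpowers (u4.ev xs)
    rw [u4_o h] at c
    rcases (normalizer_eq_top_iff.1 e).eq_bot_or_eq_top with q | q <;> rw [q] at c
    · simp at c
    · rw [card_top, h.card] at c; simp at c
  have z : ε 0 ∈ D ∩ (C[zpowers (u4.ev xs)] : Set G) := (((u4_r h).2 0).1 (by decide +kernel)).2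
  have b : D ∩ (C[zpowers (u4.ev xs)] : Set G) ⊆ M := fun y hy => hM.le (centralizer_le_normalizer _ hy.2)
  by_cases k : ε 20972 ∈ M ∨ ε 5474 ∈ M
  · have k' : ε 20972 ∈ M ∧ ε 5474 ∈ M := k.elim
      (fun a => ⟨a, cross h hM.le (by decide) (by decide +kernel) c12 a⟩)
      fun a => ⟨cross h hM.le (by decide) (by decide +kernel) c21 a, a⟩
    have d : D ⊆ M := fun y hy => by
      obtain ⟨i, hi, g, hg, rfl⟩ := cover h hy
      refine M.mul_mem (M.mul_mem (hM.le hg) ?_) (M.inv_mem (hM.le hg))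
      simp only [List.mem_cons, List.not_mem_nil, or_false] at hi
      rcases hi with rfl | rfl | rfl
      exacts [b z, k'.1, k'.2]
    refine eq_top_iff.2 (h.top.ge.trans (cl_le fun g hg => d ?_))
    obtain ⟨i, hi, rfl⟩ := List.getElem_of_mem hg
    have := h.ex_mem (p := (i, .w [])) (h.tm.len ▸ hi)
    simpa [Px.ex, Ex.ev_cj, Ex.ev, ev_nil, ev_single, hi] using this
  · refine absurd (fun m hm => ?_) hM.not_ge
    have d : ∀ y ∈ D, y ∈ M → y ∈ D ∩ (C[zpowers (u4.ev xs)] : Set G) := fun y hy hm => by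
      obtain ⟨i, hi, g, hg, rfl⟩ := cover h hy
      have a : ε i ∈ M := (M.mul_mem_cancel_left (hM.le hg)).1 ((M.mul_mem_cancel_right (M.inv_mem (hM.le hg))).1 hm)
      simp only [List.mem_cons, List.not_mem_nil, or_false] at hi
      rcases hi with rfl | rfl | rfl
      exacts [fix_conj h.tm.cj hg z, (k (.inl a)).elim, (k (.inr a)).elim]
    rw [← cent_E h]
    refine mem_normalizer_fintype fun x hx y hy => ?_
    have a := hx _ (d _ (h.tm.cj m⁻¹ y hy.1) (M.mul_mem (M.mul_mem (M.inv_mem hm) (b hy)) (M.inv_mem (M.inv_mem hm))))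
    calc y * (m * x * m⁻¹) = m * (m⁻¹ * y * m⁻¹⁻¹ * x) * m⁻¹ := by group
      _ = m * x * m⁻¹ * y := by rw [a]; group

open scoped commutatorElement in
theorem der_of (h : F23 D ε xs) {H : Subgroup G} {A : List Ex} (hA : ∀ a ∈ A, a.ev xs ∈ H)
    (L : List (List Nat × Ex)) : ∀ (k : Nat) (t : Ex), t.ev xs ∈ (derivedSeries H k).map H.subtype →
      drC c23 A L t = true → derivedSeries H (k + L.length) ≠ ⊥ := by
  induction L with
  | nil =>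
    intro k t ⟨x, hx, e⟩ c q
    rw [List.length_nil, Nat.add_zero] at q
    exact h.ne_of c (by rw [← e, Subgroup.mem_bot.1 (q.le hx)]; rfl)
  | cons l L ih =>
    intro k t ⟨x, hx, e⟩ c
    change and' (eqE t23 c23 (cmE t (Ex.sub A l.1)) l.2) (drC c23 A L l.2) = true at c
    rw [and'_eq, Bool.and_eq_true] at c
    rw [List.length_cons, ← Nat.add_assoc, Nat.add_right_comm]
    refine ih _ _ ⟨⁅x, ⟨_, Ex.sub_mem hA l.1⟩ * x * (⟨_, Ex.sub_mem hA l.1⟩ : H)⁻¹⁆, commutator_mem_commutator hx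
      ((derivedSeries_normal H k).conj_mem _ hx _), ?_⟩ c.2
    rw [← h.eq_of (base23 h) c.1, cmE, Ex.ev_mul, Ex.ev_inv, Ex.ev_cj, Ex.ev_cj, ← e, commutatorElement_def]
    rfl

theorem der_ne [Finite G] (h : F23 D ε xs) (l : H28.Lv D E22) :
    derivedSeries N[zpowers (u4.ev xs)] 10 ≠ derivedSeries N[zpowers (u4.ev xs)] 9 := fun e => by
  have a := der_of h (nA_m h) dT 0 _ ⟨⟨_, Ex.sub_mem (nA_m h) _⟩, mem_top _, rfl⟩ dr_c
  obtain ⟨n, hn⟩ := (Cfsg.Agent.S0144.result 2 3 11 13 Nat.prime_two Nat.prime_three (card_n h l)).solvable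
  have b : ∀ k, derivedSeries N[zpowers (u4.ev xs)] (9 + k) = derivedSeries N[zpowers (u4.ev xs)] 9 := fun k => by
    induction k with
    | zero => rfl
    | succ k ih => rw [← Nat.add_assoc, derivedSeries_succ, ih]; exact e
  refine a (eq_bot_iff.2 ((b n).ge.trans (hn ▸ ?_)))
  exact derivedSeries_antitone _ (by omega)

end H9Mx
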