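import Cfsg.Agent.H9.Basic
/-! The largest nilpotent subgroups of symmetric and alternating groups: order bounds. -/
set_option autoImplicit false
namespace H9.Nl
open Subgroup Equiv Equiv.Perm Nat

def v (n : ℕ) : ℕ := padicValNat 2 n !
def F (n : ℕ) : ℕ := max 1 (n % 4) * 2 ^ v (n / 4 * 4)
def E (n : ℕ) : ℕ := if n ≤ 1 then 1 else if n = 3 then 3 else if n = 5 then 5 else if n = 6 then 9 else
  if n = 9 then 81 else F n / 2
theorem le_v {k n : ℕ} : 2 ^ k ∣ n ! ↔ k ≤ v n := padicValNat_dvd_iff_le (factorial_ne_zero n)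
theorem v_add (a b : ℕ) : v a + v b ≤ v (a + b) := le_v.1 (pow_add 2 _ _ ▸
  (Nat.mul_dvd_mul pow_padicValNat_dvd pow_padicValNat_dvd).trans (factorial_mul_factorial_dvd_factorial_add a b))
theorem v_two (m : ℕ) : v (2 * m) = v m + m := padicValNat_factorial_mul m
theorem v_odd (m : ℕ) : v (2 * m + 1) = v (2 * m) := padicValNat_factorial_mul_add m one_lt_two
theorem v_mod (n : ℕ) : v n = v (n / 4 * 4) + n % 4 / 2 := by
  obtain ⟨k, r, h, rfl⟩ : ∃ k r, r < 4 ∧ n = 2 * (2 * k) + r := ⟨n / 4, n % 4, by omega, by omega⟩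
  have a := v_odd (2 * k)
  have b := v_odd (2 * k + 1)
  have c := v_two (2 * k + 1)
  have d := v_two (2 * k)
  have e := v_odd k
  rw [show (2 * (2 * k) + r) / 4 * 4 = 2 * (2 * k) by omega, show (2 * (2 * k) + r) % 4 = r by omega]
  interval_cases r
  · rfl
  · exact a
  · exact c.trans (by omega)
  · exact b.trans (c.trans (by omega))
theorem F_eq {n : ℕ} (h : n % 4 ≠ 3) : F n = 2 ^ v n := by
  rw [v_mod, F, pow_add, mul_comm]
  rcases (by omega : n % 4 = 0 ∨ n % 4 = 1 ∨ n % 4 = 2) with a | a | a <;> rw [a] <;> rfl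
theorem F_three {n : ℕ} (h : n % 4 = 3) : F n = 3 * 2 ^ v (n - 3) := by
  rw [F, h, show n / 4 * 4 = n - 3 by omega]; rfl
theorem le_F (n : ℕ) : 2 ^ v n ≤ F n := by
  rw [v_mod, F, pow_add, mul_comm]
  refine Nat.mul_le_mul_right _ ?_
  have := Nat.mod_lt n four_pos
  interval_cases n % 4 <;> simp
theorem F_add (a b : ℕ) : F a * F b ≤ F (a + b) := by
  have h := v_add (a / 4 * 4) (b / 4 * 4)
  have k := v_add (a / 4 * 4 + b / 4 * 4) 4
  rw [show v 4 = 3 by decide +kernel] at k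
  rw [F, F, F, mul_mul_mul_comm, ← pow_add, Nat.add_mod]
  have := Nat.mod_lt a four_pos
  have := Nat.mod_lt b four_pos
  by_cases c : a % 4 + b % 4 < 4
  · rw [show (a + b) / 4 * 4 = a / 4 * 4 + b / 4 * 4 by omega]
    refine Nat.mul_le_mul ?_ (Nat.pow_le_pow_right two_pos h)
    interval_cases a % 4 <;> interval_cases b % 4 <;> simp at c ⊢
  · rw [show (a + b) / 4 * 4 = a / 4 * 4 + b / 4 * 4 + 4 by omega]
    refine le_trans ?_ (Nat.mul_le_mul_left _ (Nat.pow_le_pow_right two_pos ((Nat.add_le_add_right h 3).trans k)))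
    rw [pow_add _ _ 3, mul_comm _ (2 ^ 3), ← mul_assoc]
    refine Nat.mul_le_mul_right _ ?_
    interval_cases a % 4 <;> interval_cases b % 4 <;> simp at c ⊢
theorem E_eq {n : ℕ} (h : n ∉ [0, 1, 3, 5, 6, 9]) : 2 * E n = F n := by
  simp only [List.mem_cons, List.not_mem_nil, or_false, not_or] at h
  rw [E, if_neg (by omega), if_neg h.2.2.1, if_neg h.2.2.2.1, if_neg h.2.2.2.2.1, if_neg h.2.2.2.2.2]
  refine Nat.mul_div_cancel' ?_
  rcases (by omega : n = 2 ∨ 4 ≤ n) with rfl | a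
  · decide +kernel
  · exact (dvd_pow_self 2 (Nat.pos_iff_ne_zero.1 (le_v.1 (dvd_factorial two_pos (by omega))))).mul_left _
theorem EF (n : ℕ) : E n ≤ F n ∧ F n ≤ 2 * E n := by
  by_cases h : n ∈ [0, 1, 3, 5, 6, 9]
  · revert n; decide +kernel
  · have := E_eq h; omega
theorem E_add (a b : ℕ) : E a * E b ≤ E (a + b) := by
  have k : ∀ a b, a ∉ [0, 1, 3, 5, 6, 9] → E a * E b ≤ E (a + b) := fun a b h => Nat.le_of_mul_le_mul_left
    (by rw [← mul_assoc, E_eq h]; exact ((Nat.mul_le_mul_left _ (EF b).1).trans (F_add a b)).trans (EF _).2) two_pos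
  by_cases h : a ∈ [0, 1, 3, 5, 6, 9]
  · by_cases g : b ∈ [0, 1, 3, 5, 6, 9]
    · clear k; revert b; revert a; decide +kernel
    · rw [mul_comm, add_comm]; exact k b a g
  · exact k a b h
theorem F_le {k : ℕ} (h : k ≠ 0) : 2 * F k ≤ 2 ^ k := by
  by_cases c : k < 4
  · interval_cases k <;> simp_all <;> decide +kernel
  have a : v (k / 4 * 4) < k / 4 * 4 := padicValNat_factorial_lt_of_ne_zero 2 (by omega)
  conv_rhs => rw [← Nat.div_add_mod' k 4, pow_add, mul_comm]
  rw [F, mul_left_comm, ← pow_succ']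
  refine Nat.mul_le_mul ?_ (Nat.pow_le_pow_right two_pos a)
  have := Nat.mod_lt k four_pos
  interval_cases k % 4 <;> simp
def Q (d k : ℕ) : Prop := (2 * d) ^ k ≤ 2 ^ v (d * k)
instance (d k : ℕ) : Decidable (Q d k) := by unfold Q; infer_instance
theorem Q.add {d k l : ℕ} (a : Q d k) (b : Q d l) : Q d (k + l) := by
  rw [Q, pow_add, mul_add]
  exact (Nat.mul_le_mul a b).trans (pow_add 2 _ _ ▸ Nat.pow_le_pow_right two_pos (v_add _ _))
theorem Q.ind {d s t : ℕ} (hs : 0 < s) (a : Q d s) (b : ∀ k < t + s, t ≤ k → Q d k) (k : ℕ) (h : t ≤ k) : Q d k := by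
  induction k using Nat.strong_induction_on with
  | _ k ih =>
    by_cases c : k < t + s
    · exact b k c h
    · obtain ⟨k, rfl⟩ : ∃ j, k = j + s := ⟨k - s, by omega⟩
      exact (ih k (by omega) (by omega)).add a
theorem Q_one (d : ℕ) (h : 6 ≤ d) : Q d 1 := by
  induction d using Nat.strong_induction_on with
  | _ d ih =>
    by_cases c : d < 8
    · interval_cases d <;> decide +kernel
    · obtain ⟨d, rfl⟩ : ∃ j, d = j + 2 := ⟨d - 2, by omega⟩
      have a := ih d (by omega) (by omega)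
      have b := Nat.pow_le_pow_right two_pos (v_add d 2)
      rw [show v 2 = 1 by decide +kernel, pow_succ] at b
      simp only [Q, pow_one, mul_one] at a ⊢
      omega
theorem blk_le {d k : ℕ} (hk : k ≠ 0) (h : 5 ≤ d ∨ d = 3 ∧ k ≠ 2 ∧ k ≠ 4 ∧ k ≠ 5) : d ^ k * F k ≤ E (d * k) := by
  have q : Q d k → d ^ k * F k ≤ E (d * k) := fun q => Nat.le_of_mul_le_mul_left (by
    rw [mul_left_comm]
    exact (Nat.mul_le_mul_left _ (F_le hk)).trans (by
      rw [← mul_pow, mul_comm]; exact (le_trans q (le_F _)).trans (EF _).2)) two_pos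
  rcases h with h | ⟨rfl, h⟩
  · rcases h.eq_or_lt with rfl | h
    · by_cases c : k = 1
      · subst c; decide +kernel
      · exact q (Q.ind (s := 2) (t := 2) two_pos (by decide +kernel) (by decide +kernel) k (by omega))
    · exact q (Q.ind (t := 0) one_pos (Q_one d h) (fun k a _ => by rw [show k = 0 by omega]; exact Nat.one_le_two_pow) k
        k.zero_le)
  · by_cases c : k < 10
    · exact (by decide +kernel : ∀ k < 10, k ≠ 0 → k ≠ 2 ∧ k ≠ 4 ∧ k ≠ 5 → 3 ^ k * F k ≤ E (3 * k)) k c hk h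
    · exact q (Q.ind (s := 6) (t := 10) (by norm_num) (by decide +kernel) (by decide +kernel) k (by omega))

theorem cen {G : Type*} [Group G] [Finite G] [Group.IsNilpotent G] {p : ℕ} (hp : p.Prime) (h : p ∣ Nat.card G) :
    ∃ c ∈ center G, orderOf c = p := by
  have := Fact.mk hp
  obtain ⟨P⟩ : Nonempty (Sylow p G) := inferInstance
  obtain ⟨c, a⟩ := exists_prime_orderOf_dvd_card' p (((P.2.to_inf_left (K := center G)).card_eq_or_dvd).resolve_left
    fun e => inf_center_ne_bot (P.ne_bot_of_dvd_card h) (card_eq_one.1 e))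
  exact ⟨c, c.2.2, (orderOf_coe c).trans a⟩
variable {Ω : Type} [Fintype Ω] [DecidableEq Ω]
def res (N : Subgroup (Perm Ω)) (p : Ω → Prop) (h : ∀ g ∈ N, ∀ x, p (g x) ↔ p x) : N →* Perm {x // p x} where
  toFun g := g.1.subtypePerm (h g g.2)
  map_one' := rfl
  map_mul' _ _ := rfl
theorem blk {N : Subgroup (Perm Ω)} (ht : ∀ x y, ∃ g ∈ N, g x = y) {c : N} (hc : c ∈ center N) (h1 : c ≠ 1) :
    ∃ θ : N →* Perm c.1.cycleFactorsFinset, Fintype.card Ω = orderOf c * Fintype.card c.1.cycleFactorsFinset ∧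
      Nat.card N ≤ orderOf c ^ Fintype.card c.1.cycleFactorsFinset * Nat.card θ.range := by
  have l : N ≤ centralizer {c.1} := fun g hg =>
    mem_centralizer_singleton_iff.2 (congrArg Subtype.val (mem_center_iff.1 hc ⟨g, hg⟩))
  have s : ∀ (i : ℕ) x, (c.1 ^ i) x = x → c ^ i = 1 := fun i x h => Subtype.ext (Equiv.ext fun y => by
    obtain ⟨g, a, rfl⟩ := ht x y
    rw [SubmonoidClass.coe_pow, ← Perm.mul_apply, ← (Commute.pow_right (mem_centralizer_singleton_iff.1 (l a)) i).eq,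
      Perm.mul_apply, h]; rfl)
  have a : c.1.cycleType = Multiset.replicate (Fintype.card c.1.cycleFactorsFinset) (orderOf c) :=
    Multiset.eq_replicate.2 ⟨by simp [cycleType_def], fun n hn => by
      refine Nat.dvd_antisymm (orderOf_coe c ▸ dvd_of_mem_cycleType hn) (orderOf_dvd_of_pow_eq_one ?_)
      obtain ⟨σ, τ, e, d, y, rfl⟩ := mem_cycleType_iff.1 hn
      obtain ⟨x, hx, -⟩ := id y
      refine s _ x ?_
      rw [e, d.commute.mul_pow, ← y.orderOf, pow_orderOf_eq_one, one_mul]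
      exact pow_apply_eq_self_of_apply_eq_self ((d x).resolve_left hx) _⟩
  have b : c.1.cycleType.sum = Fintype.card Ω := by
    rw [sum_cycleType, Finset.eq_univ_of_forall (s := c.1.support) fun x => mem_support.2 fun h =>
      h1 (pow_one c ▸ s 1 x h), Finset.card_univ]
  let θ := (OnCycleFactors.toPermHom c.1).comp (inclusion l)
  refine ⟨θ, by rw [← b, a, Multiset.sum_replicate, smul_eq_mul, mul_comm], ?_⟩
  rw [← θ.ker.card_mul_index, index_ker]
  refine Nat.mul_le_mul_right _ ?_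
  have k := OnCycleFactors.kerParam_range_card c.1
  rw [b, Nat.sub_self, a, Multiset.prod_replicate, ← Nat.card_eq_fintype_card, OnCycleFactors.kerParam_range_eq] at k
  rw [← card_map_of_injective N.subtype_injective]
  refine (card_le_of_le ?_).trans_eq (k.trans (one_mul _))
  rintro _ ⟨g, hg, rfl⟩
  exact ⟨_, hg, rfl⟩
theorem two {N : Subgroup (Perm Ω)} {k : ℕ} (h : Nat.card N = 2 ^ k) :
    Nat.card N ≤ 2 ^ v (Fintype.card Ω) ∧ (N ≤ alternatingGroup Ω → 2 ≤ Fintype.card Ω → 2 * Nat.card N ≤ 2 ^ v (Fintype.card Ω)) := by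
  refine ⟨h ▸ Nat.pow_le_pow_right two_pos (le_v.1 ?_), fun a b => ?_⟩
  · rw [← h, ← Fintype.card_perm, ← Nat.card_eq_fintype_card]; exact card_subgroup_dvd_card N
  · have := Fintype.one_lt_card_iff_nontrivial.1 b
    rw [h, ← pow_succ']
    refine Nat.pow_le_pow_right two_pos (le_v.1 ?_)
    rw [pow_succ', ← h, ← Fintype.card_perm, ← two_mul_card_alternatingGroup, ← Nat.card_eq_fintype_card]
    exact Nat.mul_dvd_mul_left _ (card_dvd_of_le a)
theorem main (n : ℕ) : ∀ (Ω : Type) [Fintype Ω] [DecidableEq Ω], Fintype.card Ω = n → ∀ N : Subgroup (Perm Ω),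
    Group.IsNilpotent N → Nat.card N ≤ F n ∧ (N ≤ alternatingGroup Ω → Nat.card N ≤ E n) := by
  induction n using Nat.strong_induction_on with
  | _ n ih =>
  intro Ω _ _ hn N hN
  classical
  by_cases ht : ∀ x y, ∃ g ∈ N, g x = y
  · by_cases h2 : ∃ k, Nat.card N = 2 ^ k
    · obtain ⟨k, h⟩ := h2
      have := two h
      rw [hn] at this
      refine ⟨this.1.trans (le_F n), fun a => ?_⟩
      by_cases c : 2 ≤ n
      · exact Nat.le_of_mul_le_mul_left (((this.2 a c).trans (le_F n)).trans (EF n).2) two_pos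
      · refine this.1.trans ?_
        interval_cases n <;> decide +kernel
    have k : ∀ c ∈ center N, 1 < orderOf c → ∃ k, k ≠ 0 ∧ n = orderOf c * k ∧ Nat.card N ≤ orderOf c ^ k * F k := by
      intro c a b
      have c1 : c ≠ 1 := fun e => by simp [e] at b
      obtain ⟨θ, u, w⟩ := blk ht a c1
      have z : Fintype.card c.1.cycleFactorsFinset ≠ 0 := fun e =>
        c1 (Subtype.ext (cycleFactorsFinset_eq_empty_iff.1 (by simpa using e)))
      exact ⟨_, z, hn ▸ u, w.trans (Nat.mul_le_mul_left _ (ih _ (by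
        rw [← hn, u]; exact lt_mul_of_one_lt_left (Nat.pos_of_ne_zero z) b) _ rfl _
          (Group.nilpotent_of_surjective _ θ.rangeRestrict_surjective)).1)⟩
    suffices Nat.card N ≤ E n from ⟨this.trans (EF n).1, fun _ => this⟩
    have k5 : ∀ c ∈ center N, 5 ≤ orderOf c → Nat.card N ≤ E n := fun c a b => by
      obtain ⟨k, u, w, z⟩ := k c a (by omega)
      exact w ▸ z.trans (blk_le u (.inl b))
    obtain ⟨p, a, b, c⟩ : ∃ p, p.Prime ∧ p ∣ Nat.card N ∧ p ≠ 2 := by
      by_contra! f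
      exact h2 ⟨_, Nat.eq_prime_pow_of_unique_prime_dvd Nat.card_pos.ne' fun a b => f _ a b⟩
    obtain ⟨x, d, rfl⟩ := cen a b
    by_cases e : 5 ≤ orderOf x
    · exact k5 x d e
    have e3 : orderOf x = 3 := by
      have := a.two_le
      have : orderOf x ≠ 4 := fun h => by rw [h] at a; norm_num at a
      omega
    obtain ⟨k, u, w, z⟩ := k x d a.one_lt
    rw [e3] at w z
    have dv : n ∣ Nat.card N := by
      have : MulAction.IsPretransitive N Ω := ⟨fun x y => let ⟨g, a, b⟩ := ht x y; ⟨⟨g, a⟩, b⟩⟩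
      obtain ⟨y⟩ := Fintype.card_pos_iff.1 (show 0 < Fintype.card Ω by omega)
      rw [← hn, ← Nat.card_eq_fintype_card, ← MulAction.index_stabilizer_of_transitive N y]
      exact index_dvd_card _
    by_cases f : k = 5
    · obtain ⟨y, a, b⟩ := cen Nat.prime_five (dvd_trans ⟨3, by omega⟩ dv)
      exact k5 y a b.ge
    by_cases g : k = 2 ∨ k = 4
    · obtain ⟨y, a, b⟩ := cen Nat.prime_two (dvd_trans (by omega) dv)
      refine k5 _ (mul_mem d a) ?_
      rw [Commute.orderOf_mul_eq_mul_orderOf_of_coprime (mem_center_iff.1 a x) (by rw [e3, b]; norm_num), e3, b]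
      norm_num
    exact w ▸ z.trans (blk_le u (.inr ⟨rfl, by omega⟩))
  push Not at ht
  obtain ⟨x, y, ht⟩ := ht
  let p : Ω → Prop := fun z => ∃ g ∈ N, g x = z
  have hp : ∀ g ∈ N, ∀ z, p (g z) ↔ p z := fun g hg z =>
    ⟨fun ⟨k, a, b⟩ => ⟨g⁻¹ * k, mul_mem (inv_mem hg) a, by simp [b]⟩, fun ⟨k, a, b⟩ => ⟨g * k, mul_mem hg a, by simp [b]⟩⟩
  let r := res N p hp
  let s := res N (fun z => ¬ p z) fun g hg z => (hp g hg z).not
  have e : ∀ g : N, g.1 = (r g).subtypeCongr (s g) := fun g => Equiv.ext fun z => by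
    by_cases h : p z
    · rw [subtypeCongr.left_apply _ _ h]; rfl
    · rw [subtypeCongr.right_apply _ _ h]; rfl
  let θ := r.rangeRestrict.prod s.rangeRestrict
  have inj : Function.Injective θ := fun g k h => Subtype.ext (by
    rw [e g, e k, show r g = r k from congrArg (·.1.1) h, show s g = s k from congrArg (·.2.1) h])
  have c : Fintype.card {z // p z} + Fintype.card {z // ¬ p z} = n := by
    rw [Fintype.card_subtype_compl, hn, Nat.add_sub_cancel' (hn ▸ Fintype.card_subtype_le p)]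
  have a1 : 0 < Fintype.card {z // p z} := Fintype.card_pos_iff.2 ⟨⟨x, 1, one_mem _, rfl⟩⟩
  have a2 : 0 < Fintype.card {z // ¬ p z} := Fintype.card_pos_iff.2 ⟨⟨y, fun ⟨g, a, b⟩ => ht g a b⟩⟩
  have u := ih _ (by omega) _ rfl _ (Group.nilpotent_of_surjective _ r.rangeRestrict_surjective)
  have w := ih _ (by omega) _ rfl _ (Group.nilpotent_of_surjective _ s.rangeRestrict_surjective)
  have l := Nat.card_le_card_of_injective _ inj
  have m := (Nat.mul_le_mul u.1 w.1).trans (c ▸ F_add _ _)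
  rw [Nat.card_prod] at l
  refine ⟨l.trans m, fun a => ?_⟩
  let ψ : r.range × s.range →* ℤˣ := (sign.comp r.range.subtype).coprod (sign.comp s.range.subtype)
  by_cases t : ψ.ker = ⊤
  · refine l.trans ((Nat.mul_le_mul (u.2 fun g h => ?_) (w.2 fun g h => ?_)).trans (c ▸ E_add _ _))
    · simpa [ψ] using (t ▸ mem_top _ : (⟨g, h⟩, 1) ∈ ψ.ker)
    · simpa [ψ] using (t ▸ mem_top _ : (1, ⟨g, h⟩) ∈ ψ.ker)
  have z : Nat.card N ≤ Nat.card ψ.ker := Nat.card_le_card_of_injective (fun g => ⟨θ g, by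
    have := mem_alternatingGroup.1 (a g.2)
    rwa [e g, sign_subtypeCongr] at this⟩) fun g k h => inj (congrArg Subtype.val h)
  have := ψ.ker.card_mul_index
  rw [Nat.card_prod] at this
  have := Nat.mul_le_mul z (one_lt_index_of_ne_top t)
  have := (EF n).2
  omega
end H9.Nl
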