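import Cfsg.Agent.H9.Nl1
/-! The largest nilpotent subgroups of symmetric and alternating groups: the extremal groups. -/
set_option autoImplicit false
namespace H9.Nl
open Subgroup Equiv Equiv.Perm Nat

theorem sylS {n : ℕ} (P : Sylow 2 (Perm (Fin n))) : Nat.card P = 2 ^ v n := by
  rw [P.card_eq_multiplicity, Nat.factorization_def _ prime_two, Nat.card_perm, Nat.card_eq_fintype_card, Fintype.card_fin, v]
theorem sylA {n : ℕ} (h : 2 ≤ n) (P : Sylow 2 (alternatingGroup (Fin n))) : 2 * Nat.card P = 2 ^ v n := by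
  have := Fin.nontrivial_iff_two_le.2 h
  rw [P.card_eq_multiplicity, Nat.factorization_def _ prime_two, v, ← Fintype.card_fin n, ← Fintype.card_perm,
    ← two_mul_card_alternatingGroup, padicValNat.mul two_ne_zero Fintype.card_ne_zero, padicValNat_self, pow_add,
    Fintype.card_fin, Nat.card_eq_fintype_card, pow_one]
theorem bdA {n : ℕ} (N : Subgroup (alternatingGroup (Fin n))) (h : Group.IsNilpotent N) : Nat.card N ≤ E n := by
  rw [← card_map_of_injective (Subgroup.subtype_injective _)]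
  exact (main n _ (Fintype.card_fin n) _ ((Group.isNilpotent_congr
    (N.equivMapOfInjective _ (Subgroup.subtype_injective _))).1 h)).2 (map_subtype_le _)
theorem big {n j : ℕ} (hn : n % 4 = 3) (h : 3 * (j + 2) ≤ n) : v (n - 3 * (j + 2)) + v (j + 2) + 2 ≤ v (n - 3) := by
  obtain ⟨m, rfl⟩ := Nat.exists_eq_add_of_le h
  rw [Nat.add_sub_cancel_left]
  match j with
  | 0 =>
    have a := v_add (m / 4 * 4) 4
    rw [show v 4 = 3 by decide +kernel, show m / 4 * 4 + 4 = 3 * (0 + 2) + m - 3 by omega] at a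
    rw [v_mod m, show v (0 + 2) = 1 by decide +kernel]
    omega
  | 1 =>
    have a := v_add m 6
    rw [show v 6 = 4 by decide +kernel, show m + 6 = 3 * (1 + 2) + m - 3 by omega] at a
    rw [show v (1 + 2) = 1 by decide +kernel]
    omega
  | j + 2 =>
    have a := v_add (m + (j + 2 + 2) + 4) (2 * j + 1)
    have b := v_add (m + (j + 2 + 2)) 4
    have c := v_add m (j + 2 + 2)
    rw [show v 4 = 3 by decide +kernel] at b
    rw [show 3 * (j + 2 + 2) + m - 3 = m + (j + 2 + 2) + 4 + (2 * j + 1) by omega]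
    omega
theorem cc {n j : ℕ} {t : Perm (Fin n)} (h : t.cycleType = Multiset.replicate (j + 1) 3) :
    Nat.card (centralizer {t}) = (n - 3 * (j + 1))! * (j + 1)! * 3 ^ (j + 1) := by
  rw [nat_card_centralizer, h, Multiset.toFinset_replicate, if_neg j.succ_ne_zero]
  simp only [Fintype.card_fin, Multiset.sum_replicate, smul_eq_mul, Multiset.prod_replicate, Finset.prod_singleton,
    Multiset.count_replicate_self, mul_comm (j + 1) 3, mul_right_comm]
theorem conj {G : Type} [Group G] [Finite G] {n a : ℕ} (hn : n % 4 = 3) (ι : G →* Perm (Fin n)) (hι : Function.Injective ι)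
    (ha : v (n - 3) ≤ a + 1) (cj : ∀ s t, (ι s).IsThreeCycle → (ι t).IsThreeCycle → IsConj s t)
    (sy : ∀ t, (ι t).IsThreeCycle → ¬ 2 ^ (a + 1) ∣ Nat.card (centralizer {t})) (N₁ N₂ : Subgroup G)
    (h₁ : Group.IsNilpotent N₁) (h₂ : Group.IsNilpotent N₂) (c₁ : Nat.card N₁ = 3 * 2 ^ a) (c₂ : Nat.card N₂ = 3 * 2 ^ a) :
    ∃ g, N₂ = N₁.map (MulAut.conj g).toMonoidHom := by
  have k : ∀ N : Subgroup G, Group.IsNilpotent N → Nat.card N = 3 * 2 ^ a → ∃ t ∈ N, (ι t).IsThreeCycle ∧
      N ≤ centralizer {t} := by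
    intro N h c
    obtain ⟨t, b, o⟩ := cen prime_three (c ▸ dvd_mul_right _ _ : 3 ∣ Nat.card N)
    have l : N ≤ centralizer {t.1} := fun g hg =>
      mem_centralizer_singleton_iff.2 (congrArg Subtype.val (mem_center_iff.1 b ⟨g, hg⟩))
    rw [← orderOf_coe] at o
    have o' := (orderOf_injective ι hι t).trans o
    obtain ⟨j, e⟩ := cycleType_prime_order (o' ▸ prime_three)
    rw [o'] at e
    have d : 2 ^ a ∣ Nat.card (centralizer {ι t}) := (Dvd.intro_left _ c.symm).trans (card_map_of_injective hι ▸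
      card_dvd_of_le (by
        rintro _ ⟨g, hg, rfl⟩
        rw [mem_centralizer_singleton_iff, ← map_mul, mem_centralizer_singleton_iff.1 (l hg), map_mul]))
    have s := (ι t).sum_cycleType_le
    rw [cc e, (Nat.Coprime.pow _ _ (by norm_num)).dvd_mul_right, padicValNat_dvd_iff_le (by positivity),
      padicValNat.mul (factorial_ne_zero _) (factorial_ne_zero _)] at d
    rw [e, Multiset.sum_replicate, smul_eq_mul, Fintype.card_fin] at s
    obtain rfl : j = 0 := by
      by_contra z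
      obtain ⟨j, rfl⟩ := Nat.exists_eq_succ_of_ne_zero z
      have := big (j := j) hn (by omega)
      change a ≤ v (n - 3 * (j + 2)) + v (j + 2) at d
      omega
    exact ⟨t, t.2, e, l⟩
  have m : ∀ (N : Subgroup G) (t : G), Nat.card N = 3 * 2 ^ a → t ∈ N → (ι t).IsThreeCycle → N ≤ centralizer {t} →
      ∃ Q : Sylow 2 (centralizer ({t} : Set G)), N = Q.1.map (Subgroup.subtype _) ⊔ zpowers t := by
    intro N t c ht e l
    have o := (orderOf_injective ι hι t).symm.trans e.orderOf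
    obtain ⟨R, r⟩ := Sylow.exists_subgroup_card_pow_prime 2 (c ▸ dvd_mul_left _ _ : 2 ^ a ∣ Nat.card N)
    have r' := (card_map_of_injective (inclusion_injective l)).trans r
    let Q := (IsPGroup.of_card r').toSylow fun h => sy t e (by
      rw [← (R.map (inclusion l)).card_mul_index, r', pow_succ]; exact Nat.mul_dvd_mul_left _ h)
    refine ⟨Q, (eq_of_le_of_card_ge (sup_le ?_ (zpowers_le.2 ht)) (c.trans_le (Nat.le_of_dvd Nat.card_pos
      (Nat.Coprime.mul_dvd_of_dvd_of_dvd (Nat.Coprime.pow_right _ (by norm_num)) ?_ ?_)))).symm⟩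
    · rintro _ ⟨_, ⟨g, -, rfl⟩, rfl⟩; exact g.2
    · rw [← o, ← Nat.card_zpowers]; exact card_dvd_of_le le_sup_right
    · rw [← r', ← card_map_of_injective (Subgroup.subtype_injective _)]; exact card_dvd_of_le le_sup_left
  obtain ⟨t₂, a₂, b₂, l₂⟩ := k N₂ h₂ c₂
  obtain ⟨t₁, a₁, b₁, l₁⟩ := k N₁ h₁ c₁
  obtain ⟨g, rfl⟩ := isConj_iff.1 (cj _ _ b₁ b₂)
  obtain ⟨Q₂, q₂⟩ := m _ _ c₂ a₂ b₂ l₂
  obtain ⟨Q₁, q₁⟩ := m (N₁.map (MulAut.conj g).toMonoidHom) (g * t₁ * g⁻¹) ((card_map_of_injective (MulAut.conj g).injective).trans c₁)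
    ⟨_, a₁, rfl⟩ b₂ (by
      rintro _ ⟨x, hx, rfl⟩
      exact mem_centralizer_singleton_iff.2 ((Commute.map (mem_centralizer_singleton_iff.1 (l₁ hx)) (MulAut.conj g))))
  obtain ⟨h, rfl⟩ := MulAction.exists_smul_eq (centralizer {g * t₁ * g⁻¹}) Q₁ Q₂
  refine ⟨h * g, eq_of_le_of_card_ge (q₂.le.trans (sup_le ?_ (zpowers_le.2 ⟨_, a₁, ?_⟩)))
    (by rw [card_map_of_injective (MulAut.conj _).injective, c₁, c₂])⟩
  · rintro _ ⟨_, ⟨x, hx, rfl⟩, rfl⟩
    obtain ⟨y, a, b⟩ := q₁.ge (mem_sup_left ⟨x, hx, rfl⟩)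
    exact ⟨y, a, by rw [map_mul]; exact congrArg (MulAut.conj h.1) b⟩
  · rw [map_mul]
    exact mul_inv_eq_iff_eq_mul.2 (mem_centralizer_singleton_iff.1 h.2)
def χ : Multiplicative (ZMod 3) →* Perm (Fin 3) where
  toFun k := finRotate 3 ^ k.toAdd.val
  map_one' := rfl
  map_mul' := by decide
def ρ {n : ℕ} (h : 3 ≤ n) : Perm (Fin (n - 3)) × Multiplicative (ZMod 3) →* Perm (Fin n) :=
  ((finSumFinEquiv.trans (finCongr (Nat.sub_add_cancel h))).permCongrHom.toMonoidHom.comp (sumCongrHom _ _)).comp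
    ((MonoidHom.id _).prodMap χ)
theorem ρ_inj {n : ℕ} (h : 3 ≤ n) : Function.Injective (ρ h) :=
  (((finSumFinEquiv.trans (finCongr (Nat.sub_add_cancel h))).permCongrHom.injective).comp sumCongrHom_injective).comp
    (Function.injective_id.prodMap (show Function.Injective χ by decide))
theorem ρ_sign {n : ℕ} (h : 3 ≤ n) (x) : sign (ρ h x) = sign x.1 := by
  have : ∀ k, sign (χ k) = 1 := by decide
  simp [ρ, this]
theorem ex {G P : Type} [Group G] [Group P] [Finite P] (h : IsPGroup 2 P) (f : P × Multiplicative (ZMod 3) →* G)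
    (hf : Function.Injective f) : ∃ M : Subgroup G, Group.IsNilpotent M ∧ Nat.card M = 3 * Nat.card P ∧
      Nonempty (M ≃* P × Multiplicative (ZMod 3)) := by
  have := h.isNilpotent
  refine ⟨f.range, Group.nilpotent_of_surjective _ f.rangeRestrict_surjective, ?_, ⟨(MonoidHom.ofInjective hf).symm⟩⟩
  rw [← Nat.card_congr (MonoidHom.ofInjective hf).toEquiv, Nat.card_prod, mul_comm]
  simp
end H9.Nl
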