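/-
Lower π-series of a π-separable group: its length is attained on a two-generator subgroup.
-/
import Cfsg.Agent.H9.Fl1
import Cfsg.Agent.H1.FTLib
import Cfsg.Agent.H7.PiClass
import Cfsg.Agent.H15.Pi

set_option autoImplicit false
set_option linter.unusedSectionVars false

namespace H9.Pw

open Subgroup Cfsg H1
open scoped Pointwise

local notation "𝒩(" X ")" => Subgroup.normalizer (SetLike.coe X)
local notation "𝒞(" X ")" => Subgroup.centralizer (SetLike.coe X)

universe u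
variable {G : Type*} [Group G]

/-- The subgroup generated by the π-elements of `K`. -/
def gen (π : Set ℕ) (K : Subgroup G) : Subgroup G := closure {g | g ∈ K ∧ IsPiNat π (orderOf g)}

/-- Alternating sets of primes. -/
def τ (π : Set ℕ) : ℕ → Set ℕ
  | 0 => π
  | i + 1 => (τ π i)ᶜ

/-- The lower π-series. -/
def Ψ (π : Set ℕ) : ℕ → Subgroup G → Subgroup G
  | 0, H => H
  | i + 1, H => gen (τ π i) (Ψ π i H)

variable {π : Set ℕ} {H K : Subgroup G}

theorem gen_le : gen π K ≤ K := (closure_le _).2 fun _ h => h.1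

theorem Ψ_le (i : ℕ) : Ψ π i H ≤ H := by
  induction i with
  | zero => exact le_rfl
  | succ i ih => exact gen_le.trans ih

theorem Ψ_mono (h : H ≤ K) (i : ℕ) : Ψ π i H ≤ Ψ π i K := by
  induction i with
  | zero => exact h
  | succ i ih => exact closure_mono fun _ a => ⟨ih a.1, a.2⟩

variable [Finite G]

theorem eq1 {x : G} (a : IsPiNat π (orderOf x)) (b : IsPiNat πᶜ (orderOf x)) : x = 1 :=
  orderOf_eq_one_iff.1 (Nat.coprime_self _ |>.1 (a.coprime b))

theorem pe {x : G} (a : IsPiNat π (Nat.card K)) (b : x ∈ K) : IsPiNat π (orderOf x) :=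
  a.of_dvd (Subgroup.orderOf_dvd_natCard _ b)

theorem gen_map {G' : Type*} [Group G'] (f : G →* G') : (gen π K).map f = gen π (K.map f) := by
  refine le_antisymm (map_le_iff_le_comap.2 ((closure_le _).2 fun g h => subset_closure
    ⟨mem_map_of_mem f h.1, h.2.of_dvd (orderOf_map_dvd f g)⟩)) ((closure_le _).2 ?_)
  rintro _ ⟨⟨g, a, rfl⟩, b⟩
  obtain ⟨x, c, y, ⟨k, rfl⟩, e, i, j⟩ := H7.exists_pi_part π g
  refine ⟨x, subset_closure ⟨zpowers_le_of_mem a c, i⟩, ?_⟩
  have : f (g ^ k) = 1 := orderOf_eq_one_iff.1 (Nat.coprime_self _ |>.1 ((b.of_dvd (by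
    rw [map_zpow]; exact orderOf_dvd_of_mem_zpowers ⟨k, rfl⟩)).coprime (j.of_dvd (orderOf_map_dvd f _))))
  conv_rhs => rw [← e, map_mul, this, mul_one]

theorem Ψ_map {G' : Type*} [Group G'] (f : G →* G') (i : ℕ) : (Ψ π i K).map f = Ψ π i (K.map f) := by
  induction i with
  | zero => rfl
  | succ i ih => rw [Ψ, gen_map, ih, Ψ]

theorem Ψ_norm (i : ℕ) : 𝒩(K) ≤ 𝒩(Ψ π i K) := fun g h => by
  rw [mem_normalizer_iff_map_conj_eq] at h ⊢
  rw [Ψ_map, h]

theorem gen_eq_bot : gen π K = ⊥ ↔ IsPiNat πᶜ (Nat.card K) := by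
  refine ⟨fun h q a b c => ?_, fun h => eq_bot_iff.2 ((closure_le _).2 fun g a => eq1 a.2 (pe h a.1))⟩
  have := Fact.mk a
  obtain ⟨g, e⟩ := exists_prime_orderOf_dvd_card' q b
  rw [← orderOf_coe] at e
  exact H9.Fl.ne1 e (mem_bot.1 (h ▸ subset_closure ⟨g.2, fun r s t => by
    rwa [(Nat.prime_dvd_prime_iff_eq s a).1 (e ▸ t)]⟩))

theorem sep (h : PiSep π G) (i : ℕ) : PiSep (τ π i) G := by
  induction i with
  | zero => exact h
  | succ i ih => exact ih.compl

theorem perf (h : PiSep π K) (a : gen π K = K) (b : gen πᶜ K = K) : K = ⊥ := by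
  by_contra c
  have := (nontrivial_iff_ne_bot K).2 c
  obtain ⟨N, ⟨d, e⟩, m⟩ := (Set.toFinite {N : Subgroup K | N.Normal ∧ N ≠ ⊤}).exists_maximal
    ⟨⊥, inferInstance, bot_ne_top⟩
  obtain ⟨M, f, g, i⟩ := h N d e
  obtain rfl : M = ⊤ := by_contra fun t => g.not_ge (m ⟨f, t⟩ g.le)
  have k : ∀ σ : Set ℕ, gen σ K = K → IsPiNat σᶜ N.index → False := fun σ a b => e (by
    refine eq_top_iff.2 fun x _ => ?_
    have : K ≤ N.map K.subtype := a.ge.trans ((closure_le _).2 fun y z => ⟨⟨y, z.1⟩,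
      H4.mem_of_pow_mem_of_coprime_orderOf (pow_index_mem _ _) (IsPiNat.coprime (by rw [← orderOf_coe]; exact z.2) b),
      rfl⟩)
    simpa using this x.2)
  rw [relIndex_top_right] at i
  exact i.elim (fun i => k _ b (by rwa [compl_compl])) (k _ a)

theorem two (π : Set ℕ) (n : ℕ) : ∀ (G : Type u) [Group G] [Finite G], Nat.card G = n → PiSep π G → ∀ i,
    Ψ π i (⊤ : Subgroup G) ≠ ⊥ → ∃ x y : G, Ψ π i (closure {x, y}) ≠ ⊥ := by
  induction n using Nat.strong_induction_on with | _ n ih => ?_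
  intro G _ _ e hG i h
  subst e
  by_contra! c
  have pr : ∀ H : Subgroup G, H ≠ ⊤ → Ψ π i H = ⊥ := fun H t => by_contra fun a => by
    obtain ⟨x, y, b⟩ := ih _ (card_top (G := G) ▸ H1.card_lt_of_lt (lt_top_iff_ne_top.2 t)) H rfl (hG.subgroup H) i
      fun e => a (by rw [← range_subtype H, MonoidHom.range_eq_map, ← Ψ_map, e, Subgroup.map_bot])
    refine b ((map_eq_bot_iff_of_injective _ H.subtype_injective).1 ?_)
    rw [Ψ_map, MonoidHom.map_closure, Set.image_pair, c]
  have qu : ∀ (N : Subgroup G) [N.Normal], N ≠ ⊥ → ∀ j, ¬ Ψ π j ⊤ ≤ N → ∃ x y, ¬ Ψ π j (closure {x, y}) ≤ N :=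
    fun N _ t j a => by
      obtain ⟨x, y, b⟩ := ih _ (by
        rw [card_eq_card_quotient_mul_card_subgroup N]
        exact lt_mul_of_one_lt_right Nat.card_pos (one_lt_card_iff_ne_bot _ |>.2 t)) (G ⧸ N) rfl (hG.quotient N) j
        fun e => a (by rwa [← map_top_of_surjective _ (QuotientGroup.mk'_surjective N), ← Ψ_map, Subgroup.map_eq_bot_iff,
          QuotientGroup.ker_mk'] at e)
      obtain ⟨x, rfl⟩ := QuotientGroup.mk'_surjective N x
      obtain ⟨y, rfl⟩ := QuotientGroup.mk'_surjective N y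
      exact ⟨x, y, by rwa [← Set.image_pair, ← MonoidHom.map_closure, ← Ψ_map, Ne, Subgroup.map_eq_bot_iff,
        QuotientGroup.ker_mk'] at b⟩
  have mn : ∀ N : Subgroup G, N.Normal → N ≠ ⊥ → Ψ π i ⊤ ≤ N := fun N _ t => by_contra fun a => by
    obtain ⟨x, y, b⟩ := qu N t i a
    exact b (c x y ▸ bot_le)
  have nΨ : ∀ j, (Ψ π j (⊤ : Subgroup G)).Normal := fun j =>
    normalizer_eq_top_iff.1 (top_le_iff.1 (le_normalizer.trans (Ψ_norm j)))
  rcases i with _ | _ | j
  · exact h (eq_bot_iff.2 fun x _ => c x x ▸ subset_closure (by simp))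
  · exact h (eq_bot_iff.2 ((closure_le _).2 fun x a => c x x ▸ subset_closure ⟨subset_closure (by simp), a.2⟩))
  set σ := τ π (j + 1)
  set W := Ψ π (j + 2) (⊤ : Subgroup G)
  set U := Ψ π (j + 1) (⊤ : Subgroup G)
  have := nΨ (j + 2)
  have := nΨ (j + 1)
  have WU : W ≤ U := gen_le
  have nσ : ¬ IsPiNat σᶜ (Nat.card W) := fun a => h (eq_bot_iff.2 ((closure_le _).2 fun x b =>
    eq1 b.2 (pe a (subset_closure b))))
  have Wσ : IsPiNat σ (Nat.card W) := by
    obtain ⟨M, a, b, d, e⟩ := ((sep hG (j + 1)).subgroup W).exists_normal_le h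
    rw [d.antisymm (mn M a b)] at e
    exact e.resolve_right nσ
  have n0 : ∀ N : Subgroup G, N.Normal → IsPiNat σᶜ (Nat.card N) → N = ⊥ := fun N a b => by_contra fun t =>
    nσ (b.of_dvd (card_dvd_of_le (mn N a t)))
  have UW : ¬ U ≤ W := fun a => h (eq_bot_iff.2 (WU.trans ((closure_le _).2 fun x b =>
    eq1 b.2 (pe Wσ (a (subset_closure b))))))
  have cW : U ⊓ 𝒞(W) ≤ W := fun x a => by
    have e : (piCore σ U).map U.subtype ≤ W := fun y b => subset_closure ⟨map_subtype_le _ b,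
      pe (by rw [card_map_of_injective U.subtype_injective]; exact isPiNat_card_piCore _) b⟩
    refine e ⟨⟨x, a.1⟩, ((sep hG (j + 1)).subgroup U).centralizer_piCore_le ?_
      (fun y b => Subtype.ext (a.2 _ (e ⟨y, b, rfl⟩))), rfl⟩
    exact (map_eq_bot_iff_of_injective _ U.subtype_injective).1 (n0 _ inferInstance
      (by rw [card_map_of_injective U.subtype_injective]; exact isPiNat_card_piCore _))
  have F1 : ∀ H : Subgroup G, H ≠ ⊤ → IsPiNat σᶜ (Nat.card (Ψ π (j + 1) H)) := fun H t => gen_eq_bot.1 (pr H t)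
  have F2 : ∀ H : Subgroup G, W ⊔ H = ⊤ → W ⊔ Ψ π (j + 1) H = U := fun H t => by
    have e : ∀ K : Subgroup G, (K.map (QuotientGroup.mk' W)).comap (QuotientGroup.mk' W) = W ⊔ K := fun K => by
      rw [comap_map_eq, QuotientGroup.ker_mk', sup_comm]
    rw [← e, Ψ_map, show H.map _ = (⊤ : Subgroup G).map _ by
      rw [← t, Subgroup.map_sup, (Subgroup.map_eq_bot_iff _).2 (QuotientGroup.ker_mk' W).ge, bot_sup_eq], ← Ψ_map, e,
      sup_eq_right.2 WU]
  have K1 : ∀ H V : Subgroup G, H ≠ ⊤ → V ≤ W → V ≤ H → H ≤ 𝒩(V) → Ψ π (j + 1) H ≤ 𝒞(V) := fun H V t a b d =>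
    H15.le_cent_of_coprime (b.trans (le_normalizer.trans (Ψ_norm _))) ((Ψ_le _).trans d)
      ((Wσ.of_dvd (card_dvd_of_le a)).coprime (F1 H t)).symm
  have dj : ∀ X : Subgroup G, IsPiNat σᶜ (Nat.card X) → ∀ w ∈ W, w ∈ X → w = 1 := fun X a w b d =>
    eq1 (pe Wσ b) (pe a d)
  by_cases ab : W ≤ 𝒞(W)
  · have b0 : ∀ B : Subgroup G, B ≠ ⊤ → W ⊔ B = ⊤ → ∀ w ∈ W, w ∈ B → w = 1 := fun B t a w b d => by_contra fun e =>
      t (top_le_iff.1 (a ▸ sup_le ((mn (W ⊓ B) (normalizer_eq_top_iff.1 (top_le_iff.1 (a ▸ sup_le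
        (ab.trans ((centralizer_le inf_le_left).trans (centralizer_le_normalizer _)))
        (le_normalizer.trans' le_rfl |> fun q : B ≤ 𝒩(B) => fun g s => inf_normalizer_le_normalizer_inf
          ⟨le_normalizer_of_normal (mem_top g), q s⟩))))
        fun q => e (mem_bot.1 (q ▸ ⟨b, d⟩))).trans inf_le_right) le_rfl))
    obtain ⟨x, y, a⟩ := qu W h (j + 1) UW
    have t : W ⊔ closure {x, y} = ⊤ := by_contra fun t => a ((le_inf (Ψ_mono le_top _) ((Ψ_mono le_sup_right _).trans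
      (K1 _ W t le_rfl le_sup_left le_normalizer_of_normal))).trans cW)
    have t' : ∀ v ∈ W, ∀ w ∈ W, W ⊔ closure {x * v, y * w} = ⊤ := fun v b w d => top_le_iff.1 (t ▸ sup_le le_sup_left
      ((closure_le _).2 (Set.pair_subset
        ((mul_mem_cancel_right (mem_sup_left b)).1 (mem_sup_right (subset_closure (by simp))))
        ((mul_mem_cancel_right (mem_sup_left d)).1 (mem_sup_right (subset_closure (by simp)))))))
    have ne : ∀ x y : G, closure {x, y} ≠ ⊤ := fun x y e => h (by have := c x y; rwa [e] at this)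
    let f : W → W × W := fun a => (⟨x⁻¹ * a * x * a⁻¹, mul_mem (by simpa using (nΨ _).conj_mem _ a.2 x⁻¹) (inv_mem a.2)⟩,
      ⟨y⁻¹ * a * y * a⁻¹, mul_mem (by simpa using (nΨ _).conj_mem _ a.2 y⁻¹) (inv_mem a.2)⟩)
    have fs : Function.Surjective f := fun ⟨v, w⟩ => by
      obtain ⟨a, b, d⟩ := sz_conj_of_sup_eq le_normalizer_of_normal (Wσ.coprime (F1 _ (ne x y)))
        (Wσ.coprime (F1 _ (ne (x * v) (y * w)))) ((F2 _ t).trans (F2 _ (t' v v.2 w w.2)).symm)
      set X := Ψ π (j + 1) (closure {x * v, y * w})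
      have l : closure {x * v, y * w} ≤ 𝒩(X) := le_normalizer.trans (Ψ_norm _)
      have k : ∀ z ∈ closure {x, y}, ∀ s ∈ W, z * s ∈ closure {x * v, y * w} → z⁻¹ * a * z * a⁻¹ = s := fun z i s m o => by
        have r : a * z * a⁻¹ ∈ 𝒩(X) := d ▸ mem_normalizer_fintype fun g q => by
          simp only [SetLike.mem_coe, mem_pointwise_smul_iff_inv_smul_mem] at q ⊢
          simpa [mul_assoc] using (mem_normalizer_iff.1 (Ψ_norm (π := π) (j + 1) (le_normalizer i)) _).1 q
        have := b0 𝒩(X) (fun q => UW (by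
          rw [← F2 _ (t' v v.2 w w.2), show Ψ π (j + 1) _ = ⊥ from n0 X (normalizer_eq_top_iff.1 q) (F1 _ (ne _ _)),
            sup_bot_eq])) (top_le_iff.1 (t' v v.2 w w.2 ▸ sup_le_sup_left l _)) (a * (z⁻¹ * a⁻¹ * z) * s)
          (mul_mem (mul_mem b (by simpa using (nΨ _).conj_mem _ (inv_mem b) z⁻¹)) m)
          (by simpa [mul_assoc] using mul_mem (inv_mem r) (l o))
        rw [eq_inv_of_mul_eq_one_right this]; group
      exact ⟨⟨a, b⟩, Prod.ext (Subtype.ext (k x (subset_closure (by simp)) v v.2 (subset_closure (by simp))))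
        (Subtype.ext (k y (subset_closure (by simp)) w w.2 (subset_closure (by simp))))⟩
    have := Nat.card_le_card_of_surjective f fs
    have := (one_lt_card_iff_ne_bot _).2 h
    rw [Nat.card_prod] at *
    nlinarith
  have pp : ∀ (r : ℕ) [Fact r.Prime] (R : Subgroup G), r ∣ Nat.card W → IsPiHallOf {r} R W →
      𝒩(R) ≠ ⊤ ∧ W ⊔ 𝒩(R) = ⊤ := fun r _ R a b => by
    refine ⟨fun t => ?_, by simpa using sylowOf_frattini_sup b le_top le_normalizer_of_normal⟩
    have R0 : R ≠ ⊥ := fun e => (isPiHallOf_singleton_iff.1 b).2.2 (by rwa [e, relIndex_bot_left])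
    obtain rfl := b.1.antisymm (mn R (normalizer_eq_top_iff.1 t) R0)
    obtain ⟨z, d, e, g⟩ := H9.Fl.cen_ord (IsPiHallOf.isPGroup b) R0
    exact ab ((mn (W ⊓ 𝒞(W)) inferInstance fun q => H9.Fl.ne1 e (mem_bot.1 (q ▸
      ⟨d, fun s m => mem_centralizer_singleton_iff.1 (g m)⟩))).trans inf_le_right)
  obtain ⟨r, a, b⟩ := Nat.exists_prime_and_dvd ((one_lt_card_iff_ne_bot _).2 h).ne'
  have := Fact.mk a
  obtain ⟨R, d⟩ := exists_sylowOf r W
  obtain ⟨e, f⟩ := pp r R b d
  set T := Ψ π (j + 1) 𝒩(R)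
  have Tσ := F1 _ e
  have : W ≤ 𝒞(T) := le_of_forall_sylowOf_le fun s _ g => by
    obtain ⟨S, k, l⟩ := exists_invariant_sylowOf s (le_normalizer_of_normal (K := T)) (Wσ.coprime Tσ).symm
      (ft_coprime (Wσ.coprime Tσ).symm)
    obtain ⟨m, o⟩ := pp s S g k
    refine ⟨S, k, le_centralizer_iff.1 (le_trans (fun t q => ?_) (K1 _ S m k.1 le_normalizer le_rfl))⟩
    obtain ⟨w, v, z, y, rfl⟩ := mem_sup_of_normal_left.1 (F2 _ o ▸ Ψ_mono le_top _ q : t ∈ W ⊔ Ψ π (j + 1) 𝒩(S))
    rwa [dj _ (H15.Cfsg.IsPiSubgroup.sup_of_le_norm Tσ (F1 _ m) (l.trans (le_normalizer.trans (Ψ_norm _)))) w v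
      ((mul_mem_cancel_right (mem_sup_right y)).1 (mem_sup_left q)), one_mul]
  exact UW (F2 _ f ▸ sup_le le_rfl ((le_inf (Ψ_mono le_top _) (le_centralizer_iff.1 this)).trans cW))

/-- Powell: a simple group all of whose proper subgroups are π-separable is generated by three elements. -/
theorem powell [IsSimpleGroup G] (a : ¬ IsPiNat π (Nat.card G)) (b : ¬ IsPiNat πᶜ (Nat.card G))
    (h : ∀ H : Subgroup G, H ≠ ⊤ → PiSep π H) : ∃ x y z : G, closure {x, y, z} = ⊤ := by
  by_contra! c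
  have all : ∀ i, ∃ x y : G, Ψ π i (closure {x, y}) ≠ ⊥ := fun i => by
    induction i with
    | zero =>
      obtain ⟨x, e⟩ := exists_ne (1 : G)
      exact ⟨x, x, fun t => e (mem_bot.1 (t ▸ subset_closure (by simp)))⟩
    | succ i ih =>
      by_contra! d
      obtain ⟨x, y, e⟩ := ih
      set X := {g : G | IsPiNat (τ π i)ᶜ (orderOf g)}
      rcases IsSimpleGroup.eq_bot_or_eq_top_of_normal _ (normalizer_eq_top_iff.1 (top_le_iff.1 (H9.Fl.stab_norm (X := X)
        fun m _ x hx => by simpa [X, H9.Fl.ord_conj] using hx))) with t | t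
      · refine e (eq_bot_iff.2 fun k hk => t ▸ H9.Fl.mem_stab.2 fun g hg => ?_)
        set H := closure {x, y, g}
        have : Ψ π (i + 1) H = ⊥ := by_contra fun q => by
          obtain ⟨v, w, f⟩ := two π _ H rfl (h H (c _ _ _)) (i + 1)
            fun e => q (by rw [← range_subtype H, MonoidHom.range_eq_map, ← Ψ_map, e, Subgroup.map_bot])
          refine f ((map_eq_bot_iff_of_injective _ H.subtype_injective).1 ?_)
          rw [Ψ_map, MonoidHom.map_closure, Set.image_pair, d]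
        exact pe (H15.Cfsg.IsPiSubgroup.sup_of_le_norm (H := zpowers g) (by rwa [isPiSubgroup_iff, Nat.card_zpowers])
          (gen_eq_bot.1 this) ((zpowers_le_of_mem (subset_closure (by simp))).trans (le_normalizer.trans (Ψ_norm _))))
          (mul_mem (mem_sup_right (Ψ_mono (show closure {x, y} ≤ H from closure_mono (by simp [Set.insert_subset_iff])) _ hk))
            (mem_sup_left (mem_zpowers g)))
      · have : IsPiNat (τ π i)ᶜ (Nat.card G) := card_top (G := G) ▸ gen_eq_bot.1 (eq_bot_iff.2 ((closure_le _).2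
          fun g q => eq1 q.2 (by simpa [X] using H9.Fl.mem_stab.1 (t ▸ mem_top g : g ∈ MulAction.stabilizer G X) 1 (by simpa [X] using IsPiNat.one _))))
        have s : τ π i = π ∨ τ π i = πᶜ := by
          clear * -; induction i with
          | zero => exact .inl rfl
          | succ i ih => rcases ih with e | e <;> simp [τ, e]
        rcases s with s | s <;> rw [s] at this
        · exact b this
        · exact a (by rwa [compl_compl] at this)
  obtain ⟨n, e⟩ := WellFoundedLT.antitone_chain_condition (f := fun i (H : Subgroup G) => Ψ π i H)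
    (antitone_nat_of_succ_le fun i H => gen_le)
  obtain ⟨x, y, f⟩ := all n
  refine f (perf (π := τ π n) ((sep (h _ fun t => c x y y (by simpa using t)) n).of_le (Ψ_le n))
    (congrFun (e _ n.le_succ) _).symm ?_)
  have := congrFun (e (n + 2) (by omega)) (closure {x, y})
  rw [Ψ, ← congrFun (e _ n.le_succ) _] at this
  exact this.symm

end H9.Pw
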