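import Cfsg.Agent.H8.A8h

set_option autoImplicit false
open Subgroup Equiv H8A

namespace H9.Sy8

def a9 : A8 := ev (swap 0 1 * swap 2 6)
def b9 : A8 := ev (swap 0 2 * swap 1 6)
def EL : List A8 := [1, a8, b8, a8 * b8].flatMap fun x => [1, a9, b9, a9 * b9].map (x * ·)

theorem EL_nd : EL.Nodup := by decide +kernel

def E : Subgroup A8 := closure {x | x ∈ [a8, b8, a9, b9]}

theorem aE : a8 ∈ E := subset_closure (by simp)
theorem bE : b8 ∈ E := subset_closure (by simp)
theorem aE' : a9 ∈ E := subset_closure (by simp)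
theorem bE' : b9 ∈ E := subset_closure (by simp)

theorem E_comm {x y : A8} (hx : x ∈ E) (hy : y ∈ E) : x * y = y * x := by
  have h : ∀ x ∈ [a8, b8, a9, b9], ∀ y ∈ [a8, b8, a9, b9], x * y = y * x := by
    intro x hx y hy
    simp only [List.mem_cons, List.not_mem_nil, or_false] at hx hy
    rcases hx with rfl | rfl | rfl | rfl <;> rcases hy with rfl | rfl | rfl | rfl <;> decide +kernel
  have : E ≤ centralizer {x | x ∈ [a8, b8, a9, b9]} :=
    (closure_le _).2 fun x hx => mem_centralizer_iff.2 fun y hy => h y hy x hx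
  have h2 := this hy
  rw [← centralizer_closure] at h2
  exact mem_centralizer_iff.1 h2 x hx

theorem E_sq {x : A8} (hx : x ∈ E) : x * x = 1 := by
  have h : ∀ x ∈ [a8, b8, a9, b9], x * x = 1 := by
    intro x hx
    simp only [List.mem_cons, List.not_mem_nil, or_false] at hx
    rcases hx with rfl | rfl | rfl | rfl <;> decide +kernel
  induction hx using closure_induction with
  | mem x hx => exact h x hx
  | one => exact one_mul _
  | mul x y hx hy a b =>
    calc _ = x * (y * x) * y := by group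
      _ = x * x * (y * y) := by rw [E_comm hy hx]; group
      _ = 1 := by rw [a, b, one_mul]
  | inv x hx a => rw [← mul_inv_rev, a, inv_one]

theorem E_p : IsPGroup 2 E := fun x => ⟨1, Subtype.ext (by
  rw [pow_one, sq]; exact E_sq x.2)⟩

theorem card_E : 16 ≤ Nat.card E := by
  have h : ∀ x ∈ EL, x ∈ E := fun x hx => by
    simp only [EL, List.mem_flatMap, List.mem_map, List.mem_cons, List.not_mem_nil,
      or_false] at hx
    obtain ⟨u, hu, v, hv, rfl⟩ := hx
    refine mul_mem ?_ ?_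
    · rcases hu with rfl | rfl | rfl | rfl
      exacts [one_mem _, aE, bE, mul_mem aE bE]
    · rcases hv with rfl | rfl | rfl | rfl
      exacts [one_mem _, aE', bE', mul_mem aE' bE']
  have h1 := Nat.subtype_card (p := fun x : A8 => x ∈ EL) EL.toFinset fun x => List.mem_toFinset
  rw [List.toFinset_card_of_nodup EL_nd] at h1
  have h2 : EL.length = 16 := rfl
  rw [← h2, ← h1]
  exact Nat.card_le_card_of_injective (fun x => (⟨x.1, h _ x.2⟩ : E))
    fun x y e => Subtype.ext (congrArg (fun u : E => u.1) e)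

theorem dvd_E : 16 ∣ Nat.card E := by
  haveI : Fact (Nat.Prime 2) := ⟨Nat.prime_two⟩
  obtain ⟨n, hn⟩ := IsPGroup.iff_card.1 E_p
  have := card_E
  rw [hn] at this ⊢
  exact Nat.pow_dvd_pow 2 ((Nat.pow_le_pow_iff_right (by norm_num : 1 < 2) (n := 4)).1 this)

theorem cardA : Nat.card A8 = 20160 := by
  have := two_mul_nat_card_alternatingGroup (α := Fin 8)
  rw [Nat.card_perm, Nat.card_fin, show Nat.factorial 8 = 40320 from rfl] at this
  change 2 * Nat.card A8 = _ at this
  omega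

theorem mem_c2 {H : Type*} [Group H] {a b g : H} :
    g ∈ centralizer ({a, b} : Set H) ↔ a * g = g * a ∧ b * g = g * b := by
  simp [mem_centralizer_iff]

variable {G : Type*} [Group G] [Finite G] {φ : A8 →* G}

theorem sy (inj : Function.Injective φ) (h48 : Nat.card (centralizer ({φ a8, φ b8} : Set G)) ∣ 48) (nc : ¬ IsConj (φ a8) (φ s8)) (pm : ∀ a b : A8, a * a = 1 → b * b = 1 → a ≠ 1 → b ≠ 1 → a ≠ b → Commute a b → ¬ IsConj a s8 → ¬ IsConj b s8 → ¬ IsConj (a * b) s8 → (∃ g : A8, g * a8 * g⁻¹ = a ∧ g * b8 * g⁻¹ = b) ∨ Nat.card (centralizer ({a, b} : Set A8)) ≤ 8) : ¬ 128 ∣ Nat.card G := by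
  intro h128
  haveI : Fact (Nat.Prime 2) := ⟨Nat.prime_two⟩
  haveI : Fact (Nat.Prime 3) := ⟨Nat.prime_three⟩
  have cm : ∀ K : Subgroup A8, Nat.card (K.map φ) = Nat.card K := fun K =>
    (Nat.card_congr (K.equivMapOfInjective φ inj).toEquiv).symm
  have EC : E ≤ centralizer ({a8, b8} : Set A8) := fun x hx =>
    mem_c2.2 ⟨E_comm aE hx, E_comm bE hx⟩
  have d16 : 16 ∣ Nat.card (centralizer ({a8, b8} : Set A8)) := dvd_E.trans (card_dvd_of_le EC)
  have d3 : 3 ∣ Nat.card (centralizer ({a8, b8} : Set A8)) := by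
    have o : orderOf z8 = 3 := orderOf_eq_prime (by decide +kernel) (by decide +kernel)
    have m : z8 ∈ centralizer ({a8, b8} : Set A8) := mem_c2.2 (by decide +kernel)
    rw [← o]
    exact orderOf_dvd_natCard _ m
  have d48 : 48 ∣ Nat.card (centralizer ({a8, b8} : Set A8)) :=
    Nat.Coprime.mul_dvd_of_dvd_of_dvd (by norm_num : Nat.Coprime 16 3) d16 d3
  have CG : (centralizer ({a8, b8} : Set A8)).map φ = centralizer ({φ a8, φ b8} : Set G) := by
    refine eq_of_le_of_card_ge ?_ ?_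
    · rintro _ ⟨x, hx, rfl⟩
      obtain ⟨h1, h2⟩ := mem_c2.1 hx
      exact mem_c2.2 ⟨by rw [← map_mul, h1, map_mul], by rw [← map_mul, h2, map_mul]⟩
    · rw [cm]
      exact (Nat.le_of_dvd (by norm_num) h48).trans (Nat.le_of_dvd Nat.card_pos d48)
  obtain ⟨T, hT⟩ := E_p.exists_le_sylow
  have cT : Nat.card (T : Subgroup A8) = 2 ^ 6 := by
    rw [T.card_eq_multiplicity, cardA]
    have : (20160 : ℕ).factorization 2 = 6 := by
      rw [show 20160 = 2 ^ 6 * 315 from rfl, Nat.factorization_mul (by norm_num) (by norm_num),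
        Nat.prime_two.factorization_pow]
      simp [Nat.factorization_eq_zero_of_not_dvd (by norm_num : ¬ 2 ∣ 315)]
    rw [this]
  have dN := Sylow.prime_pow_dvd_card_normalizer (p := 2) (n := 6) h128
    ((cm T).trans cT)
  have NR : normalizer (((T : Subgroup A8).map φ : Subgroup G) : Set G) ≤ φ.range := by
    intro g hg
    have cj : ∀ x ∈ E, ∃ y, φ y = g * φ x * g⁻¹ := fun x hx => by
      obtain ⟨y, -, e⟩ := (mem_normalizer_iff.1 hg (φ x)).1 ⟨x, hT hx, rfl⟩
      exact ⟨y, e⟩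
    obtain ⟨a, ha⟩ := cj a8 aE
    obtain ⟨b, hb⟩ := cj b8 bE
    have ncj : ∀ x y : A8, φ y = g * φ x * g⁻¹ → IsConj a8 x → ¬ IsConj y s8 := fun x y e c d =>
      nc ((φ.map_isConj c).trans ((isConj_iff.2 ⟨g, e.symm⟩).trans (φ.map_isConj d)))
    have ne : ∀ x y x' y' : A8, φ y = g * φ x * g⁻¹ → φ y' = g * φ x' * g⁻¹ → (y = y' ↔ x = x') :=
      fun x y x' y' e e' => by rw [← inj.eq_iff, e, e', mul_left_inj, mul_right_inj, inj.eq_iff]
    have ml : ∀ {x y x' y' : A8}, φ y = g * φ x * g⁻¹ → φ y' = g * φ x' * g⁻¹ →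
        φ (y * y') = g * φ (x * x') * g⁻¹ := fun e e' => by
      rw [map_mul, map_mul, e, e', conj_mul]
    have o1 : φ 1 = g * φ 1 * g⁻¹ := by simp
    rcases pm a b ((ne _ _ _ _ (ml ha ha) o1).2 (by decide +kernel))
      ((ne _ _ _ _ (ml hb hb) o1).2 (by decide +kernel))
      (mt (ne _ _ _ _ ha o1).1 (by decide +kernel)) (mt (ne _ _ _ _ hb o1).1 (by decide +kernel))
      (mt (ne _ _ _ _ ha hb).1 (by decide +kernel))
      ((ne _ _ _ _ (ml ha hb) (ml hb ha)).2 (by decide +kernel))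
      (ncj _ _ ha (IsConj.refl _))
      (ncj _ _ hb (isConj_iff.2 ⟨d8⁻¹, by decide +kernel⟩))
      (ncj _ _ (ml ha hb) (isConj_iff.2 ⟨d8, by decide +kernel⟩)) with ⟨h, h1, h2⟩ | h
    · have m : (φ h)⁻¹ * g ∈ centralizer ({φ a8, φ b8} : Set G) := by
        rw [← h1, map_mul, map_mul, map_inv] at ha
        rw [← h2, map_mul, map_mul, map_inv] at hb
        refine mem_c2.2 ⟨?_, ?_⟩
        · calc _ = (φ h)⁻¹ * (φ h * φ a8 * (φ h)⁻¹) * g := by group
            _ = _ := by rw [ha]; group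
        · calc _ = (φ h)⁻¹ * (φ h * φ b8 * (φ h)⁻¹) * g := by group
            _ = _ := by rw [hb]; group
      rw [← CG] at m
      obtain ⟨x, -, e⟩ := m
      exact ⟨h * x, by rw [map_mul, e]; group⟩
    · exfalso
      have le : (E.map φ).map (MulAut.conj g).toMonoidHom ≤
          (centralizer ({a, b} : Set A8)).map φ := by
        rintro _ ⟨_, ⟨x, hx, rfl⟩, rfl⟩
        obtain ⟨y, hy⟩ := cj x hx
        refine ⟨y, mem_c2.2 ⟨?_, ?_⟩, hy⟩
        · exact (ne _ _ _ _ (ml ha hy) (ml hy ha)).2 (E_comm aE hx)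
        · exact (ne _ _ _ _ (ml hb hy) (ml hy hb)).2 (E_comm bE hx)
      have := card_le_of_le le
      rw [cm, ← Nat.card_congr ((E.map φ).equivMapOfInjective _ (MulAut.conj g).injective).toEquiv,
        cm] at this
      have := card_E
      omega
  have := dN.trans (card_dvd_of_le NR)
  rw [← Nat.card_congr (MonoidHom.ofInjective inj).toEquiv, cardA] at this
  norm_num at this

end H9.Sy8
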