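import Cfsg.Agent.H9.Sh3
import Cfsg.Agent.H7.MinAct
import Cfsg.Agent.H1.FTLib
import Cfsg.Agent.H1.PLength
import Cfsg.Agent.H1.Super
import Cfsg.Agent.H8.Sdp
import Cfsg.Agent.H25.Zas4

/-! Trivial intersection Hall subgroups of separable groups. -/

set_option autoImplicit false

namespace H9
open H2 Subgroup H15 Cfsg
open scoped commutatorElement

variable {G : Type*} [Group G] [Finite G]

theorem solv_of_zgroup_normal (H : Subgroup G) [H.Normal] (hZ : IsZGroup H) (hC : 𝒞(H) ≤ H) :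
    Group.IsSolvable G := by
  haveI h1 : IsCyclic (⁅H, H⁆ : Subgroup G) := H8.zgroup_commutator_cyclic hZ le_normalizer
  have h2 := H1.commutator_le_centralizer_of_isCyclic (⁅H, H⁆ : Subgroup G)
  let f := QuotientGroup.mk' (⁅H, H⁆ : Subgroup G)
  haveI : (H.map f).Normal := Normal.map inferInstance f (QuotientGroup.mk'_surjective _)
  haveI : IsZGroup (H.map f) := IsZGroup.of_surjective (f.subgroupMap_surjective H)
  haveI : IsMulCommutative (H.map f) := comm_of_le_cent (le_cent_iff_comm.2 (by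
    rw [← map_commutator, Subgroup.map_eq_bot_iff, QuotientGroup.ker_mk']))
  haveI : IsCyclic (H.map f) := H8.isCyclic_of_comm_of_isZGroup inferInstance le_rfl inferInstance
  have h3 := H1.commutator_le_centralizer_of_isCyclic (H.map f)
  have h4 : ⁅_root_.commutator G, H⁆ ≤ ⁅H, H⁆ := by
    have : (⁅_root_.commutator G, H⁆).map f = ⊥ := by
      rw [map_commutator, ← le_cent_iff_comm]
      refine le_trans ?_ h3
      rw [_root_.commutator_def, map_commutator]
      exact commutator_mono le_top le_top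
    rwa [Subgroup.map_eq_bot_iff, QuotientGroup.ker_mk'] at this
  have h5 : ⁅⁅_root_.commutator G, H⁆, _root_.commutator G⁆ = ⊥ := by
    rw [Subgroup.commutator_comm, ← le_cent_iff_comm]
    exact h2.trans (cent_anti h4)
  have h6 : ⁅⁅_root_.commutator G, _root_.commutator G⁆, H⁆ = ⊥ :=
    commutator_commutator_eq_bot_of_rotate h5 (by rwa [Subgroup.commutator_comm H])
  refine H1.isSolvable_of_normal_quotient H inferInstance ⟨⟨2, ?_⟩⟩
  have := map_derivedSeries_eq (QuotientGroup.mk'_surjective H) 2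
  rw [← this, Subgroup.map_eq_bot_iff, QuotientGroup.ker_mk']
  exact (le_cent_iff_comm.2 h6).trans hC

theorem ti_norm_le {H T : Subgroup G} (hTI : IsTISubset (H : Set G)) (hT : T ≤ H) (h0 : T ≠ ⊥) :
    𝒩(T) ≤ 𝒩(H) := fun g hg => by
  obtain ⟨⟨x, hx⟩, hx1⟩ := ne_bot_iff_exists_ne_one.1 h0
  by_contra h
  exact hx1 (Subtype.ext (hTI g h x (hT hx) (hT (H1.conj_mem_of_mem_normalizer hg hx))))

theorem ti_hall {H : Subgroup G} (hTI : IsTISubset (H : Set G))
    (hH : (Nat.card H).Coprime (H.relIndex 𝒩(H))) : IsPiHallOf {p | p ∣ Nat.card H} H ⊤ := by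
  refine ⟨le_top, fun p _ h => h, fun p hp h => ?_⟩
  haveI := Fact.mk hp
  obtain ⟨P, hP⟩ := H1.exists_sylowOf p H
  have h0 : P ≠ ⊥ := by
    rintro rfl
    exact hP.2.2 p hp rfl (by rwa [relIndex_bot_left])
  have h1 := H1.IsPiHallOf.trans_of_relIndex hP (le_norm_self H) fun q hq hq' e =>
    hq.one_lt.ne' (Nat.eq_one_of_dvd_coprimes hH ((show q = p from e) ▸ h) hq')
  have h2 := H1.sylowOf_of_sylowOf_normalizer (K := ⊤) le_top (H1.IsPiHallOf.of_le h1
    (le_inf le_top (le_norm_self P)) (inf_le_right.trans (ti_norm_le hTI hP.1 h0)))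
  exact fun h3 => h2.2.2 p hp rfl (h3.trans (relIndex_dvd_of_le_left _ hP.1))

theorem ti_fc {H O : Subgroup G} (hTI : IsTISubset (H : Set G)) (hHO : H ≤ 𝒩(O))
    (hcop : (Nat.card H).Coprime (Nat.card O)) (hO : Group.IsSolvable O) (h : ¬ O ≤ 𝒩(H)) :
    H25.FC H := by
  have hK : ⁅O, H⁆ ≤ O := le_normalizer_iff_commutator_le_left.1 hHO
  have e := H1.commutator_commutator_eq hHO hcop (Or.inr hO)
  have hHK : H ≤ 𝒩(⁅O, H⁆) := normalizer_commutator_ge_right O H
  have h0 : ⁅O, H⁆ ≠ ⊥ := fun h0 => h ((le_cent_iff_comm.2 h0).trans (cent_le_norm H))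
  have hC : ∀ x ∈ H, x ≠ 1 → O ⊓ 𝒞₁(x) ≤ 𝒞(H) := fun x hx hx1 => by
    have h1 : O ⊓ 𝒞₁(x) ≤ 𝒩(H) := inf_le_right.trans ((cent_zpowers x).ge.trans
      ((cent_le_norm _).trans (ti_norm_le hTI (zpowers_le.2 hx) (by simpa using hx1))))
    rw [le_cent_iff_comm, eq_bot_iff, ← disjoint_iff.1 (disjoint_of_coprime_natCard hcop)]
    exact le_inf (le_normalizer_iff_commutator_le_right.1 h1)
      ((commutator_mono inf_le_left le_rfl).trans hK)
  generalize ⁅O, H⁆ = K at hK e hHK h0
  have hcK := hcop.coprime_dvd_right (card_dvd_of_le hK)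
  have hD : ⁅K, K⁆ ≤ K := comm_le_left (le_norm_self K)
  have hKD : K ≤ 𝒩(⁅K, K⁆) := normalizer_commutator_ge_left K K
  have hHD : H ≤ 𝒩(⁅K, K⁆) := H1.le_normalizer_commutator hHK hHK
  haveI := normal_subgroupOf hKD
  haveI : Nontrivial (K ⧸ (⁅K, K⁆).subgroupOf K) := QuotientGroup.nontrivial_iff.2 fun ht =>
    (H1.commutator_self_lt (H1.isSolvable_of_le hO hK) h0).not_ge
      (subgroupOf_eq_top.1 ht)
  refine H25.fc_of_aut (H7.quotAut (cjAut K H hHK) ((⁅K, K⁆).subgroupOf K) fun x v hv =>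
    H1.conj_mem_of_mem_normalizer (hHD x.2) hv) fun a ha v hv => ?_
  obtain ⟨k, rfl⟩ := QuotientGroup.mk_surjective v
  replace hv := (H7.quotAut_mk _ _ _ a k).symm.trans hv
  refine (QuotientGroup.eq_one_iff k).2 (fpf_mod (hHD a.2) hD
    ((hcK.coprime_dvd_right (card_dvd_of_le hD)).coprime_dvd_left (H.orderOf_dvd_natCard a.2)) ?_
    k.2 (mem_subgroupOf.1 (QuotientGroup.eq.1 hv.symm)))
  refine le_trans ?_ (H7.inf_centralizer_inf_commutator_le hHK hcK)
  exact le_inf (le_inf inf_le_left ((inf_le_inf_right _ hK).trans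
    (hC a a.2 fun h => ha (Subtype.ext h)))) (inf_le_left.trans e.ge)

theorem ti_structure {H : Subgroup G} (hTI : IsTISubset (H : Set G)) (hnn : ¬ H.Normal)
    (hH : (Nat.card H).Coprime (H.relIndex 𝒩(H))) (hs : H1.PiSep {p | p ∣ Nat.card H} G)
    {O : Subgroup G} (hO : O = piCore {p | p ∣ Nat.card H}ᶜ G) :
    O ⊔ 𝒩(H) = ⊤ ∧ (O ⊔ H).Normal ∧ (Group.IsSolvable G ↔ Group.IsSolvable O ∧
      ∀ K : Subgroup G, K ≤ H → ¬ Nonempty (K ≃* H25.SL25)) := by
  have hall := ti_hall hTI hH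
  generalize {p | p ∣ Nat.card H} = π at hs hO hall
  subst hO
  set O := piCore πᶜ G with hO
  have hπ : H1.IsPiNat πᶜ (Nat.card O) := H1.isPiNat_card_piCore _
  have hcop : (Nat.card H).Coprime (Nat.card O) := (H1.IsPiHallOf.isPiNat hall).coprime hπ
  have hq := H1.piCore_quotient_piCore (G := G) πᶜ
  have hOL := H1.le_relCore_self π O
  have hT := H1.IsPiHallOf.inf hall (N := H1.relCore π O) le_top le_normalizer_of_normal
  have hO' : IsPiHallOf πᶜ O (H1.relCore π O) := ⟨hOL, hπ, fun p hp h h' =>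
    h (H1.isPiNat_relIndex_relCore π O p hp h')⟩
  have e := hT.sup_compl hO'
  have h0 : H ⊓ H1.relCore π O ≠ ⊥ := fun h0 => by
    rw [h0, bot_sup_eq] at e
    have h1 : piCore π (G ⧸ O) = ⊥ := by
      rw [← H1.map_relCore_mk', ← e, Subgroup.map_eq_bot_iff, QuotientGroup.ker_mk']
    have h2 : O = ⊤ := by
      by_contra h2
      haveI := QuotientGroup.nontrivial_iff.2 h2
      exact (hs.quotient O).piCore_ne_bot.elim (fun h => h h1) fun h => h hq
    have : H = ⊥ := by
      rw [← disjoint_iff.1 (disjoint_of_coprime_natCard hcop), h2, inf_top_eq]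
    exact hnn (this ▸ normal_bot)
  have h1 : O ⊔ 𝒩(H) = ⊤ := by
    have := (hs.subgroup _).hallOK'.frattini_sup hT le_top (normalizer_eq_top _).ge
    rw [eq_top_iff, ← this, top_inf_eq]
    refine sup_le (e.ge.trans (sup_le (inf_le_left.trans (le_sup_of_le_right (le_norm_self H)))
      le_sup_left)) (le_sup_of_le_right (ti_norm_le hTI inf_le_left h0))
  haveI h2 : (O ⊔ H).Normal := normalizer_eq_top_iff.1 (top_le_iff.1 (h1.ge.trans
    (sup_le (le_sup_left.trans (le_norm_self _))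
      (H1.le_normalizer_sup le_normalizer_of_normal le_rfl))))
  refine ⟨h1, h2, fun h => ⟨inferInstance, fun K _ ⟨e⟩ => ?_⟩, fun ⟨hO, hK⟩ => ?_⟩
  · haveI := H1.isSolvable_of_mulEquiv (inferInstance : Group.IsSolvable K) e
    haveI : Nontrivial H25.SL25 := ⟨_, _, H25.sl25_neg_ne⟩
    exact (Group.IsSolvable.commutator_lt_top_of_nontrivial H25.SL25).ne H25.sl25_perfect
  have hFC := ti_fc hTI le_normalizer_of_normal hcop hO fun h => hnn (normalizer_eq_top_iff.1 (by
    rw [← h1, sup_eq_right.2 h]))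
  have hH : Group.IsSolvable H := by
    by_contra h
    obtain ⟨f, hf, -⟩ := hFC.exists_sl25 h
    exact hK (H.subtype.comp f).range (by rintro _ ⟨x, rfl⟩; exact (f x).2)
      ⟨(MonoidHom.ofInjective (f := H.subtype.comp f) (H.subtype_injective.comp hf)).symm⟩
  by_cases h3 : 2 ∣ Nat.card H
  · refine H1.isSolvable_of_normal_quotient (O ⊔ H)
      (sup_comm H O ▸ H1.isSolvable_sup hH hO le_normalizer_of_normal) (H1.ft_not_two fun h => ?_)
    refine hall.2.2 2 Nat.prime_two (hall.2.1 2 Nat.prime_two h3) ?_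
    rw [relIndex_top_right]
    exact h.trans (index_dvd_of_le le_sup_right)
  let f := QuotientGroup.mk' O
  have hf : Function.Surjective f := QuotientGroup.mk'_surjective O
  have e1 : (O ⊔ H).map f = H.map f := by
    rw [Subgroup.map_sup, (Subgroup.map_eq_bot_iff _).2 (QuotientGroup.ker_mk' O).ge, bot_sup_eq]
  haveI : (H.map f).Normal := e1 ▸ h2.map f hf
  have hall' := H1.IsPiHallOf.map hall f
  rw [map_top_of_surjective f hf] at hall'
  have e2 : H.map f = piCore π (G ⧸ O) := le_antisymm (H1.le_piCore (H1.IsPiHallOf.isPiNat hall'))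
    (H1.IsPiHallOf.le_of_normalizes hall' le_top le_normalizer_of_normal (H1.isPiNat_card_piCore π))
  haveI := hFC.isZGroup h3
  refine H1.isSolvable_of_normal_quotient O hO (solv_of_zgroup_normal (H.map f)
    (IsZGroup.of_surjective (f.subgroupMap_surjective H)) ?_)
  rw [e2]
  exact (hs.quotient O).centralizer_piCore_le hq

end H9
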