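import Cfsg.Agent.H9.Tt1
import Cfsg.Agent.H29.Tits

/-! The Tits group has no doubly transitive action. -/

set_option autoImplicit false

namespace H9.Tt

open H29 MulAction Subgroup

variable {G : Type*} [Group G]

theorem sub_of_ok [Finite G] {M : Model G} (he : M.eqb = Nat.beq) {u : ℕ} {L C : List ℕ} {x : G}
    (hx : M.R u x) (hL : ∀ c ∈ L, M.In ⊤ c) (hC : ∀ c ∈ C, M.In ⊤ c)
    (h : grpOK M.mul M.one u L C = true) (nd : L.Nodup) (h1 : M.one ∈ L) :
    ∃ S : Subgroup G, Nat.card S = L.length ∧ ∀ g ∈ S, g ≠ 1 → IsConj x g := by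
  obtain ⟨h2, h3⟩ := band_iff.mp h
  let S : Submonoid G :=
    { carrier := {g | ∃ c ∈ L, M.R c g}
      one_mem' := ⟨_, h1, M.R_one⟩
      mul_mem' := by
        rintro a b ⟨c, hc, ha⟩ ⟨d, hd, hb⟩
        obtain ⟨e, he1, he2⟩ := anyL_iff.mp (allL_spec (allL_spec h2 c hc) d hd)
        exact ⟨e, he1, Nat.eq_of_beq_eq_true he2 ▸ M.R_mul ha hb⟩ }
  refine ⟨{ S with inv_mem' := fun {g} hg => ?_ }, ?_, ?_⟩
  · have := S.pow_mem hg (orderOf g - 1)
    rwa [eq_inv_of_mul_eq_one_left (a := g ^ (orderOf g - 1)) (b := g) (by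
      rw [← pow_succ, Nat.sub_add_cancel (orderOf_pos g), pow_orderOf_eq_one])] at this
  · choose f _ hf using hL
    have : Function.Bijective fun c : L.toFinset => (⟨f c (List.mem_toFinset.mp c.2),
        c, List.mem_toFinset.mp c.2, hf _ _⟩ : S) := by
      refine ⟨fun c d e => Subtype.ext (Nat.eq_of_beq_eq_true ?_), ?_⟩
      · rw [← he]
        exact (M.eqb_iff (hf _ _) (hf _ _)).mpr (congrArg Subtype.val e)
      · rintro ⟨g, c, hc, hg⟩
        exact ⟨⟨c, List.mem_toFinset.mpr hc⟩, Subtype.ext (M.unique (hf _ _) hg)⟩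
    refine (Nat.card_eq_of_bijective _ this).symm.trans ?_
    rw [Nat.card_eq_fintype_card, Fintype.card_coe, List.toFinset_card_of_nodup nd]
  · rintro g ⟨c, hc, hg⟩ hg1
    rcases Bool.or_eq_true_iff.mp (allL_spec h3 c hc) with e | e
    · exact absurd (M.eq_of hg M.R_one (he ▸ e)) hg1
    · obtain ⟨k, hk, e2⟩ := anyL_iff.mp e
      obtain ⟨t, -, ht⟩ := hC k hk
      exact isConj_iff.mpr ⟨t, mul_inv_eq_iff_eq_mul.mpr
        (M.eq_of (M.R_mul ht hx) (M.R_mul hg ht) (he ▸ e2))⟩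

variable {Ω : Type*} [Fintype Ω] [MulAction G Ω]

theorem fx_conj {x g : G} (h : IsConj x g) : Nat.card (fixedBy Ω g) = Nat.card (fixedBy Ω x) := by
  obtain ⟨t, rfl⟩ := isConj_iff.mp h
  rw [← smul_fixedBy]
  exact Nat.card_congr (Equiv.Set.image _ _ (MulAction.injective t)).symm

theorem fx_lt [FaithfulSMul G Ω] {x : G} (h : x ≠ 1) : Nat.card (fixedBy Ω x) < Fintype.card Ω := by
  rw [Nat.card_coe_set_eq, ← Nat.card_eq_fintype_card, ← Set.ncard_univ Ω]
  exact Set.ncard_lt_ncard (Set.ssubset_univ_iff.mpr fun e => h (fixedBy_eq_univ_iff_eq_one.mp e))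

theorem burn [Finite G] {S : Subgroup G} {x : G} (h : ∀ g ∈ S, g ≠ 1 → IsConj x g) :
    Fintype.card Ω + (Nat.card S - 1) * Nat.card (fixedBy Ω x) =
      Nat.card (orbitRel.Quotient S Ω) * Nat.card S := by
  classical
  haveI := Fintype.ofFinite S
  haveI := Fintype.ofFinite (orbitRel.Quotient S Ω)
  have := sum_card_fixedBy_eq_card_orbits_mul_card_group S Ω
  rw [← Finset.add_sum_erase _ _ (Finset.mem_univ 1), Finset.sum_congr rfl (g := fun _ =>
    Nat.card (fixedBy Ω x)) fun g hg => by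
      rw [← Nat.card_eq_fintype_card]
      exact fx_conj (h g g.2 fun e => Finset.ne_of_mem_erase hg (Subtype.ext e))] at this
  simp only [Nat.card_eq_fintype_card] at this ⊢
  rw [← this]
  simp

theorem orb_le [Finite G] {S : Subgroup G} (hS : Nat.card S = 25)
    (h : ∀ w : Ω, ¬ S ≤ stabilizer G w) :
    Nat.card (orbitRel.Quotient S Ω) * 5 ≤ Fintype.card Ω := by
  classical
  haveI := Fintype.ofFinite (orbitRel.Quotient S Ω)
  rw [← Nat.card_eq_fintype_card, Nat.card_congr (selfEquivSigmaOrbits S Ω), Nat.card_sigma,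
    Nat.card_eq_fintype_card, ← smul_eq_mul, ← Finset.card_univ, ← Finset.sum_const]
  refine Finset.sum_le_sum fun q _ => ?_
  have h1 : Nat.card (orbit S q.out) ∣ 5 ^ 2 := by
    rw [Nat.card_coe_set_eq, ← index_stabilizer]
    exact (show Nat.card S = 5 ^ 2 from hS) ▸ index_dvd_card _
  obtain ⟨k, hk, e⟩ := (Nat.dvd_prime_pow (by norm_num)).mp h1
  rcases k with _ | k
  · refine absurd (fun g hg => ?_) (h q.out)
    rw [Nat.card_coe_set_eq, ← index_stabilizer, pow_zero, index_eq_one] at e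
    exact (e.ge (mem_top (⟨g, hg⟩ : S)) :)
  · rw [e, pow_succ]; exact Nat.le_mul_of_pos_left _ (by positivity)

set_option maxRecDepth 100000 in
theorem arith : ∀ n < 4300, n * (n - 1) ∣ 17971200 → 27 ≤ n → n = 27 ∨ n = 40 ∨ n = 65 := by
  decide +kernel

theorem main [Finite G] [FaithfulSMul G Ω] (hG : Nat.card G = 17971200) {R P : Subgroup G}
    {h a y : G} (hR : Nat.card R = 27) (hP : Nat.card P = 25) (h1 : ∀ g ∈ R, g ≠ 1 → IsConj h g)
    (h2 : ∀ g ∈ P, g ≠ 1 → IsConj a g) (hy : y * h = h * y ^ 9) (y13 : y ^ 13 = 1) (y1 : y ≠ 1)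
    (h3 : h ^ 3 = 1) (hh : h ≠ 1) (ha : a ≠ 1) : ¬ IsMultiplyPretransitive G Ω 2 := by
  classical
  intro ht
  have b1 := burn (Ω := Ω) h1
  have b2 := burn (Ω := Ω) h2
  have l1 := fx_lt (Ω := Ω) hh
  have l2 := fx_lt (Ω := Ω) ha
  rw [hR] at b1
  rw [hP] at b2
  have n27 : 27 ≤ Fintype.card Ω := by omega
  have hd : Fintype.card Ω * (Fintype.card Ω - 1) ∣ 17971200 := by
    obtain ⟨e⟩ : Nonempty (Fin 2 ↪ Ω) := Function.Embedding.nonempty_of_card_le (by simp; omega)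
    have := index_dvd_card (stabilizer G e)
    rw [index_stabilizer_of_transitive, hG, Nat.card_eq_fintype_card, Fintype.card_embedding_eq]
      at this
    simpa [Nat.descFactorial, mul_comm] using this
  have hn := arith _ (by
    by_contra hc
    have := Nat.le_of_dvd (by norm_num) hd
    have : 4300 * 4299 ≤ Fintype.card Ω * (Fintype.card Ω - 1) := Nat.mul_le_mul (by omega) (by omega)
    omega) hd n27
  haveI := isPretransitive_of_is_two_pretransitive (G := G) (α := Ω)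
  have k : ¬ 25 * Fintype.card Ω ∣ 17971200 → Fintype.card Ω = 40 ∨ Fintype.card Ω = 65 → False :=
      fun hc h5 => by
    have := orb_le (Ω := Ω) hP fun w hw => hc (by
      rw [← hG, ← (stabilizer G w).card_mul_index, index_stabilizer_of_transitive, ← hP,
        Nat.card_eq_fintype_card (α := Ω)]
      exact Nat.mul_dvd_mul_right (card_dvd_of_le hw) _)
    clear hc hd hn
    omega
  rcases hn with hn | hn | hn
  · haveI : Fact (Nat.Prime 3) := ⟨Nat.prime_three⟩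
    haveI : Fact (Nat.Prime 13) := ⟨by norm_num⟩
    have l3 := fx_lt (Ω := Ω) y1
    have c1 := Equiv.Perm.card_fixedPoints_modEq (f := toEndHom (M := G) (α := Ω) y) (p := 13) (n := 1)
      (by rw [pow_one, ← map_pow, y13, map_one])
    replace c1 : Fintype.card Ω ≡ Nat.card (fixedBy Ω y) [MOD 13] :=
      c1.trans (by rw [← Nat.card_eq_fintype_card]; rfl)
    obtain ⟨w, hw⟩ := Equiv.Perm.exists_fixed_point_of_prime (p := 3) (n := 1) (α := fixedBy Ω y)
      (σ := (toPermHom G Ω h).subtypePermOfFintype (p := (· ∈ fixedBy Ω y)) fun w hw => by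
        change y • h • w = h • w
        rw [← mul_smul, hy, mul_smul, show y ^ 9 • w = w from (stabilizer G w).pow_mem hw 9])
      (by rw [← Nat.card_eq_fintype_card]; unfold Nat.ModEq at c1; omega)
      (by rw [pow_one, Equiv.Perm.subtypePerm_pow]
          exact Equiv.ext fun w => Subtype.ext (by
            change (toPermHom G Ω h ^ 3) w = w
            rw [← map_pow, h3, map_one]; rfl))
    have : Nat.card (fixedBy Ω h) ≠ 0 :=
      Nat.card_ne_zero.mpr ⟨⟨⟨w, congrArg Subtype.val hw⟩⟩, inferInstance⟩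
    omega
  · exact k (by rw [hn]; norm_num) (by omega)
  · exact k (by rw [hn]; norm_num) (by omega)

theorem tits {Ω : Type*} [Fintype Ω] [MulAction Cfsg.Lie.TitsGroup Ω]
    [FaithfulSMul Cfsg.Lie.TitsGroup Ω] : ¬ IsMultiplyPretransitive Cfsg.Lie.TitsGroup Ω 2 := by
  obtain ⟨M, -, e1, e2, e3, hg, -, -, -, -, -, hN, -⟩ := tits_model
  haveI := Nat.finite_of_card_ne_zero (hN.trans_ne (by norm_num))
  have hb := in_of_slpW _ hg (e1 ▸ e3 ▸ ok_base)
  obtain ⟨h, -, hh⟩ := hb eh (by simp)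
  obtain ⟨a, -, ha⟩ := hb ea (by simp)
  obtain ⟨y0, y1, y2, y3, y4, y5, y6⟩ := ok_y
  obtain ⟨y, -, hy⟩ := hg ey y0
  rw [← e1, ← e3, ← e2] at y1 y2 y4
  rw [← e3, ← e2] at y3 y5 y6
  obtain ⟨R, hR, h1⟩ := sub_of_ok e2 hh (in_of_slpW _ hb (e1 ▸ e3 ▸ ok_lR))
    (in_of_slpW _ hg (e1 ▸ e3 ▸ ok_cR)) (e1 ▸ e3 ▸ ok_R) nd_R.1 (e3 ▸ nd_R.2.2)
  obtain ⟨P, hP, h2⟩ := sub_of_ok e2 ha (in_of_slpW _ hb (e1 ▸ e3 ▸ ok_lP))
    (in_of_slpW _ hg (e1 ▸ e3 ▸ ok_cP)) (e1 ▸ e3 ▸ ok_P) nd_P.1 (e3 ▸ nd_P.2.2)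
  exact main hN (hR.trans nd_R.2.1) (hP.trans nd_P.2.1) h1 h2
    (M.eq_of (M.R_mul hy hh) (M.R_mul hh (M.R_pw hy 9)) y1) (M.eq_of (M.R_pw hy 13) M.R_one y2)
    (M.ne_of hy M.R_one y3) (M.eq_of (M.R_pw hh 3) M.R_one y4) (M.ne_of hh M.R_one y5)
    (M.ne_of ha M.R_one y6)

end H9.Tt
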